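import Cfsg.Statements.S5712
import Cfsg.Agent.H9.Sp.Pt3
import Cfsg.Agent.H5.Cores

set_option autoImplicit false
open Cfsg

namespace Cfsg.Agent.S5712

/-- Let F be a finite field of characteristic two, n ≥ 2, V = F^{2n} with the non-degenerate alternating form f(u, v) = Σ (u_i v_{n+i} + u_{n+i} v_i), and G the group of invertible matrices preserving f. Let a ≠ 0 be a vector, H its stabilizer in G, and X a subgroup of O₂(H) of order |F|^{2n−2} no element of which is a transvection (no element g has g − 1 of rank one). If L is a subgroup of G containing X that acts irreducibly on V (no proper non-zero L-invariant subspace), then L = G, or, for some quadratic form Q on V whose polar form is f, L is the isometry group of Q or its subgroup of the isometries g for which g − 1 has even rank, or |F| = 2, n = 2 and L is isomorphic to the alternating group of degree 6 or to the symmetric group of degree 5. -/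
theorem result {F : Type*} [Field F] [Fintype F] [CharP F 2] {n : ℕ} (hn : 2 ≤ n) (a : (Fin n ⊕ Fin n → F)) (ha : a ≠ 0)
    (X : Subgroup (GL (Fin n ⊕ Fin n) F)) (hXG : X ≤ Cfsg.preserving (Units.coeHom (Matrix (Fin n ⊕ Fin n) (Fin n ⊕ Fin n) F)) (fun u v : (Fin n ⊕ Fin n → F) => ∑ i : Fin n, (u (Sum.inl i) * v (Sum.inr i) + u (Sum.inr i) * v (Sum.inl i))))
    (hXO : ∀ H : Subgroup (GL (Fin n ⊕ Fin n) F),
      (∀ g : GL (Fin n ⊕ Fin n) F, g ∈ H ↔ (g ∈ Cfsg.preserving (Units.coeHom (Matrix (Fin n ⊕ Fin n) (Fin n ⊕ Fin n) F)) (fun u v : (Fin n ⊕ Fin n → F) => ∑ i : Fin n, (u (Sum.inl i) * v (Sum.inr i) + u (Sum.inr i) * v (Sum.inl i))) ∧ Matrix.mulVec (g : Matrix (Fin n ⊕ Fin n) (Fin n ⊕ Fin n) F) a = a)) →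
      X ≤ (Cfsg.pCore 2 ↥H).map H.subtype)
    (hcard : Nat.card ↥X = Fintype.card F ^ (2 * n - 2))
    (hntv : ∀ x ∈ X, ((x : Matrix (Fin n ⊕ Fin n) (Fin n ⊕ Fin n) F) - 1).rank ≠ 1)
    (L : Subgroup (GL (Fin n ⊕ Fin n) F)) (hXL : X ≤ L) (hLG : L ≤ Cfsg.preserving (Units.coeHom (Matrix (Fin n ⊕ Fin n) (Fin n ⊕ Fin n) F)) (fun u v : (Fin n ⊕ Fin n → F) => ∑ i : Fin n, (u (Sum.inl i) * v (Sum.inr i) + u (Sum.inr i) * v (Sum.inl i))))
    (hirr : ∀ W : Submodule F (Fin n ⊕ Fin n → F), (∀ g ∈ L, ∀ w ∈ W, Matrix.mulVec (g : Matrix (Fin n ⊕ Fin n) (Fin n ⊕ Fin n) F) w ∈ W) → W = ⊥ ∨ W = ⊤) :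
    L = Cfsg.preserving (Units.coeHom (Matrix (Fin n ⊕ Fin n) (Fin n ⊕ Fin n) F)) (fun u v : (Fin n ⊕ Fin n → F) => ∑ i : Fin n, (u (Sum.inl i) * v (Sum.inr i) + u (Sum.inr i) * v (Sum.inl i))) ∨
    (∃ Q : QuadraticForm F (Fin n ⊕ Fin n → F), (∀ u v, QuadraticMap.polar ⇑Q u v = (fun u v : (Fin n ⊕ Fin n → F) => ∑ i : Fin n, (u (Sum.inl i) * v (Sum.inr i) + u (Sum.inr i) * v (Sum.inl i))) u v) ∧
      (L = Cfsg.isometryGroup F ⇑Q ∨
        ∀ g : GL (Fin n ⊕ Fin n) F, g ∈ L ↔ (g ∈ Cfsg.isometryGroup F ⇑Q ∧ Even ((g : Matrix (Fin n ⊕ Fin n) (Fin n ⊕ Fin n) F) - 1).rank))) ∨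
    (Fintype.card F = 2 ∧ n = 2 ∧ (Nonempty (↥L ≃* ↥(alternatingGroup (Fin 6))) ∨ Nonempty (↥L ≃* Equiv.Perm (Fin 5)))) := by
--PROOF
  classical
  have h2 : (2 : F) = 0 := by exact_mod_cast CharP.cast_eq_zero F 2
  have hB := H9.Sp.symp_B0 n F
  have hf : (fun u v : (Fin n ⊕ Fin n → F) => ∑ i : Fin n,
      (u (Sum.inl i) * v (Sum.inr i) + u (Sum.inr i) * v (Sum.inl i))) =
      fun u v => H9.Sp.B0 n F u v := by
    funext u v
    rw [H9.Sp.B0_apply, H9.Sp.sympForm_eq]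
    exact Finset.sum_congr rfl fun i _ => by linear_combination u (.inl i) * v (.inr i) * h2
  have hf' := congrFun₂ hf
  simp only [hf] at hXG hXO hLG ⊢
  have hG : ∀ g : GL (Fin n ⊕ Fin n) F, g ∈ Cfsg.preserving
      (Units.coeHom (Matrix (Fin n ⊕ Fin n) (Fin n ⊕ Fin n) F)) (fun u v => H9.Sp.B0 n F u v) ↔
      H6.gl0 g ∈ H9.Sp.Sp (H9.Sp.B0 n F) := fun g => Iff.rfl
  have hrk : ∀ g : GL (Fin n ⊕ Fin n) F, ((g : Matrix (Fin n ⊕ Fin n) (Fin n ⊕ Fin n) F) - 1).rank =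
      H9.Sp.rk (H6.gl0 g) := by
    intro g
    rw [Matrix.rank, H9.Sp.rk, H6.gl0_coe]
    refine congrArg (fun K : Submodule F _ => Module.finrank F K) (congrArg _ ?_)
    apply LinearMap.ext; intro v; simp [Matrix.sub_mulVec]
  have hmem : ∀ (M : Subgroup (GL (Fin n ⊕ Fin n) F)) g,
      H6.gl0 g ∈ M.map (H6.gl0 (ι := Fin n ⊕ Fin n) (F := F)).toMonoidHom ↔ g ∈ M :=
    fun M g => Subgroup.mem_map_iff_mem H6.gl0.injective
  have hdim := H9.Sp.finrank_V (m := n) (F := F)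
  obtain ⟨b, hb⟩ := hB.exists_one ha
  have hba : H9.Sp.B0 n F b a = 1 := by rw [hB.skew, hb]; linear_combination -h2
  let H : Subgroup (GL (Fin n ⊕ Fin n) F) :=
    (H9.Sp.Sp (H9.Sp.B0 n F) ⊓ MulAction.stabilizer _ a).comap H6.gl0.toMonoidHom
  have hXH := hXO H fun g => Iff.rfl
  have hgood : H9.Sp.Good (H9.Sp.B0 n F) (X.map H6.gl0.toMonoidHom) a := by
    refine H9.Sp.good_of_card hB hba ?_ ?_ ?_
    · rintro _ ⟨x, hx, rfl⟩
      obtain ⟨x, hx', rfl⟩ := hXH hx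
      refine H9.Sp.exists_R_of_trivial hB hba x.2.1 x.2.2 fun w hw => ?_
      exact H9.Sp.trivial_of_pgroup (p := 2) hB (by omega) (H6.gl0.toMonoidHom.comp H.subtype)
        (fun g => g.2) (fun k h1 h3 => ⟨⟨H6.gl0.symm k, by
          rw [Subgroup.mem_comap]
          erw [MulEquiv.apply_symm_apply]; exact ⟨h1, h3⟩⟩, H6.gl0.apply_symm_apply k⟩)
        (Cfsg.pCore 2 H) (H5.pCore_isPGroup 2 H) hx' w hw
    · rw [Subgroup.card_map_of_injective H6.gl0.injective, hcard, hdim, Nat.card_eq_fintype_card]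
    · rintro c ⟨_, ⟨x, hx, rfl⟩, h1⟩
      by_contra hc
      apply hntv x hx
      rw [hrk, H9.Sp.rk, ← finrank_span_singleton (K := F) ha]
      refine congrArg (fun K : Submodule F _ => Module.finrank F K) ?_
      apply le_antisymm
      · rintro _ ⟨v, rfl⟩
        have h3 : H6.gl0 x v = _ := h1 v
        simp only [LinearMap.sub_apply, LinearEquiv.coe_coe, h3, Module.End.one_apply,
          add_sub_cancel_left]
        exact Submodule.smul_mem _ _ (Submodule.mem_span_singleton_self a)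
      · rw [Submodule.span_singleton_le_iff_mem]
        refine ⟨c⁻¹ • b, ?_⟩
        have h3 : H6.gl0 x b = _ := h1 b
        simp [h3, hba, smul_smul, hc]
  have hgood' : H9.Sp.Good (H9.Sp.B0 n F) (L.map H6.gl0.toMonoidHom) a := fun y hy => by
    obtain ⟨c, g, hg, h1⟩ := hgood y hy
    exact ⟨c, g, Subgroup.map_mono hXL hg, h1⟩
  rcases H9.Sp.point_cases hB h2 (by omega) (by
      rintro _ ⟨g, hg, rfl⟩; exact hLG hg) ha hgood' (fun W hW => hirr W fun g hg w hw =>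
        hW _ ⟨g, hg, rfl⟩ w hw) with h | ⟨Q, hQ, h⟩ | ⟨h3, h4, h⟩
  · left
    ext g
    rw [hG, ← h, hmem]
  · right; left
    have hp : ∀ u v, QuadraticMap.polar Q u v = H9.Sp.B0 n F u v := fun u v => by
      rw [QuadraticMap.polar, hQ.add]; ring
    refine ⟨QuadraticMap.ofPolar Q (fun c x => by rw [hQ.smul, smul_eq_mul, sq])
      (fun x x' y => by simp [hp]) (fun c x y => by simp [hp]),
      fun u v => (hp u v).trans (hf' u v).symm, ?_⟩
    have hO : ∀ g : GL (Fin n ⊕ Fin n) F, g ∈ Cfsg.isometryGroup F Q ↔ H6.gl0 g ∈ H9.Sp.OQ Q :=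
      fun g => ⟨fun h v => h v v, fun h u v => h u⟩
    rcases h with h | h
    · left
      ext g
      rw [← hmem, h]
      exact (hO g).symm
    · right
      intro g
      rw [← hmem, h, hrk]
      exact and_congr_left fun _ => (hO g).symm
  · right; right
    have e := L.equivMapOfInjective (H6.gl0 (ι := Fin n ⊕ Fin n) (F := F)).toMonoidHom
      H6.gl0.injective
    refine ⟨?_, by omega, h.imp (fun ⟨e'⟩ => ⟨e.trans e'⟩) fun ⟨e'⟩ => ⟨e.trans e'⟩⟩
    have : (Finset.univ : Finset F) = {0, 1} := by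
      ext t; simpa using h3 t
    rw [← Finset.card_univ, this, Finset.card_pair zero_ne_one]

end Cfsg.Agent.S5712
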