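import Cfsg.Statements.S5713
import Cfsg.Agent.H3.SmallSupport
import Cfsg.Agent.H3.SylowOrbit

set_option autoImplicit false
open Cfsg

namespace Cfsg.Agent.S5713

open Cfsg.Agent.H3 MulAction
open scoped Pointwise

section
variable (G : Type*) {Ω : Type*} [Group G] [MulAction G Ω]

/-- Points that distinguish `x` and `y`. -/
def Psi (x y : Ω) : Set Ω := {c | ∀ h : G, h • c = c → h • x ≠ y}

variable {G}

theorem psi_symm (x y : Ω) : Psi G x y = Psi G y x := by
  have : ∀ x y : Ω, Psi G x y ⊆ Psi G y x := fun x y c hc h h1 h2 =>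
    hc h⁻¹ (inv_smul_eq_iff.2 h1.symm) (inv_smul_eq_iff.2 h2.symm)
  exact (this x y).antisymm (this y x)

theorem psi_smul (g : G) (x y : Ω) : (Psi G (g • x) (g • y)).ncard = (Psi G x y).ncard := by
  rw [← Set.ncard_smul_set g (Psi G x y)]
  congr 1
  ext c
  rw [Set.mem_smul_set_iff_inv_smul_mem]
  constructor
  · intro hc h h1 h2
    refine hc (g * h * g⁻¹) ?_ ?_
    · rw [mul_smul, mul_smul, h1, smul_inv_smul]
    · rw [mul_smul, mul_smul, inv_smul_smul, h2]
  · intro hc h h1 h2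
    refine hc (g⁻¹ * h * g) ?_ ?_
    · rw [mul_smul, mul_smul, smul_inv_smul, h1]
    · rw [mul_smul, mul_smul, h2, inv_smul_smul]

theorem psi_tri [Finite Ω] (x y z : Ω) :
    (Psi G x z).ncard ≤ (Psi G x y).ncard + (Psi G y z).ncard := by
  refine (Set.ncard_le_ncard (fun c hc => ?_) (Set.toFinite _)).trans (Set.ncard_union_le _ _)
  by_contra hn
  simp only [Psi, Set.mem_union, Set.mem_ofPred_eq, not_or, not_forall, not_not] at hn
  obtain ⟨⟨h, h1, h2⟩, k, h3, h4⟩ := hn
  exact hc (k * h) (by rw [mul_smul, h1, h3]) (by rw [mul_smul, h2, h4])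

theorem ncard_le_mul' {A B : Type*} [Finite A] [Finite B] {S : Set A} {T : Set B} {W : A → Set B}
    {y : ℕ} (hy : ∀ i ∈ S, (W i).ncard ≤ y) (hT : ∀ x ∈ T, ∃ i ∈ S, x ∈ W i) :
    T.ncard ≤ S.ncard * y := by
  classical
  have := Fintype.ofFinite S
  have h1 : T ⊆ ⋃ i : S, W i := fun x hx => by
    obtain ⟨i, hi, h⟩ := hT x hx
    exact Set.mem_iUnion.2 ⟨⟨i, hi⟩, h⟩
  refine (Set.ncard_le_ncard h1 (Set.toFinite _)).trans ((Set.ncard_iUnion_le_of_fintype _).trans ?_)
  rw [← Nat.card_coe_set_eq, Nat.card_eq_fintype_card, ← Finset.card_univ, ← smul_eq_mul]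
  exact Finset.sum_le_card_nsmul _ _ _ (fun i _ => hy i i.2)

theorem exists_big [Finite Ω] (hprim : IsPreprimitive G Ω)
    (h2 : ∃ a b c : Ω, b ≠ a ∧ c ≠ a ∧ ∀ h : G, h • a = a → h • b ≠ c) :
    ∃ x y : Ω, Nat.card Ω ≤ (Psi G x y).ncard ^ 2 := by
  classical
  obtain ⟨a, b, c, hb, hc, habc⟩ := h2
  obtain ⟨⟨x₀, z₀⟩, h0, hmax⟩ := Set.exists_max_image {p : Ω × Ω | p.2 ≠ p.1}
    (fun p => (orbit (stabilizer G p.1) p.2).ncard) (Set.toFinite _) ⟨(a, b), hb⟩
  dsimp only at h0 hmax
  set M := (orbit (stabilizer G x₀) z₀).ncard with hM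
  have hM1 : 1 ≤ M := (Set.ncard_pos (Set.toFinite _)).2 ⟨z₀, mem_orbit_self _⟩
  let out : Ω → Set Ω := fun x => {y | ∀ g : G, g • x₀ = x → g • z₀ ≠ y}
  have hs : ∀ (g : G) x y, y ∈ out x → g • y ∈ out (g • x) := fun g x y hy k h1 h2 =>
    hy (g⁻¹ * k) (by rw [mul_smul, h1, inv_smul_smul]) (by rw [mul_smul, h2, inv_smul_smul])
  have hself : ∀ x, x ∈ out x := fun x g h1 h2 => h0 (MulAction.injective g (h2.trans h1.symm))
  have hcard : ∀ x, (out x).ncard + M = Nat.card Ω := fun x => by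
    obtain ⟨g, rfl⟩ := hprim.toIsPretransitive.exists_smul_eq x₀ x
    rw [hM, ← Set.ncard_smul_set g (orbit _ _), ← Set.ncard_add_ncard_compl (out (g • x₀))]
    congr 2
    ext y
    simp only [out, Set.mem_compl_iff, Set.mem_ofPred_eq, not_forall, not_not]
    constructor
    · rintro ⟨_, ⟨⟨k, hk⟩, rfl⟩, rfl⟩
      exact ⟨g * k, by rw [mul_smul, hk], mul_smul _ _ _⟩
    · rintro ⟨k, h1, rfl⟩
      exact ⟨(g⁻¹ * k) • z₀, ⟨⟨g⁻¹ * k, by rw [mem_stabilizer_iff, mul_smul, h1, inv_smul_smul]⟩, rfl⟩,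
        by simp [mul_smul]⟩
  obtain ⟨x, y, z, hy, hz, hz'⟩ : ∃ x y z, y ∈ out x ∧ z ∈ out y ∧ z ∉ out x := by
    by_contra hcon
    push Not at hcon
    have e : ∀ x y, y ∈ out x → out y = out x := fun x y hy =>
      Set.eq_of_subset_of_ncard_le (fun z hz => hcon x y z hy hz)
        (by have := hcard x; have := hcard y; omega) (Set.toFinite _)
    obtain ⟨d, hd, hda⟩ : ∃ d ∈ out a, d ≠ a := by
      by_contra hn
      push Not at hn
      have h1 : b ∉ out a := fun h => hb (hn b h)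
      have h2 : c ∉ out a := fun h => hc (hn c h)
      simp only [out, Set.mem_ofPred_eq, not_forall, not_not] at h1 h2
      obtain ⟨g, h1, h1'⟩ := h1
      obtain ⟨k, h2, h2'⟩ := h2
      exact habc (k * g⁻¹) (by rw [mul_smul, ← h1, inv_smul_smul, h2, h1])
        (by rw [mul_smul, ← h1', inv_smul_smul, h2'])
    obtain ⟨g, hg⟩ := hprim.toIsPretransitive.exists_smul_eq x₀ a
    exact prim_block hprim (B := out a) (fun g u hu hgu w hw => by
      rw [← e a _ hgu]
      exact hs g u w (by rwa [e a u hu])) (hself a) hd hda.symm (g • z₀) g hg rfl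
  obtain ⟨k, hk⟩ : ∃ k, Nat.card Ω = k + 1 + M := by
    have := hcard x
    have := (Set.ncard_pos (Set.toFinite _)).2 ⟨x, hself x⟩
    exact ⟨(out x).ncard - 1, by omega⟩
  have h3 : ∀ x, (out x \ {x}).ncard = k := fun x => by
    rw [Set.ncard_sdiff_singleton_of_mem (hself x)]
    have := hcard x
    omega
  have h4 : (out x)ᶜ.ncard ≤ (out x \ {x}).ncard * k :=
    ncard_le_mul' (W := fun y => out y \ {y}) (fun i _ => (h3 i).le) (fun w hw => by
      simp only [out, Set.mem_compl_iff, Set.mem_ofPred_eq, not_forall, not_not] at hw hz'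
      obtain ⟨g, h1, rfl⟩ := hw
      obtain ⟨g', h2, h2'⟩ := hz'
      have e1 : (g * g'⁻¹) • x = x := by rw [mul_smul, ← h2, inv_smul_smul, h1, h2]
      have e2 : (g * g'⁻¹) • z = g • z₀ := by rw [mul_smul, ← h2', inv_smul_smul]
      refine ⟨(g * g'⁻¹) • y, ⟨e1 ▸ hs _ _ _ hy, fun e => ?_⟩, e2 ▸ hs _ _ _ hz, fun e => ?_⟩
      · have : y = x := MulAction.injective _ (e.trans e1.symm)
        exact hz g' (this ▸ h2) h2'
      · have : z = y := MulAction.injective _ (e2.trans e)
        exact hy g' h2 (this ▸ h2'))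
  have h5 := Set.ncard_add_ncard_compl (out x)
  have h6 := hcard x
  rw [h3] at h4
  obtain ⟨w, -, hw⟩ := Set.exists_max_image Set.univ (fun y => (Psi G a y).ncard) (Set.toFinite _)
    ⟨a, trivial⟩
  refine ⟨a, w, le_trans ?_ (Nat.pow_le_pow_left (show k + 1 ≤ _ from ?_) 2)⟩
  · nlinarith
  · have := Fintype.ofFinite Ω
    have h7 := Finset.card_mul_le_card_mul (s := Finset.univ) (t := Finset.univ)
      (fun c y => c ∈ Psi G a y) (m := k + 1) (n := (Psi G a w).ncard) (fun c _ => by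
        have e1 := Set.ncard_add_ncard_compl (orbit (stabilizer G c) a)
        have e2 : (orbit (stabilizer G c) a).ncard ≤ M := by
          by_cases hca : a = c
          · subst hca
            refine le_trans ((Set.ncard_le_one (Set.toFinite _)).2 ?_) hM1
            rintro _ ⟨g, rfl⟩ _ ⟨g', rfl⟩
            exact g.2.trans g'.2.symm
          · exact hmax (c, a) hca
        have e3 : (orbit (stabilizer G c) a)ᶜ =
            (Finset.univ.bipartiteAbove (fun c y => c ∈ Psi G a y) c : Set Ω) := by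
          ext y
          rw [Finset.mem_coe, Finset.mem_bipartiteAbove, and_iff_right (Finset.mem_univ _)]
          exact ⟨fun h g h1 h2 => h ⟨⟨g, h1⟩, h2⟩, fun h ⟨g, hg⟩ => h g g.2 hg⟩
        rw [e3, Set.ncard_coe_finset] at e1
        omega) (fun y _ => by
        refine le_trans (le_of_eq ?_) (hw y trivial)
        rw [← Set.ncard_coe_finset]
        simp)
    have : Nonempty Ω := ⟨a⟩
    exact Nat.le_of_mul_le_mul_left h7 Finset.univ_nonempty.card_pos

theorem uni [Finite Ω] (hprim : IsPreprimitive G Ω)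
    (h2 : ∃ a b c : Ω, b ≠ a ∧ c ≠ a ∧ ∀ h : G, h • a = a → h • b ≠ c) {α β : Ω} (hne : α ≠ β) :
    Nat.card Ω ≤ 4 * (Psi G α β).ncard ^ 2 := by
  let A : Ω → Ω → Prop := fun x y => ∃ h : G, h • α = x ∧ h • β = y ∨ h • α = y ∧ h • β = x
  have hA : ∀ x y, A x y → (Psi G x y).ncard = (Psi G α β).ncard := by
    rintro _ _ ⟨h, ⟨rfl, rfl⟩ | ⟨rfl, rfl⟩⟩
    · exact psi_smul _ _ _
    · rw [psi_symm]; exact psi_smul _ _ _
  have hsym : ∀ x y, A x y → A y x := fun x y ⟨h, hh⟩ => ⟨h, hh.symm⟩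
  have hs : ∀ (g : G) x y, A x y → A (g • x) (g • y) := by
    rintro g _ _ ⟨h, ⟨rfl, rfl⟩ | ⟨rfl, rfl⟩⟩
    · exact ⟨g * h, Or.inl ⟨mul_smul _ _ _, mul_smul _ _ _⟩⟩
    · exact ⟨g * h, Or.inr ⟨mul_smul _ _ _, mul_smul _ _ _⟩⟩
  have hirr : ∀ x, ¬ A x x := by
    rintro x ⟨h, ⟨h1, h2⟩ | ⟨h1, h2⟩⟩ <;> exact hne (MulAction.injective h (h1.trans h2.symm))
  have conn : ∀ S : Set Ω, (∀ x ∈ S, ∀ y, A x y → y ∈ S) → ∀ x ∈ S, ∀ y, y ∈ S := by
    intro S hS x hx y
    have := prim_rel hprim (Relation.ReflTransGen A)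
      ⟨fun _ => .refl, fun h => by
        induction h with
        | refl => exact .refl
        | tail _ h ih => exact .head (hsym _ _ h) ih, fun h h' => h.trans h'⟩
      (fun g _ _ h => h.lift (g • ·) (hs g)) hne (.single ⟨1, Or.inl ⟨one_smul _ _, one_smul _ _⟩⟩) x y
    induction this with
    | refl => exact hx
    | tail _ h ih => exact hS _ ih _ h
  by_cases hd : ∀ y, y = α ∨ A α y ∨ ∃ z, A α z ∧ A z y
  · obtain ⟨x, y, h⟩ := exists_big hprim h2
    obtain ⟨g, rfl⟩ := hprim.toIsPretransitive.exists_smul_eq α x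
    obtain ⟨y, rfl⟩ := (MulAction.surjective g) y
    rw [psi_smul] at h
    refine h.trans ((Nat.pow_le_pow_left (show _ ≤ 2 * (Psi G α β).ncard from ?_) 2).trans_eq (by ring))
    rcases hd y with rfl | h1 | ⟨z, h1, h2⟩
    · rw [show Psi G y y = ∅ from Set.eq_empty_of_forall_notMem
        (fun c hc => hc 1 (one_smul _ _) (one_smul _ _))]
      simp
    · rw [hA _ _ h1]; omega
    · have := psi_tri (G := G) α z y
      rw [hA _ _ h1, hA _ _ h2] at this
      omega
  · obtain ⟨w, hw, δ, h1, hδ⟩ : ∃ w, (w = α ∨ A α w ∨ ∃ z, A α z ∧ A z w) ∧ ∃ δ, A w δ ∧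
        ¬ (δ = α ∨ A α δ ∨ ∃ z, A α z ∧ A z δ) := by
      by_contra hc
      simp only [not_exists, not_and, not_not] at hc
      exact hd (conn {y | y = α ∨ A α y ∨ ∃ z, A α z ∧ A z y} hc α (Or.inl rfl))
    simp only [not_or, not_exists, not_and] at hδ
    obtain ⟨z, h2, h3⟩ := (hw.resolve_left (fun e => hδ.2.1 (e ▸ h1))).resolve_left
      (fun e => hδ.2.2 w e h1)
    have h4 : {y | A α y}.ncard ≤ (Psi G α δ).ncard :=
      Set.ncard_le_ncard (fun y hy h e1 e2 => hδ.2.2 y hy (hsym _ _ (e1 ▸ e2 ▸ hs h _ _ hy)))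
        (Set.toFinite _)
    have h5 := psi_tri (G := G) α z δ
    have h6 := psi_tri (G := G) z w δ
    rw [hA _ _ h2] at h5
    rw [hA _ _ h3, hA _ _ h1] at h6
    have h7 : (Set.univ : Set Ω).ncard ≤ {y | A α y}.ncard * (Psi G α β).ncard :=
      ncard_le_mul' (W := fun y => Psi G α y) (fun i hi => (hA _ _ hi).le) (fun c _ => by
        by_contra hn
        simp only [Psi, Set.mem_ofPred_eq, not_exists, not_and, not_forall, not_not] at hn
        have h8 := conn (orbit (stabilizer G c) α) (by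
          rintro _ ⟨⟨g, hg⟩, rfl⟩ y hy
          obtain ⟨k, hk, e⟩ := hn (g⁻¹ • y) (by
            have := hs g⁻¹ _ _ hy
            rwa [show g⁻¹ • (fun m : stabilizer G c => m • α) ⟨g, hg⟩ = α from inv_smul_smul g α] at this)
          exact ⟨⟨g * k, mul_mem hg hk⟩, by
            change (g * k) • α = y
            rw [mul_smul, e, smul_inv_smul]⟩) α (mem_orbit_self _)
        obtain ⟨g, hg⟩ := h8 c
        have e1 : α = c := MulAction.injective (g : G) (hg.trans g.2.symm)
        obtain ⟨g', hg'⟩ := h8 β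
        exact hne ((e1.trans (e1 ▸ g'.2.symm)).trans hg'))
    rw [Set.ncard_univ] at h7
    nlinarith

theorem two [Finite G] [Fintype Ω] [DecidableEq Ω] (hprim : IsPreprimitive G Ω)
    (hA : ¬ alternatingGroup Ω ≤ (MulAction.toPermHom G Ω).range)
    (h2 : ∀ a b c : Ω, b ≠ a → c ≠ a → ∃ h : G, h • a = a ∧ h • b = c) {u : G} {α : Ω}
    (hα : u • α ≠ α) : Nat.card Ω ≤ {x : Ω | u • x ≠ x}.ncard ^ 2 := by
  set S := {x : Ω | u • x ≠ x} with hS
  have hcov : ∀ g ∈ (stabilizer G α : Set G), ∃ p ∈ (S \ {α}) ×ˢ (S \ {α}),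
      g ∈ {g : G | g • α = α ∧ g • p.1 = p.2} := by
    intro g hg
    by_contra hn
    have h1 : ∀ x, u • x ≠ x → (g * u * g⁻¹) • x ≠ x → x = α := fun x h1 h2 => by
      by_contra h3
      refine hn ⟨(g⁻¹ • x, x), ⟨⟨fun e => h2 ?_, fun e => h3 ?_⟩, h1, h3⟩, hg, smul_inv_smul _ _⟩
      · rw [mul_smul, mul_smul, e, smul_inv_smul]
      · exact (inv_smul_eq_iff.1 e).trans hg
    have hv : (g * u * g⁻¹) • α ≠ α := fun e => hα (by
      rw [mul_smul, mul_smul, inv_smul_eq_iff.2 (show α = g • α from hg.symm)] at e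
      exact MulAction.injective g (e.trans hg.symm))
    generalize g * u * g⁻¹ = v at h1 hv
    have h3 : u • v • α = v • α := by
      by_contra e
      exact hv (h1 _ e (fun e' => hv (MulAction.injective v e')))
    have h4 : v • u • α = u • α := by
      by_contra e
      exact hα (h1 _ (fun e' => hα (MulAction.injective u e')) e)
    refine hA (alternating_le_of_support_le_three _
      (hprim.of_surjective (f := ⟨id, fun _ _ => rfl⟩) (φ := (MulAction.toPermHom G Ω).rangeRestrict)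
        Function.surjective_id) (h := MulAction.toPermHom G Ω (u * v * u⁻¹ * v⁻¹)) ⟨_, rfl⟩ (fun e => ?_)
      ((Finset.card_le_card (t := {α, u • α, v • α}) (fun x hx => ?_)).trans Finset.card_le_three))
    · have h5 : (u * v * u⁻¹ * v⁻¹) • v • u • α = v • u • α := DFunLike.congr_fun e _
      rw [mul_smul, mul_smul, mul_smul, inv_smul_smul, inv_smul_smul, h3, h4] at h5
      exact hα (h1 _ (fun e' => hα (MulAction.injective u e')) (by
        rw [← h5]; exact fun e' => hv (MulAction.injective v e')))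
    · rw [Equiv.Perm.mem_support] at hx
      change (u * v * u⁻¹ * v⁻¹) • x ≠ x at hx
      by_contra hn
      simp only [Finset.mem_insert, Finset.mem_singleton, not_or] at hn
      apply hx
      simp only [mul_smul]
      by_cases h5 : v • x = x
      · rw [inv_smul_eq_iff.2 h5.symm]
        have : v • u⁻¹ • x = u⁻¹ • x := by
          by_cases h6 : u • x = x
          · rw [inv_smul_eq_iff.2 h6.symm, h5]
          · by_contra h7
            refine hn.2.1 (inv_smul_eq_iff.1 (h1 _ (fun e => h6 ?_) h7))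
            rw [smul_inv_smul] at e
            exact (eq_inv_smul_iff.1 e)
        rw [this, smul_inv_smul]
      · have h6 : u • x = x := by
          by_contra h6
          exact hn.1 (h1 _ h6 h5)
        have h7 : u • v⁻¹ • x = v⁻¹ • x := by
          by_contra h7
          refine hn.2.2 (inv_smul_eq_iff.1 (h1 _ h7 (fun e => h5 ?_)))
          rw [smul_inv_smul] at e
          exact (eq_inv_smul_iff.1 e)
        rw [inv_smul_eq_iff.2 h7.symm, smul_inv_smul, h6]
  have h3 := ncard_le_mul' (y := Nat.card (stabilizer G α ⊓ stabilizer G (u • α) : Subgroup G))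
    (fun p hp => by
      obtain ⟨k, hk, hk'⟩ := h2 α (u • α) p.1 hα hp.1.2
      obtain ⟨l, hl, hl'⟩ := h2 α p.2 (u • α) hp.2.2 hα
      change _ ≤ Nat.card ((stabilizer G α ⊓ stabilizer G (u • α) : Subgroup G) : Set G)
      rw [Nat.card_coe_set_eq]
      refine Set.ncard_le_ncard_of_injOn (fun g => l * g * k) (fun g hg => ⟨?_, ?_⟩)
        (fun a _ b _ e => by simpa using e) (Set.toFinite _)
      · change (l * g * k) • α = α
        rw [mul_smul, mul_smul, hk, hg.1, hl]
      · change (l * g * k) • u • α = u • α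
        rw [mul_smul, mul_smul, hk', hg.2, hl']) hcov
  have h4 := card_orbit_mul_card_inf (stabilizer G α) (u • α)
  have h5 : orbit (stabilizer G α) (u • α) = Set.univ \ {α} := by
    ext y
    constructor
    · rintro ⟨g, rfl⟩
      exact ⟨trivial, fun e => hα (MulAction.injective (g : G) (e.trans g.2.symm))⟩
    · intro hy
      obtain ⟨k, hk, hk'⟩ := h2 α (u • α) y hα hy.2
      exact ⟨⟨k, hk⟩, hk'⟩
  rw [h5, Set.ncard_sdiff_singleton_of_mem (Set.mem_univ _), Set.ncard_univ] at h4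
  rw [← Nat.card_coe_set_eq, Set.ncard_prod, Set.ncard_sdiff_singleton_of_mem (show α ∈ S from hα)] at h3
  have h6 := Nat.le_of_mul_le_mul_right (h4.le.trans h3) Nat.card_pos
  have h7 := (Set.ncard_pos (Set.toFinite S)).2 ⟨α, hα⟩
  obtain ⟨s, hs⟩ : ∃ s, S.ncard = s + 1 := ⟨S.ncard - 1, by omega⟩
  rw [hs, Nat.add_sub_cancel] at h6
  rw [hs]
  have : (s + 1) ^ 2 = s * s + 2 * s + 1 := by ring
  omega

end

/-- A classification-free minimal-degree bound. Let G be a finite group acting faithfully and primitively on a finite set Ω with n elements, and suppose that the image of G in the symmetric group on Ω does not contain the alternating group on Ω. Then every non-identity element of G moves at least (√n − 1)/2 points of Ω, that is, it fixes at most n − (√n − 1)/2 points. -/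
theorem result {G Ω : Type*} [Group G] [Finite G] [MulAction G Ω] [FaithfulSMul G Ω] [Fintype Ω] [DecidableEq Ω]
    (hprim : MulAction.IsPreprimitive G Ω)
    (hA : ¬ alternatingGroup Ω ≤ (MulAction.toPermHom G Ω).range)
    (g : G) (hg : g ≠ 1) :
    (Real.sqrt (Fintype.card Ω) - 1) / 2 ≤ (Fintype.card Ω : ℝ) - Nat.card (MulAction.fixedBy Ω g) := by
  obtain ⟨α, hα⟩ : ∃ α : Ω, g • α ≠ α := by
    by_contra hc
    push Not at hc
    exact hg (FaithfulSMul.eq_of_smul_eq_smul (α := Ω) (fun x => by rw [hc, one_smul]))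
  have h1 : Nat.card Ω ≤ (2 * {x : Ω | g • x ≠ x}.ncard) ^ 2 := by
    by_cases h2 : ∀ a b c : Ω, b ≠ a → c ≠ a → ∃ h : G, h • a = a ∧ h • b = c
    · exact (two hprim hA h2 hα).trans (Nat.pow_le_pow_left (by omega) 2)
    · push Not at h2
      refine (uni hprim h2 hα.symm).trans ?_
      rw [mul_pow]
      exact Nat.mul_le_mul_left _ (Nat.pow_le_pow_left (Set.ncard_le_ncard (s := Psi G α (g • α))
        (fun c hc e => hc g e rfl) (Set.toFinite _)) 2)
  have h2 := Set.ncard_add_ncard_compl (fixedBy Ω g)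
  change _ + {x : Ω | g • x ≠ x}.ncard = _ at h2
  rw [← Nat.card_eq_fintype_card, Nat.card_coe_set_eq]
  have h3 : Real.sqrt (Nat.card Ω) ≤ 2 * {x : Ω | g • x ≠ x}.ncard :=
    Real.sqrt_le_iff.2 ⟨by positivity, by exact_mod_cast h1⟩
  have h4 : ((fixedBy Ω g).ncard : ℝ) + {x : Ω | g • x ≠ x}.ncard = Nat.card Ω := by exact_mod_cast h2
  linarith

end Cfsg.Agent.S5713
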