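import Cfsg.Statements.S5722
import Cfsg.Agent.H3.CompBound

set_option autoImplicit false
open Cfsg

namespace Cfsg.Agent.S5722



/-- If a finite group G acts faithfully on a finite set with n points and r orbits, then the composition length of G is at most 4(n − r)/3. Here the composition length is expressed through chains: the conclusion bounds the length l of every chain of subgroups 1 = H₀ < H₁ < ⋯ < H_l = G in which each term is normal in the next (the longest such chains are exactly the composition series). -/
theorem result {G Ω : Type*} [Group G] [Finite G] [MulAction G Ω] [FaithfulSMul G Ω] [Fintype Ω]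
    (l : ℕ) (H : Fin (l + 1) → Subgroup G) (h0 : H 0 = ⊥) (hl : H (Fin.last l) = ⊤)
    (hchain : ∀ i : Fin l, H i.castSucc < H i.succ ∧ ((H i.castSucc).subgroupOf (H i.succ)).Normal) :
    3 * l ≤ 4 * (Fintype.card Ω - Nat.card (Quotient (MulAction.orbitRel G Ω))) := by
  classical
  have hch : ∀ i : Fin (l + 1), H3.Ch ⊥ (H i) i := by
    intro i
    induction i using Fin.induction with
    | zero => rw [h0]; exact .refl _
    | succ i ih =>
      exact ih.step (hchain i).1 fun c hc b hb =>
        (Subgroup.normal_subgroupOf_iff (hchain i).1.le).1 (hchain i).2 b c hb hc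
  have h1 := hch (Fin.last l)
  rw [hl, Fin.val_last] at h1
  have hinj : Function.Injective (MulAction.toPermHom G Ω) := MulAction.toPerm_injective
  have e : G ≃* (MulAction.toPermHom G Ω).range := MonoidHom.ofInjective hinj
  have := Fintype.ofFinite (Quotient (MulAction.orbitRel G Ω))
  have h2 := H3.cb_main _ (MulAction.toPermHom G Ω).range Ω rfl
    (fun g hg => Subtype.ext (Equiv.ext hg))
    (Finset.univ.image (Quotient.out (s := MulAction.orbitRel G Ω))) (by
      intro _ hx _ hy ⟨_, g, rfl⟩ h
      obtain ⟨x, -, rfl⟩ := Finset.mem_image.1 hx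
      obtain ⟨y, -, rfl⟩ := Finset.mem_image.1 hy
      have : Quotient.mk (MulAction.orbitRel G Ω) y.out = Quotient.mk _ x.out :=
        Quotient.sound ⟨g, h⟩
      rw [x.out_eq, y.out_eq] at this
      rw [this])
  rw [Finset.card_image_of_injective _ Quotient.out_injective, Finset.card_univ,
    ← Nat.card_eq_fintype_card, ← H3.cl_congr e, Nat.card_eq_fintype_card (α := Ω)] at h2
  have := h1.le_cl
  omega

end Cfsg.Agent.S5722
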