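import Cfsg.Statements.S5729
import Cfsg.Agent.H3.SylowOrbit

set_option autoImplicit false
open Cfsg

namespace Cfsg.Agent.S5729

theorem burnside (G Ω : Type*) [Group G] [Fintype G] [MulAction G Ω] [Fintype Ω] :
    ∑ g : G, Nat.card (MulAction.fixedBy Ω g) =
      Nat.card (Quotient (MulAction.orbitRel G Ω)) * Nat.card G := by
  classical
  simp only [Nat.card_eq_fintype_card]
  exact MulAction.sum_card_fixedBy_eq_card_orbits_mul_card_group G Ω

/-- Let a finite group G act faithfully and transitively on a set with n ≥ 3 points. Then either G is a Frobenius permutation group (Frobenius as a permutation group: transitive, some non-identity element fixes a point, and no non-identity element fixes two points) of order n(n − 1) and exactly |G|/n of its elements are derangements (fix no point), or the number of derangements is greater than |G|/n. -/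
theorem result {G Ω : Type*} [Group G] [Finite G] [MulAction G Ω] [FaithfulSMul G Ω] [Fintype Ω] (htr : MulAction.IsPretransitive G Ω) (hn : 3 ≤ Fintype.card Ω) :
    ((MulAction.IsPretransitive G Ω ∧ (∃ g : G, g ≠ 1 ∧ ∃ ω : Ω, g • ω = ω) ∧ ∀ g : G, g ≠ 1 → Nat.card (MulAction.fixedBy Ω g) ≤ 1) ∧ Nat.card G = Fintype.card Ω * (Fintype.card Ω - 1) ∧ Fintype.card Ω * Nat.card {g : G // ∀ ω : Ω, g • ω ≠ ω} = Nat.card G) ∨
    Nat.card G < Fintype.card Ω * Nat.card {g : G // ∀ ω : Ω, g • ω ≠ ω} := by
  classical
  have := Fintype.ofFinite G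
  have hf : ∀ g : G, (∀ x : Ω, g • x = x) → g = 1 :=
    fun g hg => eq_of_smul_eq_smul (α := Ω) fun x => by rw [hg, one_smul]
  set n := Fintype.card Ω with hn'
  set D := Nat.card {g : G // ∀ ω : Ω, g • ω ≠ ω} with hD
  let c : G → ℕ := fun g => Nat.card (MulAction.fixedBy Ω g)
  have hne : Nonempty Ω := Fintype.card_pos_iff.1 (by omega)
  have hc0 : ∀ g, c g = 0 ↔ ∀ ω : Ω, g • ω ≠ ω := by
    intro g
    simp only [c, Nat.card_eq_zero, not_infinite_iff_finite.2 (inferInstance : Finite _), or_false,
      isEmpty_subtype, MulAction.mem_fixedBy]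
  have h1 : ∑ g : G, c g = Nat.card G := by
    have hs : Subsingleton (Quotient (MulAction.orbitRel G Ω)) :=
      (MulAction.pretransitive_iff_subsingleton_quotient G Ω).1 htr
    have : Nonempty (Quotient (MulAction.orbitRel G Ω)) := hne.map (Quotient.mk _)
    rw [burnside, Nat.card_unique, one_mul]
  have hD' : D = ∑ g : G, if c g = 0 then 1 else 0 := by
    rw [Finset.sum_boole, hD, Nat.card_eq_fintype_card, Fintype.card_subtype]
    simp [hc0]
  have h2 : ∑ g : G, (c g - 1) = D := by
    have : ∑ g : G, c g + D = ∑ g : G, (c g - 1) + Nat.card G := by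
      rw [hD', ← Finset.sum_add_distrib, Nat.card_eq_fintype_card, ← Finset.card_univ,
        Finset.card_eq_sum_ones, ← Finset.sum_add_distrib]
      refine Finset.sum_congr rfl fun g _ => ?_
      split_ifs <;> omega
    omega
  have h3 : ∀ a : Ω, Nat.card (MulAction.stabilizer G a) ≤
      ∑ g ∈ Finset.univ.filter (fun g : G => g • a = a), (c g - 1) := by
    intro a
    have hb := burnside (MulAction.stabilizer G a) Ω
    have hq : 2 ≤ Nat.card (Quotient (MulAction.orbitRel (MulAction.stabilizer G a) Ω)) := by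
      rw [Nat.succ_le_iff, Finite.one_lt_card_iff_nontrivial]
      have : Nontrivial Ω := Fintype.one_lt_card_iff_nontrivial.1 (by omega)
      obtain ⟨b, hb⟩ := exists_ne a
      refine ⟨Quotient.mk _ b, Quotient.mk _ a, fun h => hb ?_⟩
      obtain ⟨g, hg⟩ := Quotient.exact h
      rw [← hg]; exact g.2
    have e1 : ∑ g ∈ Finset.univ.filter (fun g : G => g • a = a), (c g - 1) =
        ∑ g : MulAction.stabilizer G a, (c g - 1) :=
      Finset.sum_subtype _ (by simp) _
    have e2 : ∑ g : MulAction.stabilizer G a, (c g - 1) + Nat.card (MulAction.stabilizer G a) =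
        ∑ g : MulAction.stabilizer G a, Nat.card (MulAction.fixedBy Ω g) := by
      rw [Nat.card_eq_fintype_card, ← Finset.card_univ,
        Finset.card_eq_sum_ones, ← Finset.sum_add_distrib]
      refine Finset.sum_congr rfl fun g _ => ?_
      have : c g ≠ 0 := fun h => (hc0 g).1 h a g.2
      change c g - 1 + 1 = c g
      omega
    have := Nat.mul_le_mul_right (Nat.card (MulAction.stabilizer G a)) hq
    omega
  have h4 : ∀ a : Ω, n * Nat.card (MulAction.stabilizer G a) = Nat.card G := fun a => by
    rw [hn', ← Nat.card_eq_fintype_card]; exact H3.card_mul_card_stabilizer a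
  by_cases hlt : Nat.card G < n * D
  · exact Or.inr hlt
  left
  push Not at hlt
  have h5 : ∀ a : Ω, D ≤ Nat.card (MulAction.stabilizer G a) := fun a =>
    Nat.le_of_mul_le_mul_left (by rw [h4]; exact hlt) (show 0 < n by omega)
  have h6 : ∀ a : Ω, ∑ g ∈ Finset.univ.filter (fun g : G => g • a = a), (c g - 1) +
      ∑ g ∈ Finset.univ.filter (fun g : G => ¬ g • a = a), (c g - 1) = D := fun a => by
    rw [Finset.sum_filter_add_sum_filter_not, h2]
  have h7 : ∀ g : G, g ≠ 1 → c g ≤ 1 := by
    intro g hg
    obtain ⟨a, ha⟩ : ∃ a : Ω, g • a ≠ a := by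
      by_contra hc; push Not at hc; exact hg (hf g hc)
    have e1 := h3 a
    have e2 := h5 a
    have e3 := h6 a
    have e4 : ∑ g ∈ Finset.univ.filter (fun g : G => ¬ g • a = a), (c g - 1) = 0 := by omega
    have := Finset.sum_eq_zero_iff.1 e4 g (by simpa using ha)
    omega
  have h8 : D = n - 1 := by
    rw [← h2, Finset.sum_eq_single 1 (fun g _ hg => by have := h7 g hg; omega) (by simp)]
    simp [c, hn']
  obtain ⟨a⟩ := hne
  have h9 : D = Nat.card (MulAction.stabilizer G a) := by
    have e1 := h3 a
    have e2 := h5 a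
    have e3 := h6 a
    omega
  refine ⟨⟨htr, ?_, h7⟩, by rw [← h4 a, ← h9, h8], by rw [← h4 a, h9]⟩
  have : Nontrivial (MulAction.stabilizer G a) := Finite.one_lt_card_iff_nontrivial.1 (by omega)
  obtain ⟨g, hg⟩ := exists_ne (1 : MulAction.stabilizer G a)
  exact ⟨g, fun h => hg (Subtype.ext h), a, g.2⟩

end Cfsg.Agent.S5729
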