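import Cfsg.Statements.S5730
import Cfsg.Agent.H2.Derange2

set_option autoImplicit false
open Cfsg

namespace Cfsg.Agent.S5730

/-- Let a finite group G act faithfully and transitively on a set with n ≥ 7 points. Then either G is a Frobenius permutation group (Frobenius as a permutation group: transitive, some non-identity element fixes a point, and no non-identity element fixes two points) of order n(n − 1)/a with a ∈ {1, 2}, in which case exactly a|G|/n of its elements are derangements, or the number of derangements is at least 2|G|/n. (Equality does occur: PSL₃(2) acting on the 7 points of the Fano plane has exactly 2|G|/7 derangements.) -/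
theorem result {G Ω : Type*} [Group G] [Finite G] [MulAction G Ω] [FaithfulSMul G Ω] [Fintype Ω] (htr : MulAction.IsPretransitive G Ω) (hn : 7 ≤ Fintype.card Ω) :
    (∃ a : ℕ, (a = 1 ∨ a = 2) ∧ (MulAction.IsPretransitive G Ω ∧ (∃ g : G, g ≠ 1 ∧ ∃ ω : Ω, g • ω = ω) ∧ ∀ g : G, g ≠ 1 → Nat.card (MulAction.fixedBy Ω g) ≤ 1) ∧ a * Nat.card G = Fintype.card Ω * (Fintype.card Ω - 1) ∧ Fintype.card Ω * Nat.card {g : G // ∀ ω : Ω, g • ω ≠ ω} = a * Nat.card G) ∨
    2 * Nat.card G ≤ Fintype.card Ω * Nat.card {g : G // ∀ ω : Ω, g • ω ≠ ω} := by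
  rw [← Nat.card_eq_fintype_card] at hn ⊢
  haveI : Nontrivial Ω := Finite.one_lt_card_iff_nontrivial.1 (by omega)
  by_cases h2 : ∀ a b c d : Ω, a ≠ b → c ≠ d → ∃ g : G, g • a = c ∧ g • b = d
  swap
  · exact Or.inr (H2.Der.rank_three h2)
  obtain ⟨a, b, hab⟩ := exists_pair_ne Ω
  by_cases hd : 2 ≤ Nat.card (H2.St G a b)
  · exact Or.inr (H2.Der.two_trans_bound h2 hn hab hd)
  have hd1 : Nat.card (H2.St G a b) = 1 := by
    have : 0 < Nat.card (H2.St G a b) := Nat.card_pos
    omega
  have hs : ∀ (g : G) (x y : Ω), x ≠ y → g • x = x → g • y = y → g = 1 := by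
    intro g x y hxy hx hy
    have := Subgroup.card_eq_one.1 ((H2.Der.card_St_eq h2 hab hxy).trans hd1)
    exact (Subgroup.eq_bot_iff_forall _).1 this g ⟨hx, hy⟩
  have h3 := H2.card_eq_two_trans h2 hab
  have h4 := H2.card_stab_eq h2 hab
  have h5 := H2.card_fpf hs
  rw [hd1, mul_one] at h3 h4
  refine Or.inl ⟨1, Or.inl rfl, ⟨htr, ?_, fun g hg => ?_⟩, by rw [one_mul, h3], by
    rw [one_mul, h3]; congr 1; omega⟩
  · haveI : Nontrivial (MulAction.stabilizer G a) := Finite.one_lt_card_iff_nontrivial.1 (by omega)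
    obtain ⟨g, hg⟩ := exists_ne (1 : MulAction.stabilizer G a)
    exact ⟨g, fun h => hg (Subtype.ext h), a, g.2⟩
  · rw [Finite.card_le_one_iff_subsingleton]
    exact ⟨fun x y => Subtype.ext (by_contra fun h => hg (hs g _ _ h x.2 y.2))⟩

end Cfsg.Agent.S5730
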