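import Cfsg.Statements.S5732
import Cfsg.Agent.H3.Der5
import Cfsg.Agent.H3.Der7
import Cfsg.Agent.H3.Central

set_option autoImplicit false
open Cfsg

namespace Cfsg.Agent.S5732

open Cfsg.Agent.H3 MulAction

theorem aux {G V : Type*} [Group G] [Finite G] [AddCommGroup V] [Finite V] [Nontrivial V]
    [MulAction G V] (faith : ∀ g : G, (∀ v : V, g • v = v) → g = 1) {D P : Subgroup G} (h : DP V D)
    (hD : D ≠ ⊤) {p k : ℕ} (hp : p.Prime) (hn : Nat.card V = p ^ k) (hP : SylowIn p P D)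
    (τ : V → G) (hτ : ∀ u, τ u ∈ P) (hτs : ∀ u v : V, τ u • v = u + v)
    (hZ : ∀ g ∈ Subgroup.normalizer (P : Set G), ∀ u, ∃ w, g * τ u * g⁻¹ = τ w)
    {N : ℕ} (hN : ∀ d n : ℕ, 2 ^ d ≤ n → N ≤ n → 5 ^ 6 * d ^ 24 ≤ n) (hV : N ≤ Nat.card V)
    (hlt : Nat.card V < (D.index + 1) ^ 2) (g : G) (hg : g ≠ 1) (a b : V) (ha : g • a = a)
    (hb : g • b = b) : a = b := by
  classical
  have := h.normal
  have := Fintype.ofFinite V
  have ext : ∀ x y : G, (∀ v : V, x • v = y • v) → x = y := fun x y e =>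
    (inv_mul_eq_one.1 (faith (y⁻¹ * x) (fun v => by rw [mul_smul, e, inv_smul_smul]))).symm
  have hL : ∀ g ∈ Subgroup.normalizer (P : Set G), g • (0 : V) = 0 → g ∈ lin G V := by
    intro g hg h0 u v
    obtain ⟨w, hw⟩ := hZ g hg u
    have e : ∀ v : V, g • (u + v) = w + g • v := fun v => by
      rw [← hτs, ← hτs, ← hw, mul_smul, mul_smul, inv_smul_smul]
    have e1 := e 0
    rw [add_zero, h0, add_zero] at e1
    rw [e, e1]
  have dec : ∀ g ∈ Subgroup.normalizer (P : Set G), (τ (g • 0))⁻¹ * g ∈ lin G V := fun g hg =>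
    hL _ (mul_mem (inv_mem (Subgroup.le_normalizer (hτ _))) hg)
      (by rw [mul_smul, inv_smul_eq_iff, hτs, add_zero])
  have ht : IsPretransitive P V := ⟨fun a b => ⟨⟨τ (b - a), hτ _⟩, by
    change τ (b - a) • a = b
    rw [hτs, sub_add_cancel]⟩⟩
  have cov : Cov D (lin G V) := fun g => by
    obtain ⟨d, hd, hg⟩ := (cov_top D).sylow hp (P := P) (by rwa [inf_top_eq]) g
    exact ⟨(τ ((d * g) • 0))⁻¹ * d, mul_mem (inv_mem (hP.le (hτ _))) hd, by
      rw [mul_assoc]; exact dec _ hg.2⟩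
  have fpf : ∀ c ∈ lin G V, c ≠ 1 → ∀ v : V, c • v = v → v = 0 := by
    intro c hc hc1
    by_contra hcf
    have := lin_bound (H := lin G V) hN hV (fun g hg => Subtype.ext (faith g hg))
      (R := D.subgroupOf (lin G V)) (fun g hg v hv => h.uniq g hg _ _ hv (lin_zero g.2))
      (r := ⟨c, hc⟩) (fun e => hc1 (congrArg Subtype.val e)) hcf
    rw [← cov_iff_relIndex.1 cov] at hlt
    exact hlt.not_ge this
  have hPτ : ∀ x ∈ P, x = τ (x • 0) := by
    intro x hx
    obtain ⟨v, hv0, hv⟩ := pgroup_exists_fixed hp (P := P ⊓ stabilizer G (0 : V))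
      (hP.pgroup.to_le inf_le_left) (S := Set.univ \ {(0 : V)}) (Set.toFinite _)
      (fun g hg x hx => ⟨trivial, fun e => hx.2 (MulAction.injective g (e.trans hg.2.symm))⟩) (by
        rw [Set.ncard_sdiff_singleton_of_mem (Set.mem_univ _), Set.ncard_univ]
        have h1 : 1 < Nat.card V := Finite.one_lt_card
        have h2 : p ∣ Nat.card V := hn ▸ dvd_pow_self p (by rintro rfl; rw [hn, pow_zero] at h1; exact h1.false)
        intro h3
        exact hp.one_lt.ne' (Nat.dvd_one.1 ((Nat.dvd_sub_iff_right h1.le h2).1 h3)))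
    by_contra hne
    exact hv0.2 (fpf _ (dec x (Subgroup.le_normalizer hx)) (fun e => hne (inv_mul_eq_one.1 e).symm) v
      (hv _ ⟨P.mul_mem (P.inv_mem (hτ _)) hx, mem_stabilizer_iff.2 (by
        rw [mul_smul, inv_smul_eq_iff, hτs, add_zero])⟩))
  have hcomm : ∀ x ∈ P, ∀ y ∈ P, x * y = y * x := fun x hx y hy => ext _ _ (fun v => by
    rw [hPτ x hx, hPτ y hy, mul_smul, mul_smul, hτs, hτs, hτs, hτs, add_left_comm])
  have hts : TS D τ := ⟨h, fun u => hP.le (hτ u), hτs, faith, cov, fpf, fun g hg u w hu e => by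
    have hw : w ≠ 0 := by
      rintro rfl
      have h1 : τ 0 = 1 := faith _ (fun v => by rw [hτs, zero_add])
      rw [h1, conj_eq_one_iff] at e
      have := hτs u 0
      rw [e, one_smul, add_zero] at this
      exact hu this.symm
    have hle : P ≤ D ⊓ Subgroup.centralizer {τ w} := fun x hx =>
      ⟨hP.le hx, Subgroup.mem_centralizer_singleton_iff.2 (hcomm x hx _ (hτ w))⟩
    have hW := eq_of_normalizer_le hp hn faith (W := D ⊓ Subgroup.centralizer {τ w})
      ⟨hle, hP.pgroup, fun e => hP.not_dvd (e.trans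
        (Dvd.intro _ (Subgroup.relIndex_mul_relIndex _ _ _ hle inf_le_left)))⟩ ht (fun x hx hx' y hy => by
        have h1 := dec x hx'
        have h2 : (τ (x • 0))⁻¹ * x * τ w = τ w * ((τ (x • 0))⁻¹ * x) :=
          Subgroup.mem_centralizer_singleton_iff.1 (mul_mem (inv_mem (hle (hτ _))) hx).2
        have h3 : (τ (x • 0))⁻¹ * x = 1 := by
          by_contra hne
          refine hw (fpf _ h1 hne w ?_)
          have := congrArg (· • (0 : V)) h2
          simp only [mul_smul (_ * x), mul_smul (τ w), hτs, lin_zero h1, add_zero] at this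
          exact this
        exact hcomm y hy x (by rw [← inv_mul_eq_one.1 h3]; exact hτ _))
    refine ⟨g • 0, _, dec g (mem_normalizer_of_conj_mem (fun x hx => ?_)), by group⟩
    rw [← hW]
    refine ⟨h.normal.conj_mem _ (hP.le hx) g, Subgroup.mem_centralizer_singleton_iff.2 ?_⟩
    rw [← e, conj_mul, conj_mul, hcomm x hx _ (hτ u)]⟩
  have hmain := hts.main hD hlt
  have all : ∀ g : G, g • (0 : V) = 0 → g ∈ lin G V := fun g h0 => by
    obtain ⟨d, hd, hg⟩ := cov g
    have h1 : d ∈ lin G V := hmain ⟨hd, by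
      have := lin_zero hg
      rwa [mul_smul, h0] at this⟩
    simpa using mul_mem (inv_mem h1) hg
  have := fpf ((τ a)⁻¹ * g * τ a) (all _ (by
    rw [mul_smul, mul_smul, hτs, add_zero, ha, inv_smul_eq_iff, hτs, add_zero]))
    (fun e => hg (by simpa using conj_eq_one_iff.1 (show (τ a)⁻¹ * g * (τ a)⁻¹⁻¹ = 1 by simpa using e)))
    (b - a) (by rw [mul_smul, mul_smul, hτs, add_sub_cancel, hb, inv_smul_eq_iff, hτs, add_sub_cancel])
  exact (sub_eq_zero.1 this).symm

theorem main {G Ω : Type*} [Group G] [Finite G] [MulAction G Ω] [Finite Ω] [Nontrivial Ω]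
    (faith : ∀ g : G, (∀ v : Ω, g • v = v) → g = 1) {D : Subgroup G} (h : DP Ω D) (hD : D ≠ ⊤)
    (ht : IsPretransitive D Ω)
    {N : ℕ} (hN : ∀ d n : ℕ, 2 ^ d ≤ n → N ≤ n → 5 ^ 6 * d ^ 24 ≤ n) (hV : N ≤ Nat.card Ω)
    (hlt : Nat.card Ω < (D.index + 1) ^ 2) (g : G) (hg : g ≠ 1) (a b : Ω) (ha : g • a = a)
    (hb : g • b = b) : a = b := by
  have := h.normal
  obtain ⟨p, k, hp, hn⟩ := h.prime_pow hD ht hlt
  have : Fact p.Prime := ⟨hp⟩
  obtain ⟨P, hP⟩ := exists_sylowIn hp D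
  have htP := hP.trans_of_prime_pow hp ht hn
  set L := Subgroup.normalizer (P : Set G) with hL
  have cov : Cov D L := ((cov_top D).sylow hp (P := P) (by rwa [inf_top_eq])).mono inf_le_right
  have hprim : IsPreprimitive L Ω := by
    by_contra hnp
    have := (h.subgroupOf L).imprim ⟨fun a b => by
      obtain ⟨⟨x, hx⟩, e⟩ := htP.exists_smul_eq a b
      exact ⟨⟨⟨x, Subgroup.le_normalizer hx⟩, hP.le hx⟩, e⟩⟩ hnp
    rw [← cov_iff_relIndex.1 cov] at hlt
    exact hlt.not_ge this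
  have hZn : ∀ g ∈ L, ∀ z ∈ zc P, g * z * g⁻¹ ∈ zc P := fun g hg z hz =>
    ⟨(Subgroup.mem_normalizer_iff.1 hg z).1 hz.1, fun y hy => by
      have h1 := hz.2 _ ((Subgroup.mem_normalizer_iff.1 (inv_mem hg) y).1 hy)
      calc _ = g * (g⁻¹ * y * g⁻¹⁻¹ * z) * g⁻¹ := by group
        _ = _ := by rw [h1]; group⟩
  have : Nontrivial P := by
    obtain ⟨x, y, hxy⟩ := exists_pair_ne Ω
    obtain ⟨u, hu⟩ := htP.exists_smul_eq x y
    exact ⟨⟨u, 1, fun e => hxy (by rw [← hu, e, one_smul])⟩⟩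
  have := hP.pgroup.center_nontrivial
  obtain ⟨⟨⟨z, hz⟩, hz'⟩, hz1⟩ := exists_ne (1 : Subgroup.center P)
  have hzc : z ∈ zc P := ⟨hz, fun y hy => congrArg Subtype.val (Subgroup.mem_center_iff.1 hz' ⟨y, hy⟩)⟩
  obtain ⟨ω₀, hω⟩ : ∃ a : Ω, z • a ≠ a := by
    by_contra hc
    push Not at hc
    exact hz1 (Subtype.ext (Subtype.ext (faith z hc)))
  have : ((zc P).subgroupOf L).Normal := ⟨fun x hx g => hZn g g.2 x hx⟩
  have ht1 := normal_trans hprim ((zc P).subgroupOf L) (n := ⟨z, Subgroup.le_normalizer hz⟩) hzc hω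
  have ht2 : IsPretransitive (zc P) Ω := ⟨fun a b => by
    obtain ⟨⟨⟨x, hx⟩, hx'⟩, e⟩ := ht1.exists_smul_eq a b
    exact ⟨⟨x, hx'⟩, e⟩⟩
  have hreg : stabilizer (zc P) ω₀ = ⊥ := stabilizer_eq_bot_iff.2 (fun m hm hmω =>
    faith m (fix_all_of_commute ht2 (fun k hk => hm.2 k hk.1) hmω))
  let _ : CommGroup (zc P) :=
    { (inferInstance : Group (zc P)) with mul_comm := fun a b => Subtype.ext (b.2.2 a a.2.1) }
  let β : Additive (zc P) ≃ Ω :=
    Additive.toMul.trans (Equiv.ofBijective _ (bijective_smul_of_regular ht2 hreg))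
  let _ : AddCommGroup Ω := β.symm.addCommGroup
  refine aux faith h hD hp hn hP (fun u => ((β.symm u).toMul : G)) (fun u => (β.symm u).toMul.2.1)
    (fun u v => ?_) (fun g hg u => ⟨β (Additive.ofMul ⟨_, hZn g hg _ (β.symm u).toMul.2⟩), by simp⟩)
    hN hV hlt g hg a b ha hb
  obtain ⟨v, rfl⟩ := β.surjective v
  rw [β.symm.add_def, Equiv.symm_symm, Equiv.symm_apply_apply]
  exact (mul_smul _ _ _).symm

/-- There is a bound N such that for every finite group G acting faithfully and transitively on a set with n ≥ N points, either G is primitive and a Frobenius permutation group (Frobenius as a permutation group: transitive, some non-identity element fixes a point, and no non-identity element fixes two points), or the subgroup generated by the derangements of G has index at most √n − 1 in G. -/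
theorem result : ∃ N : ℕ, ∀ (G Ω : Type*) [Group G] [Finite G] [MulAction G Ω] [FaithfulSMul G Ω] [Fintype Ω],
      MulAction.IsPretransitive G Ω → N ≤ Fintype.card Ω →
      (MulAction.IsPreprimitive G Ω ∧ (MulAction.IsPretransitive G Ω ∧ (∃ g : G, g ≠ 1 ∧ ∃ ω : Ω, g • ω = ω) ∧ ∀ g : G, g ≠ 1 → Nat.card (MulAction.fixedBy Ω g) ≤ 1)) ∨
      ((Subgroup.closure {g : G | ∀ ω : Ω, g • ω ≠ ω}).index : ℝ) ≤ Real.sqrt (Fintype.card Ω) - 1 := by
  obtain ⟨N, hN⟩ := exists_poly_le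
  refine ⟨max N 4, fun G Ω _ _ _ _ _ htr hn => ?_⟩
  rw [max_le_iff, ← Nat.card_eq_fintype_card] at hn
  have : Nontrivial Ω := Finite.one_lt_card_iff_nontrivial.1 (by omega)
  obtain ⟨h, ht⟩ := dp_derangements (G := G) (Ω := Ω)
  set D := Subgroup.closure {g : G | ∀ ω : Ω, g • ω ≠ ω}
  rw [or_iff_not_imp_right]
  intro hcon
  have hlt : Nat.card Ω < (D.index + 1) ^ 2 := by
    by_contra hge
    apply hcon
    rw [le_sub_iff_add_le, ← Nat.card_eq_fintype_card]
    apply Real.le_sqrt_of_sq_le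
    exact_mod_cast not_lt.1 hge
  have hD : D ≠ ⊤ := fun e => by
    rw [e, Subgroup.index_top] at hlt
    omega
  have faith : ∀ g : G, (∀ x : Ω, g • x = x) → g = 1 := fun g hg =>
    FaithfulSMul.eq_of_smul_eq_smul (α := Ω) (fun x => by rw [hg, one_smul])
  refine ⟨by by_contra hnp; exact hlt.not_ge (h.imprim ht hnp), htr, ?_, fun g hg => ?_⟩
  · obtain ⟨x, -, hx⟩ := (cov_top D).exists_notMem hD
    exact ⟨x, fun e => hx (e ▸ one_mem D), h.ex x hx⟩
  · exact Finite.card_le_one_iff_subsingleton.2 ⟨fun a b =>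
      Subtype.ext (main faith h hD ht hN hn.1 hlt g hg a b a.2 b.2)⟩

end Cfsg.Agent.S5732
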