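import Cfsg.Statements.S5736
import Cfsg.Agent.H3.BinPsl2

set_option autoImplicit false
open Cfsg

namespace Cfsg.Agent.S5736

open Cfsg.Agent.H3 Cfsg.Agent.H8

/-- Let F be a finite field with q ≥ 4 elements, q ≠ 5, let G = PSL₂(F) and let H be a proper subgroup of G. Then the action of G on the cosets of H is binary if and only if H is trivial, or q is a power of 2 and H is a Sylow 2-subgroup, or q = 2^a with a odd and H has order 3. Here an action is binary (relational complexity 2) when, for every n ≥ 2 and all n-tuples I, J of points, if for every pair of positions some group element carries the corresponding pair of entries of I to those of J, then a single group element carries I to J. -/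
theorem result {F : Type*} [Field F] [Fintype F] (h4 : 4 ≤ Fintype.card F) (h5 : Fintype.card F ≠ 5)
    (H : Subgroup (Matrix.ProjectiveSpecialLinearGroup (Fin 2) F)) (hH : H ≠ ⊤) :
    (∀ (n : ℕ) (I J : Fin n → Matrix.ProjectiveSpecialLinearGroup (Fin 2) F ⧸ H), 2 ≤ n →
        (∀ i j : Fin n, i ≠ j → ∃ g : Matrix.ProjectiveSpecialLinearGroup (Fin 2) F, g • I i = J i ∧ g • I j = J j) → ∃ g : Matrix.ProjectiveSpecialLinearGroup (Fin 2) F, ∀ i, g • I i = J i) ↔
      (H = ⊥ ∨ ((∃ a : ℕ, Fintype.card F = 2 ^ a) ∧ ∃ P : Sylow 2 (Matrix.ProjectiveSpecialLinearGroup (Fin 2) F), H = P) ∨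
        ((∃ a : ℕ, Odd a ∧ Fintype.card F = 2 ^ a) ∧ Nat.card H = 3)) := by
  have hinj := Matrix.ProjectiveSpecialLinearGroup.toPGL_injective (n := Fin 2) (R := F)
  set φ := Matrix.ProjectiveSpecialLinearGroup.toPGL (n := Fin 2) (R := F) with hφ
  have hr : φ.range = Lsub F := range_toPGL
  change IsBin _ _ ↔ _
  rw [isBin_iff_starIn hinj, hr]
  have hL : H.map φ ≤ Lsub F := hr ▸ Subgroup.map_le_range _ _
  have hne : H.map φ ≠ Lsub F := fun e => hH (by
    rw [← hr, MonoidHom.range_eq_map] at e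
    exact Subgroup.map_injective hinj e)
  have hc : Nat.card (H.map φ) = Nat.card H := Subgroup.card_map_of_injective hinj
  have hF : Nat.card F = Fintype.card F := Nat.card_eq_fintype_card
  have : Fact (Nat.Prime 2) := ⟨Nat.prime_two⟩
  have hchar : ∀ a : ℕ, Fintype.card F = 2 ^ a → (2 : F) = 0 := by
    intro a ha
    by_contra h2
    have h3 := odd_card_iff.mpr h2
    rw [hF, ha] at h3
    rcases a with _ | a
    · omega
    · rw [pow_succ] at h3
      exact absurd h3 (by simp)
  have hpow : (2 : F) = 0 → ∃ a : ℕ, Fintype.card F = 2 ^ a := by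
    intro h2
    have : CharP F 2 := CharTwo.of_one_ne_zero_of_two_eq_zero one_ne_zero h2
    obtain ⟨n, -, hn⟩ := FiniteField.card F 2
    exact ⟨n, hn⟩
  have h3 : ∀ a : ℕ, 3 ∣ 2 ^ a + 1 ↔ Odd a := by
    intro a
    have key : ∀ b : ℕ, 2 ^ (2 * b) % 3 = 1 := fun b => by
      rw [pow_mul, Nat.pow_mod]; simp
    rcases Nat.even_or_odd' a with ⟨b, rfl | rfl⟩
    · have := key b
      constructor
      · intro h; omega
      · intro h; exact absurd h (by simp)
    · have := key b
      rw [pow_succ]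
      exact ⟨fun _ => by simp, fun _ => by omega⟩
  constructor
  · intro h
    by_cases hn : NoInv (H.map φ)
    · rcases odd_case h hL hn with e | ⟨e1, e2, e3⟩
      · exact Or.inl ((Subgroup.map_eq_bot_iff_of_injective H hinj).mp e)
      · obtain ⟨a, ha⟩ := hpow e1
        refine Or.inr (Or.inr ⟨⟨a, (h3 a).mp ?_, ha⟩, hc ▸ e3⟩)
        rwa [← ha, ← hF]
    · simp only [NoInv, not_forall] at hn
      obtain ⟨t, ht, t2, t1⟩ := hn
      by_cases h2 : (2 : F) = 0
      · have : CharP F 2 := CharTwo.of_one_ne_zero_of_two_eq_zero one_ne_zero h2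
        obtain ⟨x, hx⟩ := even_case h2 h (Lsub_eq_top h2 ▸ hne) ht t1 t2
        refine Or.inr (Or.inl ⟨hpow h2, ⟨H, ?_, fun {Q} hQ hle => ?_⟩, rfl⟩)
        · exact (hx ▸ isPGroup_Usub 2 x : IsPGroup 2 (H.map φ)).of_equiv
            (Subgroup.equivMapOfInjective H φ hinj).symm
        · obtain ⟨y, hy⟩ := le_Usub_of_isPGroup 2 (hQ.map φ)
          have h6 := Subgroup.map_mono (f := φ) hle
          have h7 : x = y := Usub_eq_of_le (hx ▸ h6.trans hy)
          refine le_antisymm ((Subgroup.map_le_map_iff_of_injective hinj).mp ?_) hle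
          rwa [hx, h7]
      · have h6 := odd_card_iff.mpr h2
        rw [hF] at h6
        exact absurd ((h.invClosed hL).eq_L h2 (by obtain ⟨m, hm⟩ := h6; omega) hL ht t1 t2) hne
  · rintro (rfl | ⟨⟨a, ha⟩, P, rfl⟩ | ⟨⟨a, ha1, ha⟩, h6⟩)
    · refine starIn_of_noTri (fun a _ b _ c _ u _ v _ _ => Or.inl ?_)
      simp
    · have h2 := hchar a ha
      have : CharP F 2 := CharTwo.of_one_ne_zero_of_two_eq_zero one_ne_zero h2
      obtain ⟨y, hy⟩ := le_Usub_of_isPGroup 2 (P.isPGroup'.map φ)
      have h7 : (Usub y).comap φ = P :=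
        P.is_maximal' ((isPGroup_Usub 2 y).comap_of_injective φ hinj)
          (Subgroup.map_le_iff_le_comap.mp hy)
      rw [← h7, Subgroup.map_comap_eq_self (by rw [hr, Lsub_eq_top h2]; exact le_top)]
      exact starIn_Usub h2 y
    · exact starIn_three (hchar a ha) (by rw [hF, ha]; exact (h3 a).mpr ha1) (hc ▸ h6)

end Cfsg.Agent.S5736
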