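import Cfsg.Statements.S5737
import Cfsg.Agent.H4.SzBin3

set_option autoImplicit false
open Cfsg

namespace Cfsg.Agent.S5737

open MulAction H4 H4.Suz

section
variable {K : Type*} [Field K] [CharP K 2] {φ : K →+* K} {G : Type*} [Group G] (M : Model G φ)
  [Fintype K]
include M

theorem bin_Z {H : Subgroup G} {a : G} (hH : ∀ g, g ∈ H ↔ ∃ y, a⁻¹ * g * a = M.u 0 y) :
    Bin G (G ⧸ H) := by
  intro n I J hn hIJ
  have h0 : ∀ i, ∃ c : G, ∀ g : G, g • I i = I i ↔ ∃ y, c⁻¹ * g * c = M.u 0 y := fun i => by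
    obtain ⟨b, hb⟩ := QuotientGroup.mk_surjective (I i)
    refine ⟨b * a, fun g => ?_⟩
    rw [← hb, MulAction.Quotient.smul_mk, eq_comm, QuotientGroup.eq, hH]
    simp only [smul_eq_mul, mul_assoc, mul_inv_rev]
  choose c hc using h0
  have hIJ' : ∀ i j, ∃ g : G, g • I i = J i ∧ g • I j = J j := fun i j => by
    by_cases h : i = j
    · have : Nontrivial (Fin n) := Fin.nontrivial_iff_two_le.2 hn
      obtain ⟨k, hk⟩ := exists_ne i
      obtain ⟨g, hg, -⟩ := hIJ i k hk.symm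
      exact ⟨g, hg, h ▸ hg⟩
    · exact hIJ i j h
  have h1 : ∀ {i} {x y : G}, x • I i = J i → y • I i = J i → ∃ z, x⁻¹ * y = c i * M.u 0 z * (c i)⁻¹ :=
    fun {i x y} hx hy => by
      obtain ⟨z, hz⟩ := (hc i (x⁻¹ * y)).1 (by rw [mul_smul, hy, inv_smul_eq_iff, hx])
      exact ⟨z, by rw [← hz]; group⟩
  by_cases h : ∀ i j, c i • M.o = c j • M.o
  · let i0 : Fin n := ⟨0, by omega⟩
    obtain ⟨x, hx, -⟩ := hIJ' i0 i0
    refine ⟨x, fun i => ?_⟩
    obtain ⟨y, hy, hy'⟩ := hIJ' i0 i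
    obtain ⟨z, hz⟩ := h1 hx hy
    have h2 : (c i)⁻¹ * c i0 ∈ M.B := M.fix_iff.1 (by rw [mul_smul, h i0 i, inv_smul_smul])
    have := (hc i (x⁻¹ * y)).2 (M.eq_u0 (by
      simpa [hz, mul_assoc] using (show _ ∈ M.B from (M.conj_mem_U h2 (M.u_mem 0 z)).1)) (by
      rw [hz, show (c i)⁻¹ * (c i0 * M.u 0 z * (c i0)⁻¹) * c i =
        (c i)⁻¹ * c i0 * M.u 0 z * ((c i)⁻¹ * c i0)⁻¹ by group, conj_sq, M.u0_sq]; simp))
    rw [mul_smul, inv_smul_eq_iff] at this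
    rw [← this, hy']
  · push Not at h
    obtain ⟨i, j, hij⟩ := h
    obtain ⟨x, hx, hx'⟩ := hIJ' i j
    refine ⟨x, fun k => ?_⟩
    obtain ⟨y, hy, hy'⟩ := hIJ' i k
    obtain ⟨z, hz, hz'⟩ := hIJ' j k
    obtain ⟨p, hp⟩ := h1 hx hy
    obtain ⟨q, hq⟩ := h1 hx' hz
    obtain ⟨r, hr⟩ := h1 hy' hz'
    by_cases hp0 : p = 0
    · rw [hp0, M.u_zero, mul_one, mul_inv_cancel, inv_mul_eq_one] at hp
      rw [hp, hy']
    by_cases hq0 : q = 0
    · rw [hq0, M.u_zero, mul_one, mul_inv_cancel, inv_mul_eq_one] at hq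
      rw [hq, hz']
    exfalso
    have sq : ∀ (c : G) y, (c * M.u 0 y * c⁻¹)⁻¹ = c * M.u 0 y * c⁻¹ := fun c y =>
      inv_eq_of_mul_eq_one_right (by rw [conj_sq, M.u0_sq]; simp)
    have h2 : x⁻¹ * z * (x⁻¹ * y) = x⁻¹ * y * (x⁻¹ * z) := by
      have e1 : (x⁻¹ * y)⁻¹ = x⁻¹ * y := by rw [hp, sq]
      have e2 : (x⁻¹ * z)⁻¹ = x⁻¹ * z := by rw [hq, sq]
      have e3 : (y⁻¹ * z)⁻¹ = y⁻¹ * z := by rw [hr, sq]
      calc _ = (x⁻¹ * z)⁻¹ * (x⁻¹ * y) := by rw [e2]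
        _ = (y⁻¹ * z)⁻¹ := by group
        _ = (x⁻¹ * y)⁻¹ * (x⁻¹ * z) := by rw [e3]; group
        _ = _ := by rw [e1]
    have h3 := M.mem_B_of_comm (M.u_mem 0 p) (M.u_ne (.inr hp0)) (g := (c i)⁻¹ * (x⁻¹ * z) * c i) (by
      calc _ = (c i)⁻¹ * (x⁻¹ * z * (c i * M.u 0 p * (c i)⁻¹)) * c i := by group
        _ = _ := by rw [← hp, h2, hp]; group)
    have h4 := M.eq_o (M.u_mem 0 q) (M.u_ne (.inr hq0)) (c := (c j)⁻¹ • c i • M.o) (by
      have := M.fix_iff.2 h3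
      rw [hq, mul_smul, mul_smul, inv_smul_eq_iff, mul_smul, mul_smul] at this
      rw [eq_inv_smul_iff, this])
    exact hij (inv_smul_eq_iff.1 h4)

theorem bin_iff (hq : 2 < Fintype.card K) (h3 : ¬ 3 ∣ Nat.card G) {H : Subgroup G} (hH : H ≠ ⊤) :
    Bin G (G ⧸ H) ↔ H = ⊥ ∨ ∃ a : G, ∀ g, g ∈ H ↔ ∃ y, a⁻¹ * g * a = M.u 0 y := by
  have := M.finite
  refine ⟨fun hb => ?_, ?_⟩
  · rcases Nat.even_or_odd (Nat.card H) with h | h
    · obtain ⟨⟨s, hs⟩, hs2⟩ := exists_prime_orderOf_dvd_card' 2 h.two_dvd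
      rw [Subgroup.orderOf_mk] at hs2
      obtain ⟨a, rfl⟩ := M.exists_conj_u0 (g := s) (by rw [← pow_two, ← hs2, pow_orderOf_eq_one])
        (by rintro rfl; simp at hs2) one_ne_zero
      have key : ∀ g : G, g • a⁻¹ • ((1 : G) : G ⧸ H) = a⁻¹ • ((1 : G) : G ⧸ H) ↔
          a * g * a⁻¹ ∈ H := fun g => by
        rw [eq_inv_smul_iff, ← mul_smul, ← mul_smul, ← mem_stabilizer_iff, stabilizer_quotient]
      refine .inr ⟨a, fun g => ?_⟩
      rw [← M.even_case hb hq (α := a⁻¹ • ((1 : G) : G ⧸ H)) (fun e => hH (eq_top_iff.2 fun x _ => ?_))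
        ((key _).2 hs), key]
      · simp [mul_assoc]
      · simpa [mul_assoc] using (key (a⁻¹ * x * a)).1 (e ▸ Subgroup.mem_top _ :
          _ ∈ stabilizer G (a⁻¹ • ((1 : G) : G ⧸ H)))
    · left
      rw [← stabilizer_quotient H] at h ⊢
      exact M.odd_case hb hq h3 h
  · rintro (rfl | ⟨a, ha⟩)
    · intro n I J hn hIJ
      obtain ⟨x, hx, -⟩ := hIJ ⟨0, by omega⟩ ⟨1, by omega⟩ (by simp)
      refine ⟨x, fun i => ?_⟩
      by_cases h : i = ⟨0, by omega⟩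
      · rw [h, hx]
      obtain ⟨y, hy, hy'⟩ := hIJ i _ h
      obtain ⟨b, hb⟩ := QuotientGroup.mk_surjective (I ⟨0, by omega⟩)
      rw [← hy', ← hb, MulAction.Quotient.smul_mk, MulAction.Quotient.smul_mk, QuotientGroup.eq,
        Subgroup.mem_bot, inv_mul_eq_one, smul_eq_mul, smul_eq_mul, mul_left_inj] at hx
      rw [hx, hy]
    · exact bin_Z M ha

theorem center_iff (hq : 2 < Fintype.card K) (H : Subgroup G) :
    (∃ P : Sylow 2 G, H = (Subgroup.center (P : Subgroup G)).map (P : Subgroup G).subtype) ↔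
      ∃ a : G, ∀ g, g ∈ H ↔ ∃ y, a⁻¹ * g * a = M.u 0 y := by
  classical
  have := M.finite
  let P0 : Sylow 2 G := M.pU.toSylow M.not_dvd_index_U
  have key : ∀ a g : G, g ∈ (Subgroup.center ((a • P0 : Sylow 2 G) : Subgroup G)).map
      ((a • P0 : Sylow 2 G) : Subgroup G).subtype ↔ ∃ y, a⁻¹ * g * a = M.u 0 y := fun a g => by
    have hm : ∀ g, g ∈ ((a • P0 : Sylow 2 G) : Subgroup G) ↔ a⁻¹ * g * a ∈ M.U := fun g => by
      rw [Sylow.coe_subgroup_smul, Subgroup.mem_pointwise_smul_iff_inv_smul_mem, ← map_inv,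
        MulAut.smul_def, MulAut.conj_apply, inv_inv]
      rfl
    constructor
    · rintro ⟨⟨g, hg⟩, hz, rfl⟩
      obtain ⟨s, y, e⟩ := M.exists_eq_u ((hm g).1 hg)
      refine ⟨y, e.trans ?_⟩
      obtain ⟨t, -, ht⟩ := Finset.exists_mem_notMem_of_card_lt_card (s := {0, s}) (t := Finset.univ)
        (Finset.card_le_two.trans_lt hq)
      simp only [Finset.mem_insert, Finset.mem_singleton, not_or] at ht
      have h1 : a * M.u t 0 * a⁻¹ * g = g * (a * M.u t 0 * a⁻¹) :=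
        congrArg Subtype.val (Subgroup.mem_center_iff.1 hz ⟨a * M.u t 0 * a⁻¹,
          (hm _).2 (by simpa [mul_assoc] using M.u_mem t 0)⟩)
      have h2 : M.u t 0 * M.u s y = M.u s y * M.u t 0 := by
        rw [← e]; simpa [mul_assoc] using conj_comm (k := a⁻¹) h1
      rw [M.u_mul, M.u_mul] at h2
      have h3 := (M.u_inj h2).2
      rw [show s = 0 from by_contra fun hs => ht.2 ((div_eq_one_iff_eq hs).1 (M.phi_fix (by
        rw [map_div₀, div_eq_div_iff ((map_ne_zero φ).2 hs) hs]; grind) (div_ne_zero ht.1 hs)))]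
    · rintro ⟨y, hy⟩
      refine ⟨⟨g, (hm g).2 (hy ▸ M.u_mem 0 y)⟩, Subgroup.mem_center_iff.2 fun x => Subtype.ext ?_, rfl⟩
      have := M.u0_comm ((hm x).1 x.2) y
      rw [← hy] at this
      simpa [mul_assoc] using conj_comm (k := a) this
  constructor
  · rintro ⟨P, rfl⟩
    obtain ⟨a, rfl⟩ := exists_smul_eq G P0 P
    exact ⟨a, key a⟩
  · rintro ⟨a, ha⟩
    exact ⟨a • P0, Subgroup.ext fun g => (ha g).trans (key a g).symm⟩

end


/-- Let G = Sz(q) be a Suzuki group, q = 2^(2a+1) with a ≥ 1 (realised inside Sp₄ over the field with q elements), and let H be a proper subgroup of G. Then the action of G on the cosets of H is binary if and only if H is trivial or H is the centre of a Sylow 2-subgroup of G. Here an action is binary (relational complexity 2) when, for every n ≥ 2 and all n-tuples I, J of points, if for every pair of positions some group element carries the corresponding pair of entries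 of I to those of J, then a single group element carries I to J. -/
theorem result {F : Type*} [Field F] [Fintype F] (a : ℕ) (ha : 1 ≤ a) (hF : Fintype.card F = 2 ^ (2 * a + 1))
    (H : Subgroup (Cfsg.Lie.Sz F (2 ^ (a + 1)))) (hH : H ≠ ⊤) :
    (∀ (n : ℕ) (I J : Fin n → (Cfsg.Lie.Sz F (2 ^ (a + 1))) ⧸ H), 2 ≤ n →
        (∀ i j : Fin n, i ≠ j → ∃ g : (Cfsg.Lie.Sz F (2 ^ (a + 1))), g • I i = J i ∧ g • I j = J j) → ∃ g : (Cfsg.Lie.Sz F (2 ^ (a + 1))), ∀ i, g • I i = J i) ↔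
      (H = ⊥ ∨ ∃ P : Sylow 2 (Cfsg.Lie.Sz F (2 ^ (a + 1))), H = (Subgroup.center (P : Subgroup (Cfsg.Lie.Sz F (2 ^ (a + 1))))).map (P : Subgroup (Cfsg.Lie.Sz F (2 ^ (a + 1)))).subtype) := by
  have : CharP F 2 := charP_of_card_eq_prime_pow hF
  have hq : 2 < Fintype.card F := by
    rw [hF]; exact lt_of_lt_of_le (by norm_num) (Nat.pow_le_pow_right two_pos (show 2 ≤ _ by omega))
  let M := H4.Suz.model hF
  rw [center_iff M hq]
  refine bin_iff M hq ?_ hH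
  rw [M.card_G, hF, Nat.prime_three.dvd_mul, Nat.prime_three.dvd_mul]
  have h1 : 2 ^ (2 * a + 1) % 3 = 2 := by
    rw [pow_succ, pow_mul, Nat.mul_mod, Nat.pow_mod]; simp
  generalize 2 ^ (2 * a + 1) = q at h1 ⊢
  have h2 : q ^ 2 % 3 = 1 := by rw [Nat.pow_mod, h1]
  omega

end Cfsg.Agent.S5737
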