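import Cfsg.Statements.S5738
import Cfsg.Agent.H3.Gleason

set_option autoImplicit false
open Cfsg

namespace Cfsg.Agent.S5738



/-- Let F ⊆ K be finite fields with |F| = q and [K : F] = n ≥ 2, so |K| = q^n. Regard K as an n-dimensional F-vector space; the multiplications by non-zero elements of K form a cyclic subgroup of GL_F(K) of order q^n − 1 acting regularly on the non-zero vectors (a Singer group). Its normaliser in GL_F(K) has order n·(q^n − 1). -/
theorem result {F K : Type*} [Field F] [Fintype F] [Field K] [Fintype K] [Algebra F K] (n : ℕ) (hn : 2 ≤ n) (hdim : Module.finrank F K = n) :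
    Nat.card (Subgroup.normalizer (((Units.map ((Algebra.lmul F K : K →ₐ[F] Module.End F K) : K →* Module.End F K)).range : Subgroup (Module.End F K)ˣ) : Set (Module.End F K)ˣ)) = n * (Fintype.card K - 1) := by
  classical
  have : Finite (Module.End F K) := Finite.of_injective _ DFunLike.coe_injective
  have : Module.Finite F K := Module.Finite.of_finite
  set S := (Units.map ((Algebra.lmul F K : K →ₐ[F] Module.End F K) : K →* Module.End F K)).range
    with hS
  have hmem : ∀ g : (Module.End F K)ˣ, g ∈ S ↔ ∃ c : Kˣ, ∀ y, (g : Module.End F K) y = c * y := by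
    intro g
    constructor
    · rintro ⟨c, rfl⟩; exact ⟨c, fun y => rfl⟩
    · rintro ⟨c, hc⟩; exact ⟨c, Units.ext (LinearMap.ext fun y => (hc y).symm)⟩
  let Φ : Kˣ × (K ≃ₐ[F] K) → (Module.End F K)ˣ := fun x =>
    Units.map ((Algebra.lmul F K : K →ₐ[F] Module.End F K) : K →* Module.End F K) x.1 *
      LinearMap.GeneralLinearGroup.ofLinearEquiv x.2.toLinearEquiv
  have hΦ : ∀ x y, (Φ x : Module.End F K) y = x.1 * x.2 y := fun x y => rfl
  have hinj : Function.Injective Φ := by
    rintro ⟨c, σ⟩ ⟨d, τ⟩ h
    have h1 : ∀ y, (c : K) * σ y = d * τ y := fun y => by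
      rw [← hΦ (c, σ), h, hΦ]
    have h2 : c = d := Units.ext (by simpa using h1 1)
    subst h2
    exact Prod.ext rfl (AlgEquiv.ext fun y => mul_left_cancel₀ c.ne_zero (h1 y))
  have hinv : ∀ (g : (Module.End F K)ˣ) y, (g : Module.End F K) ((↑g⁻¹ : Module.End F K) y) = y :=
    fun g y => by rw [← Module.End.mul_apply, Units.mul_inv, Module.End.one_apply]
  have hinv' : ∀ (g : (Module.End F K)ˣ) y, (↑g⁻¹ : Module.End F K) ((g : Module.End F K) y) = y :=
    fun g y => by rw [← Module.End.mul_apply, Units.inv_mul, Module.End.one_apply]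
  have hrange : Set.range Φ = Subgroup.normalizer (S : Set (Module.End F K)ˣ) := by
    ext g
    constructor
    · rintro ⟨x, rfl⟩
      apply H3.mem_normalizer_of_conj_mem
      intro h hh
      obtain ⟨c, hc⟩ := (hmem h).1 hh
      refine (hmem _).2 ⟨Units.map (x.2 : K →* K) c, fun y => ?_⟩
      rw [Units.val_mul, Units.val_mul, Module.End.mul_apply, Module.End.mul_apply, hc, hΦ, map_mul,
        mul_left_comm, ← hΦ, hinv]
      rfl
    · intro hg
      have hg1 : (g : Module.End F K) 1 ≠ 0 := fun h => by
        have := hinv' g 1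
        rw [h, map_zero] at this
        exact zero_ne_one this
      have hmul : ∀ a y : K, (g : Module.End F K) (a * y) * (g : Module.End F K) 1 =
          (g : Module.End F K) a * (g : Module.End F K) y := by
        intro a y
        rcases eq_or_ne a 0 with rfl | ha
        · simp
        obtain ⟨b, hb⟩ := (hmem _).1 (((Subgroup.mem_normalizer_iff.1 hg) _).1
          (show Units.map ((Algebra.lmul F K : K →ₐ[F] Module.End F K) : K →* Module.End F K)
            (Units.mk0 a ha) ∈ S from ⟨_, rfl⟩))
        have h1 : ∀ y, (g : Module.End F K) (a * y) = b * (g : Module.End F K) y := fun y => by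
          rw [← hb, Units.val_mul, Units.val_mul, Module.End.mul_apply, Module.End.mul_apply, hinv']
          rfl
        have h2 := h1 1
        rw [mul_one] at h2
        rw [h1, h2]; ring
      let σ : K →ₐ[F] K := AlgHom.ofLinearMap
        (LinearMap.mulLeft F ((g : Module.End F K) 1)⁻¹ ∘ₗ (g : Module.End F K))
        (by simp [hg1]) (fun a y => by
          simp only [LinearMap.comp_apply, LinearMap.mulLeft_apply]
          field_simp
          rw [mul_comm, hmul])
      refine ⟨(Units.mk0 _ hg1, AlgEquiv.ofBijective σ σ.bijective), Units.ext (LinearMap.ext fun y => ?_)⟩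
      rw [hΦ]
      simp [σ, hg1]
  have := Nat.card_range_of_injective hinj
  rw [hrange, Nat.card_prod, IsGalois.card_aut_eq_finrank, hdim, Nat.card_units,
    Nat.card_eq_fintype_card (α := K), mul_comm] at this
  exact this

end Cfsg.Agent.S5738
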