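import Cfsg.Statements.S5739
import Cfsg.Agent.H3.Gleason

set_option autoImplicit false
open Cfsg

namespace Cfsg.Agent.S5739



/-- Let F ⊆ K be finite fields with |F| = q and [K : F] = n ≥ 2, and let M ≤ GL_F(K) be the Singer group of multiplications by non-zero elements of K. If g ∈ GL_F(K) does not normalise M, then the order of M ∩ gMg⁻¹ divides q^r − 1 for some proper divisor r of n. In particular, when n is prime, that order divides q − 1. -/
theorem result {F K : Type*} [Field F] [Fintype F] [Field K] [Fintype K] [Algebra F K] (n : ℕ) (hn : 2 ≤ n) (hdim : Module.finrank F K = n)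
    (g : (Module.End F K)ˣ) (hg : ((Units.map ((Algebra.lmul F K : K →ₐ[F] Module.End F K) : K →* Module.End F K)).range).map (MulAut.conj g).toMonoidHom ≠ (Units.map ((Algebra.lmul F K : K →ₐ[F] Module.End F K) : K →* Module.End F K)).range) :
    ∃ r : ℕ, 1 ≤ r ∧ r ∣ n ∧ r < n ∧ Nat.card ↥(((Units.map ((Algebra.lmul F K : K →ₐ[F] Module.End F K) : K →* Module.End F K)).range).map (MulAut.conj g).toMonoidHom ⊓ (Units.map ((Algebra.lmul F K : K →ₐ[F] Module.End F K) : K →* Module.End F K)).range) ∣ Fintype.card F ^ r - 1 := by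
  classical
  have : Finite (Module.End F K) := Finite.of_injective _ DFunLike.coe_injective
  have : Module.Finite F K := Module.Finite.of_finite
  set L := Units.map ((Algebra.lmul F K : K →ₐ[F] Module.End F K) : K →* Module.End F K) with hL
  have hinv : ∀ (g : (Module.End F K)ˣ) y, (g : Module.End F K) ((↑g⁻¹ : Module.End F K) y) = y :=
    fun g y => by rw [← Module.End.mul_apply, Units.mul_inv, Module.End.one_apply]
  have hinv' : ∀ (g : (Module.End F K)ˣ) y, (↑g⁻¹ : Module.End F K) ((g : Module.End F K) y) = y :=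
    fun g y => by rw [← Module.End.mul_apply, Units.inv_mul, Module.End.one_apply]
  let A : Subalgebra F K :=
    { carrier := {a | ∃ b : K, ∀ y, (g : Module.End F K) (b * y) = a * (g : Module.End F K) y}
      mul_mem' := by
        rintro a a' ⟨b, hb⟩ ⟨b', hb'⟩
        exact ⟨b * b', fun y => by rw [mul_assoc, hb, hb', mul_assoc]⟩
      add_mem' := by
        rintro a a' ⟨b, hb⟩ ⟨b', hb'⟩
        exact ⟨b + b', fun y => by rw [add_mul, map_add, hb, hb', add_mul]⟩
      algebraMap_mem' := fun c => ⟨algebraMap F K c, fun y => by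
        rw [← Algebra.smul_def, ← Algebra.smul_def, map_smul]⟩ }
  have hne : ∀ a b : K, a ≠ 0 → (∀ y, (g : Module.End F K) (b * y) = a * (g : Module.End F K) y) →
      b ≠ 0 := by
    rintro a b ha hb rfl
    have := hb ((↑g⁻¹ : Module.End F K) 1)
    rw [zero_mul, map_zero, hinv, mul_one] at this
    exact ha this.symm
  let E : IntermediateField F K := A.toIntermediateField (by
    rintro a ⟨b, hb⟩
    rcases eq_or_ne a 0 with rfl | ha
    · rw [inv_zero]; exact A.zero_mem
    refine ⟨b⁻¹, fun y => ?_⟩
    rw [eq_inv_mul_iff_mul_eq₀ ha, ← hb, mul_inv_cancel_left₀ (hne a b ha hb)])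
  have hdvd : Module.finrank F E ∣ n := hdim ▸ Dvd.intro _ (Module.finrank_mul_finrank F E K)
  refine ⟨Module.finrank F E, Module.finrank_pos, hdvd, ?_, ?_⟩
  · refine lt_of_le_of_ne (Nat.le_of_dvd (by omega) hdvd) fun h => hg ?_
    have hE : E = ⊤ := by
      apply IntermediateField.eq_of_le_of_finrank_eq le_top
      rw [h, IntermediateField.finrank_top', hdim]
    symm
    apply Subgroup.eq_of_le_of_card_ge
    · rintro _ ⟨a, rfl⟩
      obtain ⟨b, hb⟩ : (a : K) ∈ E := hE ▸ IntermediateField.mem_top
      refine ⟨L (Units.mk0 b (hne a b a.ne_zero hb)), ⟨_, rfl⟩, Units.ext (LinearMap.ext fun y => ?_)⟩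
      change (g : Module.End F K) (b * (↑g⁻¹ : Module.End F K) y) = a * y
      rw [hb, hinv]
    · exact (Subgroup.card_map_of_injective (MulAut.conj g).injective).le
  · have h1 : Nat.card Eˣ = Fintype.card F ^ Module.finrank F E - 1 := by
      have := Fintype.ofFinite E
      rw [Nat.card_units, Nat.card_eq_fintype_card, Module.card_eq_pow_finrank (K := F)]
    rw [← h1]
    refine (Subgroup.card_dvd_of_le ?_).trans
      (Subgroup.card_range_dvd (L.comp (Units.map (E.val : E →* K))))
    rintro _ ⟨⟨_, ⟨b, rfl⟩, hb⟩, a, rfl⟩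
    have ha : (a : K) ∈ E := ⟨b, fun y => by
      have := congrArg (fun u : (Module.End F K)ˣ => (u : Module.End F K) ((g : Module.End F K) y)) hb
      change (g : Module.End F K) (b * (↑g⁻¹ : Module.End F K) ((g : Module.End F K) y)) =
        a * (g : Module.End F K) y at this
      rwa [hinv'] at this⟩
    exact ⟨Units.mk0 ⟨a, ha⟩ (fun h => a.ne_zero (congrArg Subtype.val h)), Units.ext rfl⟩

end Cfsg.Agent.S5739
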