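import Cfsg.Statements.S5746
import Cfsg.Agent.H4.J2e
import Cfsg.Agent.H4.GF2

set_option autoImplicit false
open Cfsg

namespace Cfsg.Agent.S5746

/-- The Chevalley group G₂(4) (over the field with 4 elements) has a maximal subgroup H isomorphic to the Hall–Janko group J₂ such that for every x outside H the intersection H ∩ xHx⁻¹ is a maximal subgroup of H; that is, the action of G₂(4) on the cosets of H is extremely primitive. -/
theorem result {F : Type*} [Field F] [Fintype F] (hF : Fintype.card F = 4) :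
    ∃ H : Subgroup (Cfsg.Lie.chevG2.group F), IsCoatom H ∧ Cfsg.Spor.IsoJ2 H ∧
      ∀ x : Cfsg.Lie.chevG2.group F, x ∉ H → IsCoatom ((H ⊓ H.map (MulAut.conj x).toMonoidHom).subgroupOf H) := by
  haveI : CharP F 2 := H4.GF2.charP_two (F := F) (k := 2) hF
  have h3 : ∀ a : F, a ≠ 0 → a ^ 3 = 1 := fun a ha => by
    simpa [hF] using FiniteField.pow_card_sub_one_eq_one a ha
  obtain ⟨ω, h0, h1⟩ : ∃ ω : F, ω ≠ 0 ∧ ω ≠ 1 := by
    classical
    by_contra h
    have : (Finset.univ : Finset F) ⊆ {0, 1} := fun a _ => by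
      by_contra h'
      simp only [Finset.mem_insert, Finset.mem_singleton, not_or] at h'
      exact h ⟨a, h'⟩
    have := (Finset.card_le_card this).trans Finset.card_le_two
    rw [Finset.card_univ, hF] at this
    omega
  have hω : ω ^ 2 + ω + 1 = 0 := mul_left_cancel₀ (sub_ne_zero.2 h1) (by linear_combination h3 ω h0)
  have h2 : (2 : F) = 0 := CharTwo.two_eq_zero
  obtain ⟨S⟩ := H4.J2.exists_St hω fun t => by
    by_cases t0 : t = 0
    · exact ⟨0, by norm_num, by simp [H4.J2.cK, t0]⟩
    have : (t - 1) * ((t - ω) * (t - (1 + ω))) = 0 := by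
      linear_combination h3 t t0 + (t - 1) * hω - (t ^ 2 * (1 + ω) - t * ω - 1) * h2
    rcases mul_eq_zero.1 this with e | e
    · exact ⟨1, by norm_num, by simpa [H4.J2.cK, sub_eq_zero] using e⟩
    rcases mul_eq_zero.1 e with e | e
    · exact ⟨2, by norm_num, by simpa [H4.J2.cK, sub_eq_zero] using e⟩
    · exact ⟨3, by norm_num, by simpa [H4.J2.cK, sub_eq_zero] using e⟩
  exact ⟨S.H, S.coatom, H4.J2.iso_J2 S, fun x hx => S.coatom2 hx⟩

end Cfsg.Agent.S5746
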