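import Cfsg.Statements.S5747

set_option autoImplicit false
open Cfsg

namespace Cfsg.Agent.S5747

section
variable {G Ω : Type*} [Group G] [MulAction G Ω]

def Base (G : Type*) {Ω : Type*} [Group G] [MulAction G Ω] {t : ℕ} (f : Fin t → Ω) : Prop :=
  ∀ g : G, (∀ i : Fin t, g • f i = f i) → g = 1

def Irr (G : Type*) {Ω : Type*} [Group G] [MulAction G Ω] {t : ℕ} (f : Fin t → Ω) : Prop :=
  ∀ i : Fin t, ∃ g : G, (∀ j : Fin t, j < i → g • f j = f j) ∧ g • f i ≠ f i

theorem base_remove {t : ℕ} {f : Fin (t + 1) → Ω} (hb : Base G f) (hi : ¬ Irr G f) :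
    ∃ f' : Fin t → Ω, Base G f' := by
  simp only [Irr, not_forall, not_exists, not_and, not_not] at hi
  obtain ⟨i, hi⟩ := hi
  refine ⟨fun j => f (i.succAbove j), fun g hg => hb g ?_⟩
  have h1 : ∀ j, j ≠ i → g • f j = f j := by
    intro j hj
    obtain ⟨k, rfl⟩ := Fin.exists_succAbove_eq hj
    exact hg k
  intro j
  by_cases hj : j = i
  · subst hj; exact hi g fun k hk => h1 k hk.ne
  · exact h1 j hj

theorem exists_irr (t : ℕ) : ∀ f : Fin t → Ω, Base G f →
    ∃ t' ≤ t, ∃ f' : Fin t' → Ω, Base G f' ∧ Irr G f' := by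
  induction t with
  | zero => exact fun f hf => ⟨0, le_rfl, f, hf, fun i => i.elim0⟩
  | succ t ih =>
    intro f hf
    by_cases hi : Irr G f
    · exact ⟨_, le_rfl, f, hf, hi⟩
    · obtain ⟨f', hf'⟩ := base_remove hf hi
      obtain ⟨t', ht', h⟩ := ih f' hf'
      exact ⟨t', by omega, h⟩

theorem Irr.snoc {t : ℕ} {f : Fin t → Ω} (hf : Irr G f) {y : Ω}
    (hy : ∃ g : G, (∀ j, g • f j = f j) ∧ g • y ≠ y) : Irr G (Fin.snoc f y : Fin (t + 1) → Ω) := by
  intro i
  refine Fin.lastCases ?_ (fun i => ?_) i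
  · obtain ⟨g, hg, hg'⟩ := hy
    refine ⟨g, fun j hj => ?_, by simpa using hg'⟩
    obtain ⟨k, rfl⟩ := Fin.exists_castSucc_eq.2 hj.ne
    simpa using hg k
  · obtain ⟨g, hg, hg'⟩ := hf i
    refine ⟨g, fun j hj => ?_, by simpa using hg'⟩
    obtain ⟨k, rfl⟩ := Fin.exists_castSucc_eq.2 (hj.trans (Fin.castSucc_lt_last i)).ne
    simpa using hg k (by simpa using hj)

theorem Irr.init {t : ℕ} {f : Fin (t + 1) → Ω} (hf : Irr G f) : Irr G (fun i : Fin t => f i.castSucc) := by
  intro i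
  obtain ⟨g, hg, hg'⟩ := hf i.castSucc
  exact ⟨g, fun j hj => hg _ (by simpa using hj), hg'⟩

theorem Irr.injective {t : ℕ} {f : Fin t → Ω} (hf : Irr G f) : Function.Injective f := by
  intro i j hij
  by_contra hne
  rcases lt_or_gt_of_ne hne with h | h
  · obtain ⟨g, hg, hg'⟩ := hf j
    exact hg' (hij ▸ hg i h)
  · obtain ⟨g, hg, hg'⟩ := hf i
    exact hg' (hij ▸ hg j h)

theorem le_of_reorder
    (hR : ∀ (t : ℕ) (f : Fin t → Ω) (σ : Equiv.Perm (Fin t)), Base G f ∧ Irr G f →
      Base G (f ∘ σ) ∧ Irr G (f ∘ σ)) {t' : ℕ} {f' : Fin t' → Ω} (hf' : Base G f') (t m : ℕ) :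
    ∀ f : Fin t → Ω, Base G f → Irr G f → {i | f i ∉ Set.range f'}.ncard = m → t ≤ t' := by
  classical
  induction m with
  | zero =>
    intro f _ hi hm
    rw [Set.ncard_eq_zero] at hm
    have h1 : ∀ i, ∃ j, f' j = f i := fun i => by
      by_contra hc
      have : i ∈ {i | f i ∉ Set.range f'} := hc
      rw [hm] at this; exact this
    choose c hc using h1
    simpa using Fintype.card_le_of_injective c fun i j hij => hi.injective (by rw [← hc, hij, hc])
  | succ m ih =>
    intro f hb hi hm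
    obtain ⟨i, hi'⟩ := Set.nonempty_of_ncard_ne_zero (s := {i | f i ∉ Set.range f'}) (by omega)
    obtain ⟨t, rfl⟩ : ∃ s, t = s + 1 := ⟨t - 1, by have := i.pos; omega⟩
    obtain ⟨hb2, hi2⟩ := hR _ f (Equiv.swap i (Fin.last t)) ⟨hb, hi⟩
    set f2 := f ∘ Equiv.swap i (Fin.last t) with hf2
    have hm2 : {i | f2 i ∉ Set.range f'}.ncard = m + 1 := by
      rw [← hm]
      exact Set.ncard_preimage_of_injective_subset_range (s := {i | f i ∉ Set.range f'})
        (Equiv.swap i (Fin.last t)).injective (by simp)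
    have hl : f2 (Fin.last t) ∉ Set.range f' := by simpa [hf2] using hi'
    obtain ⟨g, hg, hg'⟩ := hi2 (Fin.last t)
    obtain ⟨j, hj⟩ : ∃ j, g • f' j ≠ f' j := by
      by_contra hc
      push Not at hc
      rw [hf' g hc, one_smul] at hg'
      exact hg' rfl
    have hi3 := hi2.init.snoc (y := f' j) ⟨g, fun k => hg _ (Fin.castSucc_lt_last k), hj⟩
    set f3 : Fin (t + 1) → Ω := Fin.snoc (fun i : Fin t => f2 i.castSucc) (f' j) with hf3
    have hb3 : Base G f3 := by
      intro h hh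
      by_contra h1
      have hh' : ∀ k : Fin t, h • f2 k.castSucc = f2 k.castSucc := fun k => by
        simpa [hf3] using hh k.castSucc
      have hx : h • f2 (Fin.last t) ≠ f2 (Fin.last t) := fun hx =>
        h1 (hb2 h (Fin.lastCases hx hh'))
      have hi4 := hi3.snoc ⟨h, hh, hx⟩
      have hb4 : Base G (Fin.snoc f3 (f2 (Fin.last t)) : Fin (t + 2) → Ω) := fun u hu =>
        hb2 u (Fin.lastCases (by simpa using hu (Fin.last _)) fun k => by
          simpa [hf3] using hu k.castSucc.castSucc)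
      obtain ⟨u, hu, hu'⟩ := (hR _ _ (Equiv.swap (Fin.last t).castSucc (Fin.last _)) ⟨hb4, hi4⟩).2
        (Fin.last _)
      apply hu'
      rw [hb2 u (Fin.lastCases ?_ fun k => ?_), one_smul]
      · simpa using hu (Fin.last t).castSucc (Fin.castSucc_lt_last _)
      · have := hu k.castSucc.castSucc (Fin.castSucc_lt_last _)
        rw [Function.comp_apply, Equiv.swap_apply_of_ne_of_ne
          (by simpa using (Fin.castSucc_lt_last k).ne) (Fin.castSucc_lt_last _).ne] at this
        simpa [hf3] using this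
    refine ih f3 hb3 hi3 ?_
    have : {i | f2 i ∉ Set.range f'} = insert (Fin.last t) {i | f3 i ∉ Set.range f'} := by
      ext k
      refine Fin.lastCases ?_ (fun k => ?_) k
      · simpa using hl
      · simp [hf3, (Fin.castSucc_lt_last k).ne]
    rw [this, Set.ncard_insert_of_notMem (by simp [hf3])] at hm2
    omega

end

/-- Let a finite group G act on a finite set Ω. An irredundant base is a sequence of points ω₁, …, ω_t whose pointwise stabiliser is trivial and in which each ω_i is moved by some element fixing ω₁, …, ω_{i−1}. Then all irredundant bases have the same length if and only if every reordering of an irredundant base is again an irredundant base. -/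
theorem result {G Ω : Type*} [Group G] [Finite G] [MulAction G Ω] [Fintype Ω] :
    (∀ (t t' : ℕ) (f : Fin t → Ω) (f' : Fin t' → Ω), ((∀ g : G, (∀ i : Fin t, g • f i = f i) → g = 1) ∧ ∀ i : Fin t, ∃ g : G, (∀ j : Fin t, j < i → g • f j = f j) ∧ g • f i ≠ f i) → ((∀ g : G, (∀ i : Fin t', g • f' i = f' i) → g = 1) ∧ ∀ i : Fin t', ∃ g : G, (∀ j : Fin t', j < i → g • f' j = f' j) ∧ g • f' i ≠ f' i) → t = t') ↔
    (∀ (t : ℕ) (f : Fin t → Ω) (σ : Equiv.Perm (Fin t)), ((∀ g : G, (∀ i : Fin t, g • f i = f i) → g = 1) ∧ ∀ i : Fin t, ∃ g : G, (∀ j : Fin t, j < i → g • f j = f j) ∧ g • f i ≠ f i) → ((∀ g : G, (∀ i : Fin t, g • (f ∘ σ) i = (f ∘ σ) i) → g = 1) ∧ ∀ i : Fin t, ∃ g : G, (∀ j : Fin t, j < i → g • (f ∘ σ) j = (f ∘ σ) j) ∧ g • (f ∘ σ) i ≠ (f ∘ σ) i)) := by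
  constructor
  · intro h t f σ hf
    have hb : Base G (f ∘ σ) := fun g hg => hf.1 g fun i => by simpa using hg (σ.symm i)
    refine ⟨hb, ?_⟩
    by_contra hi
    rcases t with _ | t
    · exact hi fun i => i.elim0
    obtain ⟨f', hf'⟩ := base_remove hb hi
    obtain ⟨t', ht', f'', h''⟩ := exists_irr t f' hf'
    have := h _ _ f f'' hf h''
    omega
  · intro h t t' f f' hf hf'
    exact le_antisymm (le_of_reorder h hf'.1 t _ f hf.1 hf.2 rfl)
      (le_of_reorder h hf.1 t' _ f' hf'.1 hf'.2 rfl)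

end Cfsg.Agent.S5747
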