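import Cfsg.Statements.S5748
import Cfsg.Agent.H4.CA5

set_option autoImplicit false
open Cfsg

namespace Cfsg.Agent.S5748

theorem mat_ct {F : Type*} [Field F] {A B C : Matrix (Fin 2) (Fin 2) F}
    (hB : ¬ (B 0 1 = 0 ∧ B 1 0 = 0 ∧ B 0 0 = B 1 1)) (h1 : A * B = B * A) (h2 : B * C = C * B) :
    A * C = C * A := by
  have a0 := congrFun (congrFun h1 0) 0
  have a1 := congrFun (congrFun h1 0) 1
  have a2 := congrFun (congrFun h1 1) 0
  have b0 := congrFun (congrFun h2 0) 0
  have b1 := congrFun (congrFun h2 0) 1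
  have b2 := congrFun (congrFun h2 1) 0
  simp only [Matrix.mul_apply, Fin.sum_univ_two] at a0 a1 a2 b0 b1 b2
  have key : A 0 1 * C 1 0 = C 0 1 * A 1 0 ∧ (A 0 0 - A 1 1) * C 0 1 = (C 0 0 - C 1 1) * A 0 1 ∧
      (A 0 0 - A 1 1) * C 1 0 = (C 0 0 - C 1 1) * A 1 0 := by
    by_cases q : B 0 1 = 0
    · by_cases r : B 1 0 = 0
      · have p : B 0 0 - B 1 1 ≠ 0 := fun e => hB ⟨q, r, sub_eq_zero.1 e⟩
        refine ⟨mul_left_cancel₀ p ?_, mul_left_cancel₀ p ?_, mul_left_cancel₀ p ?_⟩ <;> grind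
      · refine ⟨mul_left_cancel₀ r ?_, mul_left_cancel₀ r ?_, mul_left_cancel₀ r ?_⟩ <;> grind
    · refine ⟨mul_left_cancel₀ q ?_, mul_left_cancel₀ q ?_, mul_left_cancel₀ q ?_⟩ <;> grind
  obtain ⟨k1, k2, k3⟩ := key
  ext i j
  fin_cases i <;> fin_cases j <;> simp only [Matrix.mul_apply, Fin.sum_univ_two] <;> grind

theorem center_eq {F : Type*} [Field F] [CharP F 2] {Z : Matrix.SpecialLinearGroup (Fin 2) F}
    (h : Z 0 1 = 0 ∧ Z 1 0 = 0 ∧ Z 0 0 = Z 1 1) : Z = 1 := by
  have h1 := Z.det_coe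
  rw [Matrix.det_fin_two, h.1, h.2.2, zero_mul, sub_zero] at h1
  have h2 : Z 1 1 = 1 := by
    rcases mul_self_eq_one_iff.1 h1 with e | e
    · exact e
    · rw [e, CharTwo.neg_eq]
  ext i j
  fin_cases i <;> fin_cases j <;> simp [h.1, h.2.1, h.2.2, h2]

theorem psl_ct {F : Type*} [Field F] [CharP F 2] :
    H4.CA.CT (Matrix.ProjectiveSpecialLinearGroup (Fin 2) F) := by
  have hc : Subgroup.center (Matrix.SpecialLinearGroup (Fin 2) F) = ⊥ := by
    rw [eq_bot_iff]
    intro Z hZ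
    obtain ⟨r, -, hr⟩ := Matrix.SpecialLinearGroup.mem_center_iff.1 hZ
    exact center_eq (by rw [← hr]; simp)
  have hi : Function.Injective (QuotientGroup.mk' (Subgroup.center
      (Matrix.SpecialLinearGroup (Fin 2) F))) := by
    rw [← MonoidHom.ker_eq_bot_iff, QuotientGroup.ker_mk', hc]
  intro a b c hb h1 h2
  obtain ⟨A, rfl⟩ := QuotientGroup.mk'_surjective _ a
  obtain ⟨B, rfl⟩ := QuotientGroup.mk'_surjective _ b
  obtain ⟨C, rfl⟩ := QuotientGroup.mk'_surjective _ c
  rw [← map_mul, ← map_mul] at h1 h2 ⊢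
  congr 1
  exact Subtype.ext (mat_ct (fun e => hb (by rw [center_eq e, map_one]))
    (congrArg Subtype.val (hi h1)) (congrArg Subtype.val (hi h2)))


/-- A finite non-abelian simple group in which commuting is a transitive relation on the non-identity elements (equivalently, every non-identity element has abelian centraliser) is isomorphic to PSL₂ over a field with 2^f elements for some f ≥ 2; conversely these groups have that property. -/
theorem result {G : Type*} [Group G] [Finite G] [IsSimpleGroup G] (hG : ¬ IsMulCommutative G) :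
    (∀ a b c : G, a ≠ 1 → b ≠ 1 → c ≠ 1 → Commute a b → Commute b c → Commute a c) ↔
    ∃ (F : Type) (_ : Field F) (_ : Fintype F) (f : ℕ), 2 ≤ f ∧ Fintype.card F = 2 ^ f ∧ Nonempty (G ≃* Matrix.ProjectiveSpecialLinearGroup (Fin 2) F) := by
  have := Fintype.ofFinite G
  constructor
  · intro h
    obtain ⟨f, hf, e⟩ := H4.CA.CT.iso hG (fun a b c hb h1 h2 => by
      by_cases ha : a = 1
      · simp [ha]
      by_cases hc : c = 1
      · simp [hc]
      exact h a b c ha hb hc h1 h2)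
    have := Fintype.ofFinite (GaloisField 2 f)
    exact ⟨GaloisField 2 f, inferInstance, this, f, hf, by
      rw [← Nat.card_eq_fintype_card, GaloisField.card 2 f (by omega)], e⟩
  · rintro ⟨F, _, _, f, hf, hF, ⟨e⟩⟩ a b c - hb - h1 h2
    have : CharP F 2 := charP_of_card_eq_prime_pow hF
    apply e.injective
    rw [map_mul, map_mul]
    exact psl_ct _ (e b) _ (e.map_ne_one_iff.2 hb) (h1.map e) (h2.map e)

end Cfsg.Agent.S5748
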