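import Cfsg.Statements.S5752
import Cfsg.Agent.H3.Subnormal

set_option autoImplicit false
open Cfsg

namespace Cfsg.Agent.S5752

open H3 Subgroup
open scoped Pointwise

section
variable {G : Type*} [Group G] [Finite G]

def Prim (H : Subgroup G) : Prop :=
  ∀ s : Set G, s ⊆ H → (∃ x ∈ s, x ≠ 1) → (∀ h ∈ H, ∀ x ∈ s, h * x * h⁻¹ ∈ s) →
    ∀ g, (∀ x ∈ s, g * x * g⁻¹ ∈ s) → g ∈ H

theorem prim_of_coatom {H : Subgroup G} (hmax : IsCoatom H) (hcore : H.normalCore = ⊥) : Prim H := by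
  rintro s hs ⟨x, hx, hx1⟩ hH g hg
  by_contra hgH
  have h1 : H ≤ normalizer s := fun h hh => mem_normalizer_fintype (hH h hh)
  have h2 := hmax.2 _ (lt_of_le_of_ne h1 fun h => hgH (h ▸ mem_normalizer_fintype hg))
  apply hx1
  rw [← mem_bot, ← hcore]
  intro b
  exact hs ((show b ∈ normalizer s from h2 ▸ mem_top b) x |>.1 hx)

omit [Finite G] in
theorem Prim.sub {H N : Subgroup G} (hH : Prim H) (hN : NormIn N H) (h1 : N ≠ ⊥) {g : G}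
    (hg : ∀ x ∈ N, g * x * g⁻¹ ∈ N) : g ∈ H := by
  obtain ⟨⟨x, hx⟩, hx1⟩ := ne_bot_iff_exists_ne_one.1 h1
  exact hH N hN.1 ⟨x, hx, fun h => hx1 (Subtype.ext h)⟩ hN.2 g hg

structure Pair (H K A₁ B₁ A₂ B₂ : Subgroup G) : Prop where
  pH : Prim H
  pK : Prim K
  ne : H ≠ K
  card : ∀ p : ℕ, p.Prime → Nat.card (Op p H) = Nat.card (Op p K)
  mA₁ : ∀ x, x ∈ A₁ ↔ x ∈ H ∧ ∀ h ∈ H, h * x * h⁻¹ ∈ H ⊓ K
  mB₁ : ∀ x, x ∈ B₁ ↔ x ∈ K ∧ ∀ h ∈ K, h * x * h⁻¹ ∈ H ⊓ K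
  mA₂ : ∀ x, x ∈ A₂ ↔ x ∈ H ∧ ∀ h ∈ H, h * x * h⁻¹ ∈ A₁ ⊓ B₁
  mB₂ : ∀ x, x ∈ B₂ ↔ x ∈ K ∧ ∀ h ∈ K, h * x * h⁻¹ ∈ A₁ ⊓ B₁
  nA : A₂ ≠ ⊥
  nB : B₂ ≠ ⊥

variable {H K A₁ B₁ A₂ B₂ : Subgroup G}

omit [Finite G] in
theorem Pair.symm (h : Pair H K A₁ B₁ A₂ B₂) : Pair K H B₁ A₁ B₂ A₂ :=
  ⟨h.pK, h.pH, h.ne.symm, fun p hp => (h.card p hp).symm, inf_comm H K ▸ h.mB₁,
    inf_comm H K ▸ h.mA₁, inf_comm A₁ B₁ ▸ h.mB₂, inf_comm A₁ B₁ ▸ h.mA₂, h.nB, h.nA⟩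

omit [Finite G] in
theorem core_normIn {A Y : Subgroup G} (h : ∀ x, x ∈ A ↔ x ∈ H ∧ ∀ h ∈ H, h * x * h⁻¹ ∈ Y) :
    NormIn A H ∧ A ≤ Y := by
  refine ⟨⟨fun x hx => ((h x).1 hx).1, fun g hg x hx => (h _).2
    ⟨H.mul_mem (H.mul_mem hg ((h x).1 hx).1) (H.inv_mem hg), fun u hu => ?_⟩⟩, fun x hx => ?_⟩
  · simpa [mul_assoc] using ((h x).1 hx).2 (u * g) (H.mul_mem hu hg)
  · simpa using ((h x).1 hx).2 1 H.one_mem

omit [Finite G] in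
theorem Pair.nA₁ (h : Pair H K A₁ B₁ A₂ B₂) : NormIn A₁ H := (core_normIn h.mA₁).1
omit [Finite G] in
theorem Pair.A₁K (h : Pair H K A₁ B₁ A₂ B₂) : A₁ ≤ K := (core_normIn h.mA₁).2.trans inf_le_right
omit [Finite G] in
theorem Pair.nA₂ (h : Pair H K A₁ B₁ A₂ B₂) : NormIn A₂ H := (core_normIn h.mA₂).1
omit [Finite G] in
theorem Pair.nA₂B₁ (h : Pair H K A₁ B₁ A₂ B₂) : NormIn A₂ B₁ :=
  h.nA₂.mono ((core_normIn h.mA₂).2.trans inf_le_right) h.symm.A₁K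

omit [Finite G] in
theorem Pair.false_of_norm (h : Pair H K A₁ B₁ A₂ B₂) {s : Set G} (h1 : s ⊆ H) (h2 : s ⊆ K)
    (h3 : ∃ x ∈ s, x ≠ 1) (h4 : ∀ h ∈ H, ∀ x ∈ s, h * x * h⁻¹ ∈ s)
    (h5 : ∀ h ∈ K, ∀ x ∈ s, h * x * h⁻¹ ∈ s) : False :=
  h.ne (le_antisymm (fun g hg => h.pK s h2 h3 h5 g (h4 g hg)) fun g hg => h.pH s h1 h3 h4 g (h5 g hg))

theorem Pair.pgroup (h : Pair H K A₁ B₁ A₂ B₂) {p : ℕ} (hp : p.Prime) (hQ : Op p H ≠ ⊥) :
    IsPGroup p B₂ := by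
  have : Fact p.Prime := ⟨hp⟩
  by_contra hcon
  have hex : ∃ x ∈ ppElts p B₂, x ≠ 1 := by
    by_contra hc
    push Not at hc
    exact hcon (isPGroup_of_ppElts hc)
  have hBA := h.symm.nA₂B₁
  have hBK := h.symm.nA₂
  have hQH := Op_normIn p H
  have hQK := Op_normIn p K
  have key : ∀ r : G, (∀ s ∈ B₂, r * s * r⁻¹ * s⁻¹ ∈ Op p H ⊓ A₁) → r ∈ K := fun r hr =>
    h.pK _ (fun x hx => hBK.1 hx.1) hex
      (fun k hk x hx => ⟨hBK.2 k hk x hx.1, ((MulAut.conj k).orderOf_eq x).symm ▸ hx.2⟩) r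
      (conj_mem_ppElts ((Op_pgroup p H).to_inf_left) (fun q hq => hBA.2 q hq.2) hr)
  have h1 : Op p H ≤ K := fun r hr => key r fun s hs => ⟨by
      rw [mul_assoc, mul_assoc, ← mul_assoc s]
      exact (Op p H).mul_mem hr (hQH.2 s (h.nA₁.1 (hBA.1 hs)) _ (inv_mem hr)),
    A₁.mul_mem (h.nA₁.2 r (hQH.1 hr) s (hBA.1 hs)) (inv_mem (hBA.1 hs))⟩
  have h2 : Op p K ⊓ A₁ ≤ Op p H := by
    refine SubN.le_Op (SubN.trans (NormIn.subN ⟨inf_le_right, fun a ha x hx => ?_⟩) h.nA₁.subN)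
      (Op_pgroup p K).to_inf_left
    exact ⟨hQK.2 a (h.A₁K ha) x hx.1, A₁.mul_mem (A₁.mul_mem ha hx.2) (inv_mem ha)⟩
  have h3 : ∀ r ∈ Op p K, r ∈ H → r ∈ Op p H := by
    intro r hr hrH
    refine h2 ⟨hr, (h.mA₁ r).2 ⟨hrH, fun u hu =>
      ⟨H.mul_mem (H.mul_mem hu hrH) (inv_mem hu), key _ fun s hs => ?_⟩⟩⟩
    have hs' : u⁻¹ * s * u⁻¹⁻¹ ∈ A₁ := h.nA₁.2 _ (inv_mem hu) s (hBA.1 hs)
    have e : u * r * u⁻¹ * s * (u * r * u⁻¹)⁻¹ * s⁻¹ =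
        u * (r * (u⁻¹ * s * u⁻¹⁻¹) * r⁻¹ * (u⁻¹ * s * u⁻¹⁻¹)⁻¹) * u⁻¹ := by group
    have hm : r * (u⁻¹ * s * u⁻¹⁻¹) * r⁻¹ * (u⁻¹ * s * u⁻¹⁻¹)⁻¹ ∈ Op p K ⊓ A₁ := ⟨by
        rw [mul_assoc, mul_assoc, ← mul_assoc (u⁻¹ * s * u⁻¹⁻¹)]
        exact (Op p K).mul_mem hr (hQK.2 _ (h.A₁K hs') _ (inv_mem hr)),
      A₁.mul_mem (h.nA₁.2 r hrH _ hs') (inv_mem hs')⟩
    rw [e]
    exact ⟨hQH.2 u hu _ (h2 hm), h.nA₁.2 u hu _ hm.2⟩
  have h4 : Op p K ≤ Op p H := by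
    have hn : Op p H ≤ normalizer (Op p K : Set G) :=
      fun x hx => mem_normalizer_fintype (hQK.2 x (h1 hx))
    have hT : IsPGroup p (Op p H ⊔ Op p K : Subgroup G) :=
      (Op_pgroup p H).to_sup_of_normal_right' (Op_pgroup p K) hn
    by_contra hc
    have := hT.isNilpotent
    obtain ⟨t, ht1, ht2⟩ := SetLike.exists_of_lt (Group.normalizerCondition_of_isNilpotent
      ((Op p H).subgroupOf (Op p H ⊔ Op p K)) (lt_top_iff_ne_top.2 fun h' =>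
        hc (le_sup_right.trans (subgroupOf_eq_top.1 h'))))
    have ht3 : (t : G) ∈ H := h.pH.sub hQH hQ fun x hx =>
      (ht1 ⟨x, mem_sup_left hx⟩).1 hx
    have ht4 : (t : G) ∈ (Op p H : Set G) * (Op p K : Set G) := by
      rw [← coe_mul_of_left_le_normalizer_right _ _ hn]; exact t.2
    obtain ⟨a, ha, b, hb, hab⟩ := ht4
    apply ht2
    change (t : G) ∈ Op p H
    rw [← hab] at ht3 ⊢
    exact mul_mem ha (h3 b hb ((H.mul_mem_cancel_left (hQH.1 ha)).1 ht3))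
  have h5 : Op p K = Op p H := eq_of_le_of_card_ge h4 (h.card p hp).le
  obtain ⟨⟨x, hx⟩, hx1⟩ := ne_bot_iff_exists_ne_one.1 hQ
  exact h.false_of_norm hQH.1 h1 ⟨x, hx, fun h => hx1 (Subtype.ext h)⟩ hQH.2 (h5 ▸ hQK.2)

omit [Finite G] in
theorem Pair.comp (h : Pair H K A₁ B₁ A₂ B₂) {C : Subgroup G} (hC : SubN C K)
    (hq : IsQuasisimple C) : SubN C H := by
  have h1 : C ≤ H := fun c hc => h.pH.sub h.nA₂ h.nA (comp_normalizes hC hq h.symm.nA₁ h.nA₂B₁ c hc)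
  have h2 : SubN C (H ⊓ K) := hC.mono (le_inf h1 hC.1) inf_le_right
  have h3 : C ≤ A₁ := fun c hc => (h.mA₁ c).2 ⟨h1 hc, fun u hu =>
    ⟨H.mul_mem (H.mul_mem hu (h1 hc)) (inv_mem hu), h.pK.sub h.symm.nA₂ h.nB fun s hs => by
      have hS : NormIn (B₂.comap (MulAut.conj u).toMonoidHom) A₁ := by
        refine ⟨fun x hx => ?_, fun a ha x hx => ?_⟩
        · simpa [mul_assoc] using h.nA₁.2 _ (inv_mem hu) _ (h.symm.nA₂B₁.1 hx)
        · simpa [mul_assoc] using h.symm.nA₂B₁.2 _ (h.nA₁.2 u hu a ha) _ hx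
      have := comp_normalizes h2 hq (h.nA₁.mono (le_inf h.nA₁.1 h.A₁K) inf_le_left) hS c hc
        (u⁻¹ * s * u) (by simpa [mul_assoc] using hs)
      simpa [mul_assoc] using this⟩⟩
  exact (hC.mono h3 h.A₁K).trans h.nA₁.subN

omit [Finite G] in
theorem Pair.no_comp (h : Pair H K A₁ B₁ A₂ B₂) {C : Subgroup G} (hC : SubN C H)
    (hq : IsQuasisimple C) : False := by
  have := IsQuasisimple.nontrivial hq
  obtain ⟨x, hx⟩ := exists_ne (1 : C)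
  refine h.false_of_norm (s := {x | ∃ C : Subgroup G, SubN C H ∧ IsQuasisimple C ∧ x ∈ C})
    (fun x ⟨C, h1, _, h3⟩ => h1.1 h3) (fun x ⟨C, h1, h2, h3⟩ => (h.symm.comp h1 h2).1 h3)
    ⟨x, ⟨C, hC, hq, x.2⟩, fun h => hx (Subtype.ext h)⟩ ?_ ?_
  · rintro u hu x ⟨C, h1, h2, h3⟩
    exact ⟨_, h1.conj hu, isQuasisimple_map h2 (MulAut.conj u).injective, x, h3, rfl⟩
  · rintro u hu x ⟨C, h1, h2, h3⟩
    have h4 := isQuasisimple_map (f := (MulAut.conj u).toMonoidHom) h2 (MulAut.conj u).injective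
    exact ⟨_, h.comp ((h.symm.comp h1 h2).conj hu) h4, h4, x, h3, rfl⟩

theorem Pair.fitting (h : Pair H K A₁ B₁ A₂ B₂) {p : ℕ} (hp : p.Prime) (hB : IsPGroup p B₂)
    {T : Subgroup G} (hT : SubN T H) : generalizedFittingSubgroup T = pCore p T := by
  refine genFitting_eq_pCore hp (fun C hC => h.no_comp ((subN_map hC.1).trans hT)
    (isQuasisimple_map hC.2 T.subtype_injective)) fun r hr hrp => ?_
  have : Fact p.Prime := ⟨hp⟩
  have : Fact r.Prime := ⟨hr⟩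
  by_contra hc
  have h1 : Op r H ≠ ⊥ := fun h0 => hc (Op_eq_bot_iff.1 (le_bot_iff.1
    (h0 ▸ ((Op_normIn r T).subN.trans hT).le_Op (Op_pgroup r T))))
  exact h.nB (disjoint_self.1 (IsPGroup.disjoint_of_ne r p hrp _ _ (h.pgroup hr h1) hB))

theorem Pair.main (h : Pair H K A₁ B₁ A₂ B₂) : ∃ p : ℕ, p.Prime ∧ IsPGroup p ↥(A₂ ⊔ B₂) ∧
    generalizedFittingSubgroup H = pCore p H ∧ generalizedFittingSubgroup A₁ = pCore p A₁ ∧
    generalizedFittingSubgroup K = pCore p K ∧ generalizedFittingSubgroup B₁ = pCore p B₁ := by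
  have : Nontrivial H := (nontrivial_iff_ne_bot H).2 fun h0 => h.nA (le_bot_iff.1 (h0 ▸ h.nA₂.1))
  rcases exists_component_or_pCore (X := H) with ⟨C, hC⟩ | ⟨p, hp, hp1⟩
  · exact (h.no_comp (subN_map hC.1) (isQuasisimple_map hC.2 H.subtype_injective)).elim
  have : Fact p.Prime := ⟨hp⟩
  have h1 : Op p H ≠ ⊥ := fun h0 => hp1 (Op_eq_bot_iff.1 h0)
  have h2 : Op p K ≠ ⊥ := by rwa [Ne, ← card_eq_one, ← h.card p hp, card_eq_one]
  have hB := h.pgroup hp h1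
  have hA := h.symm.pgroup hp h2
  have hrefl : ∀ L : Subgroup G, SubN L L := fun L =>
    NormIn.subN ⟨le_rfl, fun a ha x hx => mul_mem (mul_mem ha hx) (inv_mem ha)⟩
  exact ⟨p, hp, (Op_pgroup p H).to_le (sup_le (h.nA₂.subN.le_Op hA)
      ((h.symm.nA₂B₁.subN.trans h.nA₁.subN).le_Op hB)),
    h.fitting hp hB (hrefl H), h.fitting hp hB h.nA₁.subN,
    h.symm.fitting hp hA (hrefl K), h.symm.fitting hp hA h.symm.nA₁.subN⟩

omit [Finite G] in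
theorem mem_core {M Y : Subgroup G} (x : G) : x ∈ (Y.subgroupOf M).normalCore.map M.subtype ↔
    x ∈ M ∧ ∀ h ∈ M, h * x * h⁻¹ ∈ Y := by
  constructor
  · rintro ⟨y, hy, rfl⟩
    exact ⟨y.2, fun h hh => hy ⟨h, hh⟩⟩
  · rintro ⟨h1, h2⟩
    exact ⟨⟨x, h1⟩, fun h => h2 h h.2, rfl⟩

end

/-- A form of the Thompson–Wielandt Theorem on primitive permutation groups. Let G be a finite group and M₁, M₂ two distinct conjugate maximal subgroups of G with trivial core in G; define two descending sequences of subgroups by A₀ = M₁, B₀ = M₂ and, for every i, A_{i+1} = the core in M₁ of A_i ∩ B_i and B_{i+1} = the core in M₂ of A_i ∩ B_i (the core in M of a subgroup Y ≤ M is the largest normal subgroup of M contained in Y). If A₂ and B₂ are both non-trivial, then for some prime p the subgroup generated by A₂ and B₂ is a p-group, and for each j the generalized Fitting subgroups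 of M_j and of its first core (A₁, resp. B₁) are their largest normal p-subgroups. -/
theorem result {G : Type*} [Group G] [Finite G] (M₁ M₂ : Subgroup G) (hmax : IsCoatom M₁) (g : G)
    (hconj : M₂ = M₁.map (MulAut.conj g).toMonoidHom) (hne : M₁ ≠ M₂) (hcore : M₁.normalCore = ⊥)
    (A B : ℕ → Subgroup G) (hA0 : A 0 = M₁) (hB0 : B 0 = M₂)
    (hA : ∀ i, A (i + 1) = ((A i ⊓ B i).subgroupOf M₁).normalCore.map M₁.subtype)
    (hB : ∀ i, B (i + 1) = ((A i ⊓ B i).subgroupOf M₂).normalCore.map M₂.subtype) (hA2 : A 2 ≠ ⊥) (hB2 : B 2 ≠ ⊥) :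
    ∃ p : ℕ, p.Prime ∧ IsPGroup p ↥(A 2 ⊔ B 2) ∧
      Cfsg.generalizedFittingSubgroup ↥M₁ = Cfsg.pCore p ↥M₁ ∧ Cfsg.generalizedFittingSubgroup ↥(A 1) = Cfsg.pCore p ↥(A 1) ∧
      Cfsg.generalizedFittingSubgroup ↥M₂ = Cfsg.pCore p ↥M₂ ∧ Cfsg.generalizedFittingSubgroup ↥(B 1) = Cfsg.pCore p ↥(B 1) := by
  have hmax2 : IsCoatom M₂ := by
    rw [hconj]; exact ((MulAut.conj g).mapSubgroup.isCoatom_iff M₁).2 hmax
  have hcore2 : M₂.normalCore = ⊥ := by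
    rw [eq_bot_iff, ← hcore]
    intro x hx b
    have := hx (g * b)
    rw [hconj] at this
    obtain ⟨y, hy, e⟩ := this
    have : y = b * x * b⁻¹ := (MulAut.conj g).injective (by simpa [mul_assoc] using e)
    exact this ▸ hy
  have e : M₁ ≃* M₂ := hconj ▸ M₁.equivMapOfInjective _ (MulAut.conj g).injective
  refine Pair.main ⟨prim_of_coatom hmax hcore, prim_of_coatom hmax2 hcore2, hne, fun p hp => ?_,
    fun x => ?_, fun x => ?_, fun x => ?_, fun x => ?_, hA2, hB2⟩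
  · have : Fact p.Prime := ⟨hp⟩
    rw [Op, Op, card_subtype, card_subtype]
    exact le_antisymm (card_pCore_le e p) (card_pCore_le e.symm p)
  · rw [hA 0, mem_core, hA0, hB0]
  · rw [hB 0, mem_core, hA0, hB0]
  · rw [hA 1, mem_core]
  · rw [hB 1, mem_core]

end Cfsg.Agent.S5752
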