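import Cfsg.Statements.S5753
import Cfsg.Agent.H3.AffBin6
import Cfsg.Agent.H3.Binary
import Cfsg.Agent.H3.Central
import Cfsg.Agent.H3.RegNormal

set_option autoImplicit false
open Cfsg

namespace Cfsg.Agent.S5753

open Cfsg.Agent.H3 MulAction

theorem aux {G Ω V : Type*} [Group G] [Finite G] [MulAction G Ω] [FaithfulSMul G Ω] [Fintype Ω]
    [AddCommGroup V] [Nontrivial V] (ω₀ : Ω) [DistribMulAction (stabilizer G ω₀) V]
    (β : V ≃ Ω) (τ : V → G) (h0 : β 0 = ω₀) (hτ : ∀ u v, τ u • β v = β (u + v))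
    (hh : ∀ (h : stabilizer G ω₀) (v : V), β (h • v) = (h : G) • β v)
    (hprim : IsPreprimitive G Ω) (hbin : IsBin G Ω) :
    ((Fintype.card Ω).Prime ∧ ∀ ω : Ω, Nat.card ↥(MulAction.stabilizer G ω) ≤ 2) ∨
    (∃ (F E : Type) (_ : Field F) (_ : Fintype F) (_ : Field E) (_ : Fintype E) (_ : Algebra F E) (e : Ω ≃ E),
        Module.finrank F E = 2 ∧
        ∀ σ : Equiv.Perm Ω, σ ∈ (MulAction.toPermHom G Ω).range ↔
          ∃ (a b : E) (φ : E ≃ₐ[F] E), Algebra.norm F a = 1 ∧ ∀ ω : Ω, e (σ ω) = a * φ (e ω) + b) := by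
  have : Finite V := Finite.of_equiv Ω β.symm
  have dec : ∀ g : G, ∃ (u : V) (h : stabilizer G ω₀), ∀ v, g • β v = β (u + h • v) := by
    intro g
    obtain ⟨u, hu⟩ := β.surjective (g • ω₀)
    have hm : (τ u)⁻¹ * g ∈ stabilizer G ω₀ := by
      rw [mem_stabilizer_iff, mul_smul, inv_smul_eq_iff, ← hu, ← h0, hτ, add_zero]
    refine ⟨u, ⟨_, hm⟩, fun v => ?_⟩
    rw [← hτ, hh, mul_smul, smul_inv_smul]
  have comp : ∀ (u : V) (h : stabilizer G ω₀), ∃ g : G, ∀ v, g • β v = β (u + h • v) :=
    fun u h => ⟨τ u * h, fun v => by rw [mul_smul, ← hh, hτ]⟩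
  have bin : LBin (stabilizer G ω₀) V := by
    intro S h1 h2
    obtain ⟨g, hg⟩ := hbin.fin (ι := Option S) (fun o => o.elim ω₀ (fun a => β a.1.1))
      (fun o => o.elim ω₀ (fun a => β a.1.2)) (by
        rintro (_ | a) (_ | b)
        · exact ⟨1, one_smul _ _, one_smul _ _⟩
        · obtain ⟨h, hh'⟩ := h1 b b.2
          exact ⟨h, h.2, by simp only [Option.elim]; rw [← hh, hh']⟩
        · obtain ⟨h, hh'⟩ := h1 a a.2
          exact ⟨h, by simp only [Option.elim]; rw [← hh, hh'], h.2⟩
        · obtain ⟨h, hh'⟩ := h2 a a.2 b b.2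
          obtain ⟨g, hg⟩ := comp (b.1.2 - h • b.1.1) h
          refine ⟨g, ?_, ?_⟩ <;> simp only [Option.elim] <;> rw [hg] <;> congr 1
          · rw [smul_sub] at hh'
            linear_combination (norm := abel) hh'
          · abel)
    refine ⟨⟨g, hg none⟩, fun a ha => β.injective ?_⟩
    rw [hh]
    exact hg (some ⟨a, ha⟩)
  have faith : ∀ g : stabilizer G ω₀, (∀ v : V, g • v = v) → g = 1 := by
    intro g hg
    apply Subtype.ext
    apply FaithfulSMul.eq_of_smul_eq_smul (α := Ω)
    intro x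
    obtain ⟨v, rfl⟩ := β.surjective x
    rw [← hh, hg, OneMemClass.coe_one, one_smul]
  have hirr : ∀ X : AddSubgroup V, (∀ g : stabilizer G ω₀, ∀ x ∈ X, g • x ∈ X) → X = ⊥ ∨ X = ⊤ := by
    intro X hX
    by_cases hb : X = ⊥
    · exact Or.inl hb
    obtain ⟨⟨x, hx⟩, hx0⟩ := (AddSubgroup.ne_bot_iff_exists_ne_zero).1 hb
    have hx0' : x ≠ 0 := fun e => hx0 (Subtype.ext e)
    refine Or.inr (eq_top_iff.2 (fun v _ => ?_))
    have := prim_block hprim (B := {ω | β.symm ω ∈ X}) (by
      intro g a ha hga y hy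
      obtain ⟨a, rfl⟩ := β.surjective a
      obtain ⟨y, rfl⟩ := β.surjective y
      obtain ⟨u, h, hu⟩ := dec g
      simp only [Set.mem_ofPred_eq, hu, Equiv.symm_apply_apply] at ha hga hy ⊢
      have h3 : u ∈ X := by simpa using X.sub_mem hga (hX h a ha)
      exact X.add_mem h3 (hX h y hy)) (a := β x) (b := β 0) (by simpa using hx) (by simp)
      (fun e => hx0' (β.injective e)) (β v)
    simpa using this
  rcases affine_binary bin faith hirr with ⟨hp, hc⟩ | ⟨F, E, iF, fF, iE, fE, iA, φ, hd, h1, h2⟩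
  · refine Or.inl ⟨by rwa [← Nat.card_eq_fintype_card, ← Nat.card_congr β], fun ω => ?_⟩
    obtain ⟨g, rfl⟩ := hprim.toIsPretransitive.exists_smul_eq ω₀ ω
    rwa [← Nat.card_congr (stabilizerEquivStabilizer (rfl : g • ω₀ = g • ω₀)).toEquiv]
  · refine Or.inr ⟨F, E, iF, fF, iE, fE, iA, β.symm.trans φ.symm.toEquiv, hd, fun σ => ⟨?_, ?_⟩⟩
    · rintro ⟨g, rfl⟩
      obtain ⟨u, h, hu⟩ := dec g
      obtain ⟨a, θ, ha, hθ⟩ := h1 h
      refine ⟨a, φ.symm u, θ, ha, fun ω => ?_⟩
      obtain ⟨v, rfl⟩ := β.surjective ω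
      obtain ⟨x, rfl⟩ := φ.surjective v
      simp [hu, hθ, add_comm]
    · rintro ⟨a, b, θ, ha, hσ⟩
      obtain ⟨h, hθ⟩ := h2 a θ ha
      obtain ⟨g, hg⟩ := comp (φ b) h
      refine ⟨g, Equiv.ext (fun ω => ?_)⟩
      obtain ⟨v, rfl⟩ := β.surjective ω
      obtain ⟨x, rfl⟩ := φ.surjective v
      apply (β.symm.trans φ.symm.toEquiv).injective
      rw [hσ]
      simp [hg, hθ, add_comm]

/-- The binary primitive permutation groups of affine type (the known proof uses the classification of the finite simple groups). Let a finite group G act faithfully and primitively on a finite set Ω, with a non-trivial abelian normal subgroup, and suppose the action is binary: for every n ≥ 2 and all n-tuples I, J of points, if for every pair of positions some element of G carries the corresponding pair of entries of I to those of J, then a single element carries I to J. Then either Ω has a prime number of points and every point stabilizer has order at most 2, or Ω can be identified with a field E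 that is a quadratic extension of a subfield F in such a way that the permutations induced by G are exactly the maps x ↦ a·φ(x) + b with a ∈ E of norm 1 over F, φ an automorphism of E over F and b ∈ E (the affine group of the anisotropic plane orthogonal group). -/
theorem result {G Ω : Type*} [Group G] [Finite G] [MulAction G Ω] [FaithfulSMul G Ω] [Fintype Ω]
    (hprim : MulAction.IsPreprimitive G Ω)
    (haff : ∃ N : Subgroup G, N.Normal ∧ N ≠ ⊥ ∧ IsMulCommutative ↥N)
    (hbin : ∀ (n : ℕ) (I J : Fin n → Ω), 2 ≤ n →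
      (∀ i j : Fin n, i ≠ j → ∃ g : G, g • I i = J i ∧ g • I j = J j) → ∃ g : G, ∀ i, g • I i = J i) :
    ((Fintype.card Ω).Prime ∧ ∀ ω : Ω, Nat.card ↥(MulAction.stabilizer G ω) ≤ 2) ∨
    (∃ (F E : Type) (_ : Field F) (_ : Fintype F) (_ : Field E) (_ : Fintype E) (_ : Algebra F E) (e : Ω ≃ E),
        Module.finrank F E = 2 ∧
        ∀ σ : Equiv.Perm Ω, σ ∈ (MulAction.toPermHom G Ω).range ↔
          ∃ (a b : E) (φ : E ≃ₐ[F] E), Algebra.norm F a = 1 ∧ ∀ ω : Ω, e (σ ω) = a * φ (e ω) + b) := by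
  obtain ⟨N, hN, hN1, hc⟩ := haff
  have hf : ∀ g : G, (∀ x : Ω, g • x = x) → g = 1 := fun g hg =>
    FaithfulSMul.eq_of_smul_eq_smul (α := Ω) (fun x => by rw [hg, one_smul])
  obtain ⟨⟨n, hn⟩, hn1⟩ := (Subgroup.ne_bot_iff_exists_ne_one).1 hN1
  obtain ⟨ω₀, hω⟩ : ∃ a : Ω, n • a ≠ a := by
    by_contra h
    push Not at h
    exact hn1 (Subtype.ext (hf n h))
  have ht := normal_trans hprim N hn hω
  have hreg : stabilizer N ω₀ = ⊥ := stabilizer_eq_bot_iff.2 (fun m hm hmω =>
    hf m (fix_all_of_commute ht (fun k hk =>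
      congrArg Subtype.val (hc.is_comm.comm (⟨k, hk⟩ : N) ⟨m, hm⟩)) hmω))
  let _ : CommGroup N := { (inferInstance : Group N) with mul_comm := hc.is_comm.comm }
  have : Nontrivial N := ⟨⟨_, _, hn1⟩⟩
  let _ : DistribMulAction (stabilizer G ω₀) (Additive N) :=
    { smul := fun h v => Additive.ofMul (MulAut.conjNormal (h : G) v.toMul)
      one_smul := fun v => by
        change Additive.ofMul (MulAut.conjNormal ((1 : stabilizer G ω₀) : G) v.toMul) = v
        simp
      mul_smul := fun a b v => by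
        change Additive.ofMul (MulAut.conjNormal ((a * b : stabilizer G ω₀) : G) v.toMul) =
          Additive.ofMul (MulAut.conjNormal (a : G) (MulAut.conjNormal (b : G) v.toMul))
        simp
      smul_zero := fun a => by
        change Additive.ofMul (MulAut.conjNormal (a : G) (1 : N)) = 0
        simp
      smul_add := fun a u v => by
        change Additive.ofMul (MulAut.conjNormal (a : G) (u.toMul * v.toMul)) =
          Additive.ofMul (MulAut.conjNormal (a : G) u.toMul) +
          Additive.ofMul (MulAut.conjNormal (a : G) v.toMul)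
        rw [map_mul, ofMul_mul] }
  refine aux (V := Additive N) ω₀
    (Additive.toMul.trans (Equiv.ofBijective _ (bijective_smul_of_regular ht hreg)))
    (fun v => (v.toMul : G)) ?_ ?_ ?_ hprim hbin
  · exact one_smul N ω₀
  · intro u v
    exact (mul_smul _ _ _).symm
  · intro h v
    change ((MulAut.conjNormal (h : G) v.toMul : N) : G) • ω₀ = (h : G) • (v.toMul : G) • ω₀
    rw [MulAut.conjNormal_apply, conj_smul_of_fix h.2]

end Cfsg.Agent.S5753
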