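import Cfsg.Statements.S5754

set_option autoImplicit false
open Cfsg

namespace Cfsg.Agent.S5754

theorem exists_refl {F V : Type*} [Field F] [AddCommGroup V] [Module F V]
    (Q : QuadraticForm F V) (hQ : Q.Anisotropic) {x y : V} (hxy : Q x = Q y) :
    ∃ s : Q.IsometryEquiv Q, s x = y ∧ ∀ w, QuadraticMap.polar Q w x = QuadraticMap.polar Q w y →
      s w = w := by
  rcases eq_or_ne x y with rfl | hne
  · exact ⟨QuadraticMap.IsometryEquiv.refl Q, rfl, fun _ _ => rfl⟩
  have hd : Q (x - y) ≠ 0 := fun h => hne (sub_eq_zero.1 (hQ _ h))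
  let f : Module.Dual F V := (Q (x - y))⁻¹ • Q.polarBilin (x - y)
  have hf : ∀ w, f w = (Q (x - y))⁻¹ * QuadraticMap.polar Q (x - y) w := fun w => rfl
  have h2 : f (x - y) = 2 := by
    rw [hf, QuadraticMap.polar_self, two_smul]; field_simp; norm_num
  have hsub : ∀ u v : V, Q (u - v) = Q u + Q v - QuadraticMap.polar Q u v := by
    intro u v
    have := QuadraticMap.map_add Q u (-v)
    rw [QuadraticMap.map_neg, QuadraticMap.polar_neg_right] at this
    rw [sub_eq_add_neg, this, sub_eq_add_neg]
  refine ⟨⟨Module.reflection h2, fun w => ?_⟩, ?_, fun w hw => ?_⟩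
  · change Q (Module.reflection h2 w) = Q w
    rw [Module.reflection_apply, hsub, QuadraticMap.map_smul, QuadraticMap.polar_smul_right, hf,
      QuadraticMap.polar_comm Q w]
    simp only [smul_eq_mul]
    field_simp
    ring
  · change Module.reflection h2 x = y
    have : QuadraticMap.polar Q (x - y) x = Q (x - y) := by
      rw [QuadraticMap.polar_sub_left, QuadraticMap.polar_self, hsub, ← hxy, two_smul,
        QuadraticMap.polar_comm Q y]
    rw [Module.reflection_apply, hf, this, inv_mul_cancel₀ hd, one_smul, sub_sub_cancel]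
  · change Module.reflection h2 w = w
    rw [Module.reflection_apply, hf, QuadraticMap.polar_comm, QuadraticMap.polar_sub_right, hw,
      sub_self, mul_zero, zero_smul, sub_zero]

/-- Let V be a finite-dimensional vector space over a finite field F carrying an anisotropic quadratic form Q (Q(v) = 0 only for v = 0). Then the group of all maps v ↦ φ(v) + c, with φ an isometry of Q and c ∈ V, acts on V as a binary permutation group: given n ≥ 2 and two n-tuples u, u' of vectors such that every pair of corresponding entries of u is carried to that of u' by such a map, one such map carries u to u'. -/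
theorem result {F V : Type*} [Field F] [Finite F] [AddCommGroup V] [Module F V] [Module.Finite F V]
    (Q : QuadraticForm F V) (hQ : Q.Anisotropic) (n : ℕ) (hn : 2 ≤ n) (u u' : Fin n → V)
    (h2 : ∀ i j : Fin n, i ≠ j → ∃ (φ : Q.IsometryEquiv Q) (c : V), φ (u i) + c = u' i ∧ φ (u j) + c = u' j) :
    ∃ (φ : Q.IsometryEquiv Q) (c : V), ∀ i, φ (u i) + c = u' i := by
  classical
  let i0 : Fin n := ⟨0, by omega⟩
  have h1 : ∀ i j, Q (u i - u j) = Q (u' i - u' j) := by
    intro i j
    rcases eq_or_ne i j with rfl | hij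
    · simp
    obtain ⟨φ, c, e1, e2⟩ := h2 i j hij
    rw [← e1, ← e2, add_sub_add_right_eq_sub, ← map_sub, φ.map_app]
  have hsub : ∀ u v : V, QuadraticMap.polar Q u v = Q u + Q v - Q (u - v) := by
    intro u v
    have := QuadraticMap.map_add Q u (-v)
    rw [QuadraticMap.map_neg, QuadraticMap.polar_neg_right] at this
    rw [sub_eq_add_neg u, this]; ring
  have h3 : ∀ i j, QuadraticMap.polar Q (u i - u i0) (u j - u i0) =
      QuadraticMap.polar Q (u' i - u' i0) (u' j - u' i0) := by
    intro i j
    rw [hsub, hsub, sub_sub_sub_cancel_right, sub_sub_sub_cancel_right, h1, h1, h1]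
  have key : ∀ s : Finset (Fin n), ∃ φ : Q.IsometryEquiv Q, ∀ i ∈ s,
      φ (u i - u i0) = u' i - u' i0 := by
    intro s
    induction s using Finset.induction_on with
    | empty => exact ⟨QuadraticMap.IsometryEquiv.refl Q, by simp⟩
    | insert k s hk ih =>
      obtain ⟨φ, hφ⟩ := ih
      obtain ⟨t, ht1, ht2⟩ := exists_refl Q hQ (x := φ (u k - u i0)) (y := u' k - u' i0)
        (by rw [φ.map_app, h1])
      refine ⟨φ.trans t, fun i hi => ?_⟩
      change t (φ _) = _
      rcases Finset.mem_insert.1 hi with rfl | hi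
      · exact ht1
      · rw [hφ i hi]
        apply ht2
        rw [← h3, ← hφ i hi, hsub, hsub, ← map_sub, φ.map_app, φ.map_app, φ.map_app]
  obtain ⟨φ, hφ⟩ := key Finset.univ
  refine ⟨φ, u' i0 - φ (u i0), fun i => ?_⟩
  have := hφ i (Finset.mem_univ _)
  rw [map_sub] at this
  rw [← add_sub_assoc, add_sub_right_comm, this, sub_add_cancel]

end Cfsg.Agent.S5754
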