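import Cfsg.Statements.S5763

set_option autoImplicit false
open Cfsg

namespace Cfsg.Agent.S5763

def allB (p : Fin 8 → Bool) : Bool := p 0 && p 1 && p 2 && p 3 && p 4 && p 5 && p 6 && p 7

theorem allB_iff {p : Fin 8 → Bool} : allB p = true ↔ ∀ a, p a = true := by
  simp [allB, Fin.forall_fin_succ, and_assoc]

def vec (v0 v1 v2 v3 v4 v5 v6 v7 : Fin 8) (a : Fin 8) : Fin 8 :=
  match a.val with
  | 0 => v0 | 1 => v1 | 2 => v2 | 3 => v3 | 4 => v4 | 5 => v5 | 6 => v6 | _ => v7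

def m0 : Fin 8 → Fin 8 := vec 1 0 3 2 5 4 7 6

def R (m g : Fin 8 → Fin 8) : Prop :=
  (∀ a, g (m a) = m (g a)) ∧ ((∀ a, g a = a ∨ g a = m a) ∨ ∀ a, (g a ≠ a ∧ g a ≠ m a) ∧ g (g a) = a)

def Rb (m g : Fin 8 → Fin 8) : Bool :=
  (allB fun a => g (m a) == m (g a)) && ((allB fun a => g a == a || g a == m a) ||
    allB fun a => g a != a && g a != m a && g (g a) == a)

theorem Rb_iff {m g : Fin 8 → Fin 8} : Rb m g = true ↔ R m g := by
  simp [Rb, R, allB_iff]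

def cands : List (Fin 8 → Fin 8) :=
  [vec 1 0 2 3 4 5 6 7,
    vec 0 1 3 2 4 5 6 7,
    vec 0 1 2 3 5 4 6 7,
    vec 0 1 2 3 4 5 7 6,
    vec 1 0 3 2 5 4 7 6,
    vec 2 3 0 1 6 7 4 5,
    vec 2 3 0 1 7 6 5 4,
    vec 3 2 1 0 6 7 4 5,
    vec 3 2 1 0 7 6 5 4,
    vec 4 5 6 7 0 1 2 3,
    vec 4 5 7 6 0 1 3 2,
    vec 5 4 6 7 1 0 2 3,
    vec 5 4 7 6 1 0 3 2,
    vec 6 7 4 5 2 3 0 1,
    vec 6 7 5 4 3 2 0 1,
    vec 7 6 4 5 2 3 1 0,
    vec 7 6 5 4 3 2 1 0]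

theorem cands_ok : (cands.all fun g => Rb m0 g && (allB fun a => g (g a) == a) &&
    !allB fun a => g a == a) = true := by decide +kernel

theorem enum : (allB fun v0 => v0 == 0 || 
      allB fun v1 => v1 == 1 || (v0 == 1) != (v1 == 0) || 
      allB fun v2 => v2 == 2 || (v0 == 2) != (v2 == 0) || (v1 == 2) != (v2 == 1) || 
      allB fun v3 => v3 == 3 || (v0 == 3) != (v3 == 0) || (v1 == 3) != (v3 == 1) || (v2 == 3) != (v3 == 2) || 
      allB fun v4 => v4 == 4 || (v0 == 4) != (v4 == 0) || (v1 == 4) != (v4 == 1) || (v2 == 4) != (v4 == 2) || (v3 == 4) != (v4 == 3) || 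
      allB fun v5 => v5 == 5 || (v0 == 5) != (v5 == 0) || (v1 == 5) != (v5 == 1) || (v2 == 5) != (v5 == 2) || (v3 == 5) != (v5 == 3) || (v4 == 5) != (v5 == 4) || 
      allB fun v6 => v6 == 6 || (v0 == 6) != (v6 == 0) || (v1 == 6) != (v6 == 1) || (v2 == 6) != (v6 == 2) || (v3 == 6) != (v6 == 3) || (v4 == 6) != (v6 == 4) || (v5 == 6) != (v6 == 5) || 
      allB fun v7 => v7 == 7 || (v0 == 7) != (v7 == 0) || (v1 == 7) != (v7 == 1) || (v2 == 7) != (v7 == 2) || (v3 == 7) != (v7 == 3) || (v4 == 7) != (v7 == 4) || (v5 == 7) != (v7 == 5) || (v6 == 7) != (v7 == 6) || 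
      cands.any fun g => Rb (vec v0 v1 v2 v3 v4 v5 v6 v7) g) = true := by
  decide +kernel

theorem exists_cand (m : Fin 8 → Fin 8) (h1 : ∀ a, m a ≠ a) (h2 : ∀ a b, m a = b ↔ m b = a) :
    ∃ g ∈ cands, R m g := by
  replace h1 : ∀ a, (m a == a) = false := fun a => by simpa using h1 a
  replace h2 : ∀ a b, ((m a == b) != (m b == a)) = false := fun a b => by simp [h2 a b]
  have := enum
  replace this := allB_iff.1 this (m 0)
  simp only [h1, h2, Bool.false_or] at this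
  replace this := allB_iff.1 this (m 1)
  simp only [h1, h2, Bool.false_or] at this
  replace this := allB_iff.1 this (m 2)
  simp only [h1, h2, Bool.false_or] at this
  replace this := allB_iff.1 this (m 3)
  simp only [h1, h2, Bool.false_or] at this
  replace this := allB_iff.1 this (m 4)
  simp only [h1, h2, Bool.false_or] at this
  replace this := allB_iff.1 this (m 5)
  simp only [h1, h2, Bool.false_or] at this
  replace this := allB_iff.1 this (m 6)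
  simp only [h1, h2, Bool.false_or] at this
  replace this := allB_iff.1 this (m 7)
  simp only [h1, h2, Bool.false_or] at this
  have e : vec (m 0) (m 1) (m 2) (m 3) (m 4) (m 5) (m 6) (m 7) = m := by
    funext i
    fin_cases i <;> rfl
  simpa [e, Rb_iff] using this

def T (k : ℕ) (g : Fin 8 → Fin 8) : Prop :=
  ∀ a b : Fin 8, a.1 / k = b.1 / k ↔ (g a).1 / k = (g b).1 / k

theorem T.subgroup_aux {k : ℕ} {g : Equiv.Perm (Fin 8)} (hg : T k g) : T k ⇑(g⁻¹) := fun a b => by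
  rw [hg (g⁻¹ a) (g⁻¹ b)]; simp

def P0 : Subgroup (Equiv.Perm (Fin 8)) where
  carrier := {g | T 2 g ∧ T 4 g}
  one_mem' := ⟨fun _ _ => Iff.rfl, fun _ _ => Iff.rfl⟩
  mul_mem' := fun {g h} hg hh =>
    ⟨fun a b => (hh.1 a b).trans (hg.1 _ _), fun a b => (hh.2 a b).trans (hg.2 _ _)⟩
  inv_mem' := fun {g} hg => ⟨hg.1.subgroup_aux, hg.2.subgroup_aux⟩

theorem P0_pgroup : IsPGroup 2 P0 := by
  intro g
  have h1 : ∀ a, ((g.1 * g.1) a).1 / 4 = a.1 / 4 := fun a => by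
    have := g.2.2 a (g.1 a)
    have := a.2
    have := (g.1 a).2
    have := (g.1 (g.1 a)).2
    simp only [Equiv.Perm.mul_apply]
    omega
  have h2 : ∀ a, ((g.1 * g.1 * (g.1 * g.1)) a).1 / 2 = a.1 / 2 := fun a => by
    have := (g * g).2.1 a ((g.1 * g.1) a)
    have := h1 a
    have := h1 ((g.1 * g.1) a)
    simp only [Equiv.Perm.mul_apply, Subgroup.coe_mul] at *
    omega
  refine ⟨3, Subtype.ext (Equiv.ext fun a => Fin.ext ?_)⟩
  set u := g.1 * g.1 * (g.1 * g.1) with hu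
  have : (g ^ 2 ^ 3).1 = u * u := by simp [hu, pow_succ, mul_assoc]
  rw [this]
  have e : a.1 = (u a).1 ↔ (u a).1 = (u (u a)).1 := by
    rw [← Fin.ext_iff, ← Fin.ext_iff, u.injective.eq_iff]
  have := h2 a
  have := h2 (u a)
  simp only [Equiv.Perm.mul_apply, OneMemClass.coe_one, Equiv.Perm.one_apply]
  omega

theorem mem_P0 {g : Equiv.Perm (Fin 8)} (h : R m0 g) : g ∈ P0 := by
  have hm : ∀ a b : Fin 8, a.1 / 2 = b.1 / 2 ↔ (a = b ∨ a = m0 b) := by decide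
  have h2 : T 2 g := fun a b => by rw [hm, hm, ← h.1, g.injective.eq_iff, g.injective.eq_iff]
  refine ⟨h2, fun a b => ?_⟩
  rcases h.2 with e | e
  · have := (hm _ _).2 (e a)
    have := (hm _ _).2 (e b)
    omega
  · have e1 : ∀ a, (g a).1 / 2 ≠ a.1 / 2 := fun a => by rw [Ne, hm, not_or]; exact (e a).1
    have f1 := e1 a
    have f2 := e1 b
    have f3 := h2 a b
    have f4 := h2 (g a) b
    have f5 := h2 a (g b)
    rw [(e _).2] at f4 f5
    have := a.2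
    have := b.2
    have := (g a).2
    have := (g b).2
    omega

theorem key (x : Equiv.Perm (Fin 8)) : ∃ g : Equiv.Perm (Fin 8), g ≠ 1 ∧ g ∈ P0 ∧ x⁻¹ * g * x ∈ P0 := by
  have hm : ∀ a b, m0 a = b ↔ m0 b = a := by decide
  have hm' : ∀ a, m0 a ≠ a := by decide
  obtain ⟨g, hg, h⟩ := exists_cand (fun a => x (m0 (x⁻¹ a)))
    (fun a h => hm' (x⁻¹ a) (by rw [Equiv.Perm.eq_inv_iff_eq]; exact h))
    (fun a b => by rw [← Equiv.Perm.eq_inv_iff_eq, hm, Equiv.Perm.eq_inv_iff_eq])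
  have := List.all_eq_true.1 cands_ok g hg
  simp only [Bool.and_eq_true, Rb_iff, allB_iff, beq_iff_eq, Bool.not_eq_true', ← Bool.not_eq_true,
    not_forall] at this
  obtain ⟨⟨h1, h2⟩, a, ha⟩ := this
  obtain ⟨g, rfl⟩ : ∃ g' : Equiv.Perm (Fin 8), ⇑g' = g := ⟨Function.Involutive.toPerm g h2, rfl⟩
  refine ⟨g, fun h => ha (Equiv.congr_fun h a), mem_P0 h1, mem_P0 ?_⟩
  obtain ⟨e1, e2⟩ := h
  refine ⟨fun a => ?_, e2.imp (fun e a => ?_) fun e a => ?_⟩
  · have := e1 (x a)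
    simp only [Equiv.Perm.coe_inv, Equiv.symm_apply_apply] at this
    simp [this]
  · have := e (x a)
    simpa [Equiv.symm_apply_eq] using this
  · have := e (x a)
    simpa [Equiv.symm_apply_eq] using this

/-- In the symmetric group on 8 letters any two Sylow 2-subgroups have non-trivial intersection: for a Sylow 2-subgroup H and every element x, H ∩ xHx⁻¹ ≠ 1. -/
theorem result (H : Sylow 2 (Equiv.Perm (Fin 8))) (x : Equiv.Perm (Fin 8)) :
    (H : Subgroup (Equiv.Perm (Fin 8))) ⊓ (H : Subgroup (Equiv.Perm (Fin 8))).map (MulAut.conj x).toMonoidHom ≠ ⊥ := by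
  obtain ⟨Q, hQ⟩ := P0_pgroup.exists_le_sylow
  obtain ⟨y, rfl⟩ := MulAction.exists_smul_eq (Equiv.Perm (Fin 8)) Q H
  obtain ⟨g, hg1, hg2, hg3⟩ := key (y⁻¹ * x * y)
  have hmem : ∀ u ∈ P0, y * u * y⁻¹ ∈ ((y • Q : Sylow 2 _) : Subgroup (Equiv.Perm (Fin 8))) :=
    fun u hu => ⟨u, hQ hu, rfl⟩
  intro h
  have : y * g * y⁻¹ ∈ (⊥ : Subgroup (Equiv.Perm (Fin 8))) :=
    h ▸ ⟨hmem g hg2, _, hmem _ hg3, by simp [mul_assoc]⟩
  exact hg1 (by simpa using this)

end Cfsg.Agent.S5763
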