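import Cfsg.Statements.S5767
import Cfsg.Agent.H6.PW11

set_option autoImplicit false
open Cfsg

namespace Cfsg.Agent.S5767

/-- Maximality of product-action wreath products. Let m ≥ 5 and k ≥ 2 and let W be the wreath product S_m ≀ S_k acting on the m^k functions f : {1..k} → {1..m} by (f ↦ (i ↦ τ_i(f(π⁻¹ i)))) for π ∈ S_k and τ_1, …, τ_k ∈ S_m. If W contains an odd permutation of these m^k points, then W is a maximal subgroup of the symmetric group on them. Unless k = 2 and m ≡ 2 (mod 4) (in which case the even permutations in W form the base group S_m × S_m, which is imprimitive), the even permutations in W form a maximal subgroup of the alternating group on these points. (The known proof uses the classification of the finite simple groups.) -/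
theorem result (m k : ℕ) (hm : 5 ≤ m) (hk : 2 ≤ k) :
    (¬ (k = 2 ∧ m % 4 = 2) → ∃ M : Subgroup ↥(alternatingGroup (Fin k → Fin m)), IsCoatom M ∧ ∀ σ : ↥(alternatingGroup (Fin k → Fin m)), σ ∈ M ↔ ∃ (π : Equiv.Perm (Fin k)) (τ : Fin k → Equiv.Perm (Fin m)), ∀ (f : Fin k → Fin m) (i : Fin k), (σ : Equiv.Perm (Fin k → Fin m)) f i = τ i (f (π.symm i))) ∧
    ((∃ σ : Equiv.Perm (Fin k → Fin m), Equiv.Perm.sign σ = -1 ∧ ∃ (π : Equiv.Perm (Fin k)) (τ : Fin k → Equiv.Perm (Fin m)), ∀ (f : Fin k → Fin m) (i : Fin k), σ f i = τ i (f (π.symm i))) →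
      ∃ M : Subgroup (Equiv.Perm (Fin k → Fin m)), IsCoatom M ∧ ∀ σ, σ ∈ M ↔ ∃ (π : Equiv.Perm (Fin k)) (τ : Fin k → Equiv.Perm (Fin m)), ∀ (f : Fin k → Fin m) (i : Fin k), σ f i = τ i (f (π.symm i))) := by
  have : Nontrivial (Fin k) := Fin.nontrivial_iff_two_le.2 hk
  have h5 : 5 ≤ Fintype.card (Fin m) := by simpa using hm
  refine ⟨fun h => ⟨_, H6.PW.coatom_alt h5 ?_, fun _ => Iff.rfl⟩,
    fun ⟨σ, h1, h2⟩ => ⟨_, H6.PW.coatom_sym h5 h1 h2, fun _ => Iff.rfl⟩⟩
  rcases Nat.even_or_odd m with ⟨a, ha⟩ | hodd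
  · left
    obtain ⟨l, rfl⟩ : ∃ l, k = l + 2 := ⟨k - 2, by omega⟩
    have e : m ^ (l + 2) - m ^ (l + 1) = 2 * (a * m ^ l * (m - 1)) := by
      obtain ⟨n, rfl⟩ : ∃ n, m = n + 1 := ⟨m - 1, by omega⟩
      rw [Nat.add_sub_cancel, Nat.sub_eq_iff_eq_add (Nat.pow_le_pow_right (by omega) (by omega))]
      have : 2 * (a * (n + 1) ^ l * n) = (n + 1) * (n + 1) ^ l * n := by rw [ha]; ring
      rw [this]; ring
    refine H6.PW.W_le_alt ?_ ?_
    · simp only [Fintype.card_fin]
      exact (Nat.even_pow' (by omega)).2 ⟨a, ha⟩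
    · simp only [Fintype.card_fin]
      rw [show l + 2 - 1 = l + 1 by omega, e, Nat.mul_div_cancel_left _ two_pos]
      refine Even.mul_right ?_ _
      rcases Nat.eq_zero_or_pos l with rfl | hl
      · refine Even.mul_right ?_ _
        rw [Nat.even_iff]; omega
      · exact Even.mul_left ((Nat.even_pow' (by omega)).2 ⟨a, ha⟩) _
  · right; simpa using hodd

end Cfsg.Agent.S5767
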