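import Cfsg.Statements.S5769
import Cfsg.Agent.H4.O65

set_option autoImplicit false
open Cfsg

namespace Cfsg.Agent.S5769

/-- The Chevalley group of type E₇ over the field with two elements (generated by its root elements in the adjoint representation) has no subgroup isomorphic to any of PSL₂(64), PSp₄(8), PSL₄(8), PSU₄(8) or PSp₆(8). Here F₈ and F₆₄ denote fields with 8 and 64 elements. -/
theorem result {F₈ F₆₄ : Type*} [Field F₈] [Fintype F₈] (h8 : Fintype.card F₈ = 8) [Field F₆₄] [Fintype F₆₄] (h64 : Fintype.card F₆₄ = 64)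
    (H : Subgroup ↥(Cfsg.Lie.chevE7.group (ZMod 2))) :
    IsEmpty (↥H ≃* Matrix.ProjectiveSpecialLinearGroup (Fin 2) F₆₄) ∧ IsEmpty (↥H ≃* Cfsg.PSp 2 F₈) ∧
    IsEmpty (↥H ≃* Matrix.ProjectiveSpecialLinearGroup (Fin 4) F₈) ∧ IsEmpty (↥H ≃* Cfsg.PSU 4 F₆₄ 8) ∧ IsEmpty (↥H ≃* Cfsg.PSp 3 F₈) := by
  haveI := H4.GF2.charP_two (F := F₆₄) (k := 6) h64
  haveI := H4.GF2.charP_two (F := F₈) (k := 3) h8
  obtain ⟨γ, hγ⟩ := H4.GF2.root64 h64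
  obtain ⟨δ, hδ⟩ := H4.GF2.root8 h8
  have hm := H4.GF2.enc_m64 hγ
  have hn := H4.GF2.enc_m8 hδ
  exact ⟨H4.GF2.no_sl H hm H4.GF2.cSL2_ok (by rw [h64]; norm_num) (by rw [h64]; norm_num),
    H4.GF2.no_sp H hn H4.GF2.cSp4_ok H4.GF2.sp4_ok,
    H4.GF2.no_sl H hn H4.GF2.cSL4_ok (by rw [h8]; norm_num) (by rw [h8]; norm_num),
    H4.GF2.no_su H h64, H4.GF2.no_sp H hn H4.GF2.cSp6_ok H4.GF2.sp6_ok⟩

end Cfsg.Agent.S5769
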