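import Cfsg.Statements.S5885
import Cfsg.Agent.H8.Basic

set_option autoImplicit false
open Cfsg

namespace Cfsg.Agent.S5885

open scoped Pointwise

/-- Let n be an odd positive integer such that every primitive permutation group of degree n contains the alternating group (so the symmetric and alternating groups are the only primitive groups of degree n). Let G be a finite group, M a maximal subgroup of G of index n, and H a maximal subgroup of M. Then H is a second maximal subgroup of G: H is maximal in every maximal subgroup K of G containing H. -/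
theorem result {G : Type*} [Group G]
    [Finite G] (n : ℕ) (hodd : Odd n)
    (hA : ∀ P : Subgroup (Equiv.Perm (Fin n)), MulAction.IsPreprimitive P (Fin n) → alternatingGroup (Fin n) ≤ P)
    (M : Subgroup G) (hM : IsCoatom M) (hn : M.index = n) (H : Subgroup G) (hHM : H ≤ M)
    (hmax : IsCoatom (H.subgroupOf M)) (K : Subgroup G) (hK : IsCoatom K) (hHK : H ≤ K) :
    IsCoatom (H.subgroupOf K) := by
  classical
  letI : Fintype (G ⧸ M) := Fintype.ofFinite _
  have hcard : Nat.card (G ⧸ M) = n := hn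
  have hnt : Nontrivial (G ⧸ M) := by
    rw [← Finite.one_lt_card_iff_nontrivial, hcard, ← hn]
    exact Subgroup.one_lt_index_of_ne_top hM.1
  set a : G ⧸ M := ((1 : G) : G ⧸ M) with ha
  have hstab : MulAction.stabilizer G a = M := MulAction.stabilizer_quotient M
  have hprim : MulAction.IsPreprimitive G (G ⧸ M) := by
    rw [← MulAction.isCoatom_stabilizer_iff_preprimitive G a, hstab]
    exact hM
  -- three-cycles are induced by elements of G
  have h3 : ∀ x y z : G ⧸ M, x ≠ y → x ≠ z → y ≠ z →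
      ∃ g : G, g • x = y ∧ g • y = z ∧ ∀ w, w ≠ x → w ≠ y → w ≠ z → g • w = w := by
    intro x y z hxy hxz hyz
    let e : (G ⧸ M) ≃ Fin n := Finite.equivFinOfCardEq hcard
    let φ : G →* Equiv.Perm (Fin n) :=
      { toFun := fun g => e.permCongr (MulAction.toPerm g)
        map_one' := by ext i; simp
        map_mul' := by intro g h; ext i; simp [mul_smul] }
    let ψ : G → φ.range := fun g => ⟨φ g, g, rfl⟩
    let f : (G ⧸ M) →ₑ[ψ] Fin n :=
      { toFun := e
        map_smul' := by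
          intro g w
          change e (g • w) = φ g (e w)
          simp [φ] }
    have hP : MulAction.IsPreprimitive φ.range (Fin n) :=
      MulAction.IsPreprimitive.of_surjective (f := f) e.surjective
    have ht : Equiv.swap (e x) (e z) * Equiv.swap (e x) (e y) ∈ alternatingGroup (Fin n) := by
      rw [Equiv.Perm.mem_alternatingGroup, Equiv.Perm.sign_mul,
        Equiv.Perm.sign_swap (e.injective.ne hxz), Equiv.Perm.sign_swap (e.injective.ne hxy)]
      simp
    obtain ⟨g, hg⟩ := hA _ hP ht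
    have hgw : ∀ w, e (g • w) = (Equiv.swap (e x) (e z) * Equiv.swap (e x) (e y)) (e w) := by
      intro w
      rw [← hg]
      simp [φ]
    refine ⟨g, e.injective ?_, e.injective ?_, fun w hwx hwy hwz => e.injective ?_⟩
    · rw [hgw, Equiv.Perm.mul_apply, Equiv.swap_apply_left,
        Equiv.swap_apply_of_ne_of_ne (e.injective.ne hxy.symm) (e.injective.ne hyz)]
    · rw [hgw, Equiv.Perm.mul_apply, Equiv.swap_apply_right, Equiv.swap_apply_left]
    · rw [hgw, Equiv.Perm.mul_apply,
        Equiv.swap_apply_of_ne_of_ne (e.injective.ne hwx) (e.injective.ne hwy),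
        Equiv.swap_apply_of_ne_of_ne (e.injective.ne hwx) (e.injective.ne hwz)]
  by_cases hKM : K = M
  · subst hKM
    exact hmax
  rw [H8.isCoatom_subgroupOf_iff hHM] at hmax
  obtain ⟨hHne, hmax⟩ := hmax
  have hHeq : K ⊓ M = H := by
    rcases hmax (K ⊓ M) (le_inf hHK hHM) inf_le_right with h | h
    · exact h
    · exfalso
      have hle : M ≤ K := h ▸ inf_le_left
      exact hKM ((hM.le_iff_eq hK.1).mp hle)
  rw [H8.isCoatom_subgroupOf_iff hHK]
  refine ⟨?_, ?_⟩
  · intro h
    have hle : K ≤ M := h ▸ hHM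
    exact hKM ((hK.le_iff_eq hM.1).mp hle).symm
  intro L hHL hLK
  by_contra hcon
  push Not at hcon
  obtain ⟨hLH, hLK'⟩ := hcon
  have hmemM : ∀ g : G, g ∈ M ↔ g • a = a := by
    intro g
    rw [← MulAction.mem_stabilizer_iff, hstab]
  -- the block B
  let B : Finset (G ⧸ M) := Finset.univ.filter (fun w => ∃ l ∈ L, l • a = w)
  have hB : ∀ w, w ∈ B ↔ ∃ l ∈ L, l • a = w := by intro w; simp [B]
  have haB : a ∈ B := (hB a).2 ⟨1, L.one_mem, one_smul _ _⟩
  have hLB : ∀ l ∈ L, ∀ w ∈ B, l • w ∈ B := by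
    intro l hl w hw
    obtain ⟨l', hl', rfl⟩ := (hB w).1 hw
    exact (hB _).2 ⟨l * l', L.mul_mem hl hl', mul_smul _ _ _⟩
  have hblock : ∀ k ∈ K, ∀ w ∈ B, k • w ∈ B → k ∈ L := by
    intro k hk w hw hkw
    obtain ⟨l, hl, rfl⟩ := (hB w).1 hw
    obtain ⟨l', hl', h⟩ := (hB _).1 hkw
    have h1 : l'⁻¹ * k * l ∈ K ⊓ M := by
      refine Subgroup.mem_inf.mpr ⟨K.mul_mem (K.mul_mem (K.inv_mem (hLK hl')) hk) (hLK hl), ?_⟩
      rw [hmemM, mul_smul, mul_smul, ← h, inv_smul_smul]
    rw [hHeq] at h1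
    have h2 := L.mul_mem (L.mul_mem hl' (hHL h1)) (L.inv_mem hl)
    simpa [mul_assoc] using h2
  obtain ⟨l₀, hl₀L, hl₀H⟩ : ∃ l ∈ L, l ∉ H := by
    by_contra hc
    push Not at hc
    exact hLH (le_antisymm hc hHL)
  obtain ⟨k₀, hk₀K, hk₀L⟩ : ∃ k ∈ K, k ∉ L := by
    by_contra hc
    push Not at hc
    exact hLK' (le_antisymm hLK hc)
  set b := l₀ • a with hb
  have hbB : b ∈ B := (hB b).2 ⟨l₀, hl₀L, rfl⟩
  have hba : b ≠ a := by
    intro h
    apply hl₀H
    rw [← hHeq]
    exact ⟨hLK hl₀L, (hmemM l₀).2 h⟩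
  let B' : Finset (G ⧸ M) := B.image (fun w => k₀ • w)
  have hB'card : B'.card = B.card := Finset.card_image_of_injective _ (MulAction.injective k₀)
  have hdisj : Disjoint B B' := by
    rw [Finset.disjoint_right]
    intro w hw hwB
    obtain ⟨w', hw', rfl⟩ := Finset.mem_image.mp hw
    exact hk₀L (hblock k₀ hk₀K w' hw' hwB)
  obtain ⟨c, hc⟩ : ∃ c, c ∉ B ∪ B' := by
    by_contra hc
    push Not at hc
    have h1 : B ∪ B' = Finset.univ := Finset.eq_univ_of_forall hc
    have h2 := congrArg Finset.card h1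
    rw [Finset.card_union_of_disjoint hdisj, hB'card, Finset.card_univ, ← Nat.card_eq_fintype_card,
      hcard] at h2
    obtain ⟨m, hm⟩ := hodd
    omega
  rw [Finset.mem_union, not_or] at hc
  obtain ⟨hcB, hcB'⟩ := hc
  have h1B' : k₀ • a ∈ B' := Finset.mem_image_of_mem _ haB
  have h2B' : k₀ • b ∈ B' := Finset.mem_image_of_mem _ hbB
  have h1B : k₀ • a ∉ B := Finset.disjoint_right.mp hdisj h1B'
  have h2B : k₀ • b ∉ B := Finset.disjoint_right.mp hdisj h2B'
  -- the stabiliser of B in M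
  let S : Subgroup G := MulAction.stabilizer G B ⊓ M
  have hHS : H ≤ S := by
    intro h hh
    refine Subgroup.mem_inf.mpr ⟨?_, hHM hh⟩
    rw [MulAction.mem_stabilizer_finset_iff_smul_finset_subset]
    intro w hw
    obtain ⟨w', hw', rfl⟩ := Finset.mem_smul_finset.mp hw
    exact hLB h (hHL hh) w' hw'
  rcases hmax S hHS inf_le_right with hS | hS
  · obtain ⟨g, hg1, hg2, hg3⟩ := h3 (k₀ • a) (k₀ • b) c
      ((MulAction.injective k₀).ne hba.symm) (fun h => hcB' (h ▸ h1B')) (fun h => hcB' (h ▸ h2B'))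
    have hfix : ∀ w ∈ B, g • w = w := fun w hw =>
      hg3 w (fun h => h1B (h ▸ hw)) (fun h => h2B (h ▸ hw)) (fun h => hcB (h ▸ hw))
    have hgS : g ∈ S := by
      refine Subgroup.mem_inf.mpr ⟨?_, (hmemM g).2 (hfix a haB)⟩
      rw [MulAction.mem_stabilizer_finset_iff_smul_finset_subset]
      intro w hw
      obtain ⟨w', hw', rfl⟩ := Finset.mem_smul_finset.mp hw
      rw [hfix w' hw']
      exact hw'
    rw [hS] at hgS
    have hgK : k₀⁻¹ * g * k₀ ∈ K := K.mul_mem (K.mul_mem (K.inv_mem hk₀K) (hHK hgS)) hk₀K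
    have hgL : k₀⁻¹ * g * k₀ ∈ L := by
      refine hblock _ hgK a haB ?_
      rw [mul_smul, mul_smul, hg1, inv_smul_smul]
      exact hbB
    have h4 := hLB _ hgL b hbB
    rw [mul_smul, mul_smul, hg2] at h4
    apply hcB'
    exact Finset.mem_image.mpr ⟨_, h4, smul_inv_smul _ _⟩
  · obtain ⟨g, hg1, hg2, hg3⟩ := h3 b (k₀ • a) c
      (fun h => h1B (h ▸ hbB)) (fun h => hcB (h ▸ hbB)) (fun h => hcB' (h ▸ h1B'))
    have hgM : g ∈ M := (hmemM g).2
      (hg3 a hba.symm (fun h => h1B (h ▸ haB)) (fun h => hcB (h ▸ haB)))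
    rw [← hS] at hgM
    have h5 : g • B = B := hgM.1
    apply h1B
    rw [← hg1, ← h5]
    exact Finset.smul_mem_smul_finset hbB

end Cfsg.Agent.S5885
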