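import Cfsg.Statements.S5887
import Cfsg.Agent.H7.AschComm

set_option autoImplicit false
open Cfsg

namespace Cfsg.Agent.S5887

open Matrix in
theorem eq_zero_of_mulVec {F : Type*} [Field F] {n r : ℕ} {K : Subalgebra F (Matrix (Fin n) (Fin n) F)}
    (hK : Cfsg.Geo.IsFieldSubalgebra r K) {k : Matrix (Fin n) (Fin n) F} (hk : k ∈ K)
    {v : Fin n → F} (hv : v ≠ 0) (h : k *ᵥ v = 0) : k = 0 := by
  by_contra h0
  obtain ⟨y, hy, e⟩ := hK.inv k hk h0
  apply hv
  rw [← Matrix.one_mulVec v, ← e, hK.comm k hk y hy, ← Matrix.mulVec_mulVec, h, Matrix.mulVec_zero]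

open Matrix in
theorem exists_sl {F : Type*} [Field F] [Fintype F] {n r s : ℕ}
    {K' K : Subalgebra F (Matrix (Fin n) (Fin n) F)} (hK' : Cfsg.Geo.IsFieldSubalgebra s K')
    (hK : Cfsg.Geo.IsFieldSubalgebra r K) (hle : K' ≤ K) {k : Matrix (Fin n) (Fin n) F} (hk : k ∈ K)
    (hk' : k ∉ K') (hn : 2 * s < n) :
    ∃ g ∈ Cfsg.Geo.specialLinear (Fin n) F, g ∈ Cfsg.Geo.subalgebraNormalizer K' ∧
      g ∉ Cfsg.Geo.subalgebraNormalizer K := by
  have : Nonempty (Fin n) := ⟨⟨0, by omega⟩⟩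
  let _ : Field K' := (Cfsg.Agent.H7.isField_of_subalgebra hK'.comm hK'.inv).toField
  let _ : Module K' (Fin n → F) :=
    { smul := fun c v => (c : Matrix (Fin n) (Fin n) F) *ᵥ v
      one_smul := fun v => Matrix.one_mulVec v
      mul_smul := fun a b v => (Matrix.mulVec_mulVec v _ _).symm
      smul_zero := fun a => Matrix.mulVec_zero _
      smul_add := fun a v w => Matrix.mulVec_add _ _ _
      add_smul := fun a b v => Matrix.add_mulVec _ _ _
      zero_smul := fun v => Matrix.zero_mulVec _ }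
  have hsm : ∀ (c : K') (v : Fin n → F), c • v = (c : Matrix (Fin n) (Fin n) F) *ᵥ v := fun _ _ => rfl
  have : IsScalarTower F K' (Fin n → F) := ⟨fun a c v => Matrix.smul_mulVec a _ _⟩
  obtain ⟨w, hw⟩ := exists_ne (0 : Fin n → F)
  obtain ⟨β, hβ⟩ : ∃ β : Module.Dual K' (Fin n → F), β w ≠ 0 := by
    by_contra h
    push Not at h
    exact hw ((Module.forall_dual_apply_eq_zero_iff K' w).mp h)
  obtain ⟨x, hx, h1, h2⟩ : ∃ x : Fin n → F, x ≠ 0 ∧ β x = 0 ∧ β (k *ᵥ x) = 0 := by
    have hc : Nat.card (K' × K') < Nat.card (Fin n → F) := by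
      rw [Nat.card_prod, Module.natCard_eq_pow_finrank (K := F) (V := K'), hK'.finrank_eq, ← pow_add,
        Nat.card_fun, Nat.card_fin]
      exact Nat.pow_lt_pow_right Finite.one_lt_card (by omega)
    have hni : ¬ Function.Injective (fun v : Fin n → F => (β v, β (k *ᵥ v))) := fun h =>
      absurd (Nat.card_le_card_of_injective _ h) (not_le.mpr hc)
    obtain ⟨a, b, hab, hne⟩ := Function.not_injective_iff.mp hni
    simp only [Prod.mk.injEq] at hab
    exact ⟨a - b, sub_ne_zero.mpr hne, by rw [map_sub, hab.1, sub_self],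
      by rw [Matrix.mulVec_sub, map_sub, hab.2, sub_self]⟩
  let A : Matrix (Fin n) (Fin n) F := LinearMap.toMatrix' ((β.smulRight x).restrictScalars F)
  have hA : ∀ v, A *ᵥ v = β v • x := fun v => by
    simp only [A, LinearMap.toMatrix'_mulVec]; rfl
  have hext : ∀ B C : Matrix (Fin n) (Fin n) F, (∀ v, B *ᵥ v = C *ᵥ v) → B = C := fun B C h =>
    Matrix.toLin'.injective (LinearMap.ext h)
  have hAA : A * A = 0 := hext _ _ (fun v => by
    rw [← Matrix.mulVec_mulVec, hA, hA, map_smul, h1, smul_zero, zero_smul, Matrix.zero_mulVec])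
  have hAc : ∀ c ∈ K', A * c = c * A := fun c hc => hext _ _ (fun v => by
    rw [← Matrix.mulVec_mulVec, ← Matrix.mulVec_mulVec, hA, hA, ← hsm ⟨c, hc⟩, ← hsm ⟨c, hc⟩, map_smul,
      smul_eq_mul, mul_smul])
  let g : GL (Fin n) F := ⟨1 + A, 1 - A, by noncomm_ring [hAA], by noncomm_ring [hAA]⟩
  have hg : (g : Matrix (Fin n) (Fin n) F) = 1 + A := rfl
  have hg' : ((g⁻¹ : GL (Fin n) F) : Matrix (Fin n) (Fin n) F) = 1 - A := rfl
  refine ⟨g, ?_, fun c => ?_, fun hN => hk' ?_⟩
  · obtain ⟨p, hp⟩ := CharP.exists F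
    have : Fact p.Prime := ⟨CharP.char_is_prime F p⟩
    have hpow : ∀ m : ℕ, (1 + A) ^ m = 1 + (m : F) • A := by
      intro m
      induction m with
      | zero => simp
      | succ m ih =>
        rw [pow_succ, ih, add_mul, mul_add, mul_add, smul_mul_assoc, smul_mul_assoc, hAA]
        simp [add_smul, add_assoc, add_comm]
    have h3 : (1 + A).det ^ p = 1 := by
      rw [← Matrix.det_pow, hpow, CharP.cast_eq_zero, zero_smul, add_zero, Matrix.det_one]
    have h4 : ((1 + A).det - 1) ^ p = 0 := by rw [sub_pow_char, h3, one_pow, sub_self]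
    exact Units.ext (sub_eq_zero.mp (pow_eq_zero_iff (Fact.out : p.Prime).ne_zero |>.mp h4))
  · have key : ∀ c ∈ K', ∀ h : GL (Fin n) F, (h : Matrix (Fin n) (Fin n) F) * c = c * h →
        (h : Matrix (Fin n) (Fin n) F) * c * ((h⁻¹ : GL (Fin n) F) : Matrix (Fin n) (Fin n) F) = c := by
      intro c _ h e
      rw [e, mul_assoc, Units.mul_inv, mul_one]
    constructor
    · intro hc
      rwa [key c hc g (by rw [hg, add_mul, mul_add, hAc c hc, one_mul, mul_one])]
    · intro hc
      have hcomm : ∀ c ∈ K', (1 - A) * c = c * (1 - A) := fun c hc => by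
        rw [sub_mul, mul_sub, hAc _ hc, one_mul, mul_one]
      have := key _ hc g⁻¹ (hcomm _ hc)
      rw [← this] at hc
      simpa [-Matrix.coe_units_inv, mul_assoc] using hc
  · have h3 := (hN k).mp hk
    have h4 : (g : Matrix (Fin n) (Fin n) F) * k * ((g⁻¹ : GL (Fin n) F) : Matrix (Fin n) (Fin n) F) = k := by
      refine sub_eq_zero.mp (eq_zero_of_mulVec hK (K.sub_mem h3 hk) hx ?_)
      rw [Matrix.sub_mulVec, ← Matrix.mulVec_mulVec, ← Matrix.mulVec_mulVec, hg, hg',
        Matrix.sub_mulVec, hA, h1, zero_smul, sub_zero, Matrix.one_mulVec, Matrix.add_mulVec, hA, h2,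
        zero_smul, add_zero, Matrix.one_mulVec, sub_self]
    have h5 : A * k = k * A := by
      have : (g : Matrix (Fin n) (Fin n) F) * k = k * g := by
        conv_rhs => rw [← h4]
        rw [mul_assoc, Units.inv_mul, mul_one]
      rw [hg, add_mul, mul_add, one_mul, mul_one] at this
      exact add_left_cancel this
    have h6 : ((β (k *ᵥ w) : Matrix (Fin n) (Fin n) F) - k * (β w : Matrix (Fin n) (Fin n) F)) *ᵥ x = 0 := by
      rw [Matrix.sub_mulVec, ← Matrix.mulVec_mulVec, ← hsm, ← hsm, ← hA, ← hA, Matrix.mulVec_mulVec,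
        Matrix.mulVec_mulVec, h5, sub_self]
    have h7 := sub_eq_zero.mp (eq_zero_of_mulVec hK
      (K.sub_mem (hle (β (k *ᵥ w)).2) (K.mul_mem hk (hle (β w).2))) hx h6)
    obtain ⟨y, hy, e⟩ := hK'.inv _ (β w).2 (fun h => hβ (Subtype.ext h))
    have := K'.mul_mem (β (k *ᵥ w)).2 hy
    rwa [h7, mul_assoc, e, mul_one] at this

/-- Let F be a finite field, n a positive integer and r a composite number (r > 1, not prime) that divides n with r < n. Let K be a subalgebra of the algebra of n × n matrices over F which is a field of degree r over F (commutative, every non-zero element invertible, of dimension r over F). Then the normaliser N of K in GL_n(F) (a group of type ΓL_{n/r}(F_{q^r})) is not a maximal subgroup of GL_n(F), and N ∩ SL_n(F) is not a maximal subgroup of SL_n(F): both lie properly inside the normaliser of an intermediate subfield of prime degree over F. -/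
theorem result {F : Type*} [Field F]
    [Fintype F] (n r : ℕ) (hr1 : 1 < r) (hrp : ¬ r.Prime) (hrn : r ∣ n) (hlt : r < n)
    (K : Subalgebra F (Matrix (Fin n) (Fin n) F)) (hK : Cfsg.Geo.IsFieldSubalgebra r K) :
    ¬ IsCoatom (Cfsg.Geo.subalgebraNormalizer K) ∧
      ¬ Cfsg.Geo.IsMaximalIn (Cfsg.Geo.specialLinear (Fin n) F)
        (Cfsg.Geo.subalgebraNormalizer K ⊓ Cfsg.Geo.specialLinear (Fin n) F) := by
  have : Nonempty (Fin n) := ⟨⟨0, by omega⟩⟩
  have hs := Nat.minFac_prime hr1.ne'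
  have hsr : r.minFac < r := (Nat.not_prime_iff_minFac_lt hr1).mp hrp
  have hK' := Cfsg.Agent.H7.isFieldSubalgebra_powFixAlg hK.comm hK.inv hs.pos
    (hK.finrank_eq ▸ Nat.minFac_dvd r)
  set K' := Cfsg.Agent.H7.powFixAlg K hK.comm r.minFac with hKdef
  have hle : K' ≤ K := fun x hx => hx.1
  have hex : ∀ {A B : Subalgebra F (Matrix (Fin n) (Fin n) F)},
      Module.finrank F A < Module.finrank F B → ∃ k ∈ B, k ∉ A := by
    intro A B h
    by_contra hcon
    push Not at hcon
    exact absurd (Submodule.finrank_mono (show B.toSubmodule ≤ A.toSubmodule from hcon)) (not_le.mpr h)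
  have hbot : Cfsg.Geo.IsFieldSubalgebra 1 (⊥ : Subalgebra F (Matrix (Fin n) (Fin n) F)) := by
    refine ⟨?_, ?_, Subalgebra.finrank_bot⟩
    · rintro _ ⟨a, rfl⟩ y _
      exact Algebra.commutes a y
    · rintro _ ⟨a, rfl⟩ h
      refine ⟨_, ⟨a⁻¹, rfl⟩, ?_⟩
      have ha : a ≠ 0 := by rintro rfl; exact h (map_zero _)
      rw [← map_mul, mul_inv_cancel₀ ha, map_one]
  have h2 : 2 * r.minFac ≤ r := by
    obtain ⟨c, hc⟩ := Nat.minFac_dvd r
    have : 2 ≤ c := by
      by_contra h
      have : c = 0 ∨ c = 1 := by omega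
      rcases this with rfl | rfl <;> omega
    nlinarith
  obtain ⟨k, hk, hk'⟩ := hex (A := K') (B := K) (by rw [hK.finrank_eq, hK'.finrank_eq]; exact hsr)
  obtain ⟨l, hl, hl'⟩ := hex (A := ⊥) (B := K') (by rw [hbot.finrank_eq, hK'.finrank_eq]; exact hs.one_lt)
  obtain ⟨g, hg1, hg2, hg3⟩ := exists_sl hK' hK hle hk hk' (by omega)
  obtain ⟨h, hh1, -, hh3⟩ := exists_sl hbot hK' bot_le hl hl' (by have := hs.two_le; omega)
  have hN : Cfsg.Geo.subalgebraNormalizer K ≤ Cfsg.Geo.subalgebraNormalizer K' := by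
    have key : ∀ g ∈ Cfsg.Geo.subalgebraNormalizer K, ∀ x ∈ K',
        (g : Matrix (Fin n) (Fin n) F) * x * ((g⁻¹ : GL (Fin n) F) : Matrix (Fin n) (Fin n) F) ∈ K' := by
      intro g hg x hx
      refine ⟨(hg x).mp hx.1, ?_⟩
      rw [Units.conj_pow, hx.2]
    intro g hg x
    refine ⟨key g hg x, fun hx => ?_⟩
    simpa [-Matrix.coe_units_inv, mul_assoc] using key _ (inv_mem hg) _ hx
  refine ⟨fun hc => ?_, fun hc => ?_⟩
  · have := hc.2 _ (lt_of_le_of_ne hN (fun e => hg3 (e ▸ hg2)))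
    exact hh3 (this ▸ Subgroup.mem_top h)
  · rcases hc.2 (Cfsg.Geo.subalgebraNormalizer K' ⊓ Cfsg.Geo.specialLinear (Fin n) F)
      (inf_le_inf_right _ hN) inf_le_right with e | e
    · exact hg3 (e.le ⟨hg2, hg1⟩).1
    · exact hh3 (e.ge hh1).1

end Cfsg.Agent.S5887
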