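import Cfsg.Statements.S5890
import Cfsg.Agent.H3.PglMax2

set_option autoImplicit false
open Cfsg

namespace Cfsg.Agent.S5890



/-- Let F be a finite field with q ≥ 4 elements, let L ≤ PGL₂(F) be the image of SL₂(F) (a copy of PSL₂(F), of index gcd(2, q − 1)), and let M be a maximal subgroup of PGL₂(F) that does not contain L. Suppose q ∉ {7, 9, 11} and that q is not a prime congruent to ±11 or ±19 modulo 40. Then M ∩ L is a maximal subgroup of L. (For the excluded q there are maximal subgroups of PGL₂(q) — dihedral groups of order 12 and 16 at q = 7, of order 20 and 16 at q = 9, of order 20 at q = 11, and S₄ at the excluded primes — whose intersection with L is not maximal in L.) -/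
theorem result {F : Type*} [Field F]
    [Fintype F] (h4 : 4 ≤ Fintype.card F) (h7 : Fintype.card F ≠ 7) (h9 : Fintype.card F ≠ 9) (h11 : Fintype.card F ≠ 11)
    (h40 : (Fintype.card F).Prime → Fintype.card F % 40 ∉ ({11, 19, 21, 29} : Finset ℕ))
    (M : Subgroup (Matrix.ProjGenLinGroup (Fin 2) F)) (hM : IsCoatom M)
    (hML : ¬ (Matrix.ProjGenLinGroup.mk.comp Matrix.SpecialLinearGroup.toGL).range ≤ M) :
    IsCoatom ((M ⊓ (Matrix.ProjGenLinGroup.mk.comp Matrix.SpecialLinearGroup.toGL).range).subgroupOf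
      (Matrix.ProjGenLinGroup.mk.comp Matrix.SpecialLinearGroup.toGL).range) := by
  open Cfsg.Agent.H3 Cfsg.Agent.H8 in
  rw [← Nat.card_eq_fintype_card] at *
  suffices h : MaxIn (M ⊓ Lsub F) (Lsub F) from (isCoatom_subgroupOf_iff h.le).mpr ⟨h.ne, h.max⟩
  by_cases h2 : (2 : F) = 0
  · rw [Lsub_eq_top h2, inf_top_eq]
    exact maxIn_top.mpr hM
  have hodd := Nat.odd_iff.mp (odd_card_iff.mpr h2)
  rcases coatom_cases h2 (by omega) hM hML with ⟨x, rfl⟩ | ⟨h5, x, y, hxy, rfl⟩ | ⟨t, a, b, ht, rfl⟩ |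
    ⟨hp, hs, e⟩ | ⟨k, g, r, hr, hro, hc, rfl⟩
  · exact maxIn_borel x
  · exact maxIn_split h2 (by omega) hxy
  · exact maxIn_irr h2 (by omega) ht
  · have h1 := h40 hp
    simp only [Finset.mem_insert, Finset.mem_singleton] at h1
    have h3 := mt isSquare_two_iff_mod.mpr hs
    exact maxIn_A4 hp (by omega) hs (by omega) inf_le_right (A4_of_S4_inf hs e).2
  · have := (maxIn_PS (three_le_card (two_ne_zero_subfield h2 k)) hr hc (Or.inr hro)).conj g
    rwa [← PG_inf_Lsub (fun s hs => mem_of_sq_mem_of_odd h2 hro hc hs), cj_inf,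
      cj_normal (L := Lsub F)] at this

end Cfsg.Agent.S5890
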