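import Cfsg.Statements.S5893
import Cfsg.Agent.H3.PglMax2

set_option autoImplicit false
open Cfsg

namespace Cfsg.Agent.S5893



/-- Let F be a finite field of even order q ≥ 4 and let M be a maximal subgroup of PSL₂(F) (= SL₂(F) = PGL₂(F)). Then one of the following holds: |M| = q(q − 1) (the stabiliser of a point of the projective line, elementary abelian of order q extended by a cyclic group of order q − 1); M is dihedral of order 2(q − 1); M is dihedral of order 2(q + 1); or q = q₀^r for a prime r with q₀ ≠ 2 and M ≅ PSL₂(F₀) with |F₀| = q₀. -/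
theorem result {F : Type*} [Field F] [Fintype F]
    (heven : Even (Fintype.card F)) (h4 : 4 ≤ Fintype.card F) (M : Subgroup (Matrix.ProjectiveSpecialLinearGroup (Fin 2) F)) (hM : IsCoatom M) :
    Nat.card M = Fintype.card F * (Fintype.card F - 1) ∨
    Nonempty (M ≃* DihedralGroup (Fintype.card F - 1)) ∨
    Nonempty (M ≃* DihedralGroup (Fintype.card F + 1)) ∨
    (∃ (F₀ : Type) (_ : Field F₀) (_ : Fintype F₀) (r : ℕ), r.Prime ∧ Fintype.card F₀ ≠ 2 ∧
        Fintype.card F = Fintype.card F₀ ^ r ∧ Nonempty (M ≃* Matrix.ProjectiveSpecialLinearGroup (Fin 2) F₀)) := by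
  open Cfsg.Agent.H3 Cfsg.Agent.H8 in
  rw [← Nat.card_eq_fintype_card] at *
  have h2 : (2 : F) = 0 := by
    by_contra h
    exact (Nat.not_even_iff_odd.mpr (odd_card_iff.mpr h)) heven
  have : CharP F 2 := CharTwo.of_one_ne_zero_of_two_eq_zero one_ne_zero h2
  have e₀ := mapEquiv M
  have tr : ∀ {X : Type} [Group X], Nonempty (M.map Matrix.ProjectiveSpecialLinearGroup.toPGL ≃* X) →
      Nonempty (M ≃* X) := fun ⟨e⟩ => ⟨e₀.trans e⟩
  have hM' := maxIn_map_toPGL hM
  have hgeo : NotGeo (Lsub F) := notGeo_Lsub (by omega)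
  have hle : ∀ A : Subgroup (Matrix.ProjGenLinGroup (Fin 2) F), A ≤ Lsub F := fun A =>
    Lsub_eq_top h2 ▸ le_top
  rcases dickson2 2 (M.map Matrix.ProjectiveSpecialLinearGroup.toPGL) with ⟨x, hx⟩ | ⟨x, y, hxy, hx⟩ |
    ⟨t, a, b, ht, hx⟩ | h | ⟨k, g, hk, h⟩
  · left
    rw [Nat.card_congr e₀.toEquiv, hM'.eq_of_ne hx (hle _) (fun e => hgeo.1 x e.ge)]
    exact card_stabilizer_pt x
  · right; left
    apply tr
    rw [hM'.eq_of_ne hx (hle _) (fun e => hgeo.not_le_split hxy e.ge)]
    exact (dihedral_pairStab hxy (exists_swap_split hxy) (card_fix2_split hxy)).1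
  · right; right; left
    have hxy := fun e => ht.ne_conj (OnePoint.coe_eq_coe.mp e)
    apply tr
    rw [hM'.eq_of_ne hx (hle _) (fun e => hgeo.2 _ _ hxy e.ge)]
    exact (dihedral_pairStab hxy (exists_swap_irr t a) (card_fix2_irr ht)).1
  · exact absurd rfl h.2.1
  · right; right; right
    rw [← PS_eq_PG h2, or_self] at h
    obtain ⟨r, hr, -, hc⟩ := maxIn_PS_cases (h ▸ hM')
    obtain ⟨F₀, _, _, h', -, e'⟩ := exists_small_PG k g
    exact ⟨F₀, _, _, r, hr, by omega, h' ▸ hc, tr (h ▸ e')⟩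

end Cfsg.Agent.S5893
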