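import Cfsg.Statements.S5894
import Cfsg.Agent.H3.Partition

set_option autoImplicit false
open Cfsg

namespace Cfsg.Agent.S5894

open MulAction Equiv
open scoped Pointwise

theorem aux {Ω : Type*} [Fintype Ω] [DecidableEq Ω] {O : Set Ω} (h2 : 2 ≤ O.ncard)
    (hO : O.ncard = Oᶜ.ncard) :
    ∃ M H K : Subgroup (Equiv.Perm Ω), IsCoatom M ∧ M.index = Fintype.card Ω ∧ H ≤ M ∧
      IsCoatom (H.subgroupOf M) ∧ IsCoatom K ∧ H ≤ K ∧ ¬ IsCoatom (H.subgroupOf K) := by
  classical
  have hc := Set.ncard_add_ncard_compl O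
  obtain ⟨a, b, ha, hb, hab⟩ := (Set.one_lt_ncard_iff (s := O)).1 h2
  obtain ⟨c, hc'⟩ := Set.nonempty_of_ncard_ne_zero (s := Oᶜ) (by omega)
  have : Nontrivial Ω := ⟨a, b, hab⟩
  let f : Ω → Prop := (· ∈ O)
  have hf : ∀ i, Nat.card {x // f x = i} = O.ncard := by
    intro i
    by_cases hi : i
    · simp only [f, hi, eq_iff_iff, iff_true]; rfl
    · simp only [f, hi, eq_iff_iff, iff_false]; exact hO.symm
  have hmem : ∀ g : Perm Ω, g ∈ stabilizer (Perm Ω) O ↔ ∀ z, g z ∈ O ↔ z ∈ O :=
    fun g => mem_stabilizer_set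
  have hle : stabilizer (Perm Ω) O ≤ H3.partStab f := fun g hg =>
    H3.mem_partStab_of_lift 1 fun z => propext ((hmem g).1 hg z)
  refine ⟨stabilizer _ a, stabilizer _ a ⊓ stabilizer _ O, H3.partStab f,
    IsPreprimitive.isCoatom_stabilizer_of_isPreprimitive _ a,
    by rw [index_stabilizer_of_transitive, Nat.card_eq_fintype_card], inf_le_left, ?_,
    H3.isCoatom_partStab hf h2, inf_le_right.trans hle, ?_⟩
  · let φ := toPermHom (stabilizer (Perm Ω) a) (SubMulAction.ofStabilizer (Perm Ω) a)
    have hφ : Function.Surjective φ := fun σ =>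
      ⟨⟨Perm.ofSubtype σ, Perm.ofSubtype_apply_of_not_mem σ (by
        simp [SubMulAction.mem_ofStabilizer_iff])⟩, Equiv.ext fun x => Subtype.ext
          (Perm.ofSubtype_apply_coe σ x)⟩
    have h1 : (Subtype.val ⁻¹' O : Set (SubMulAction.ofStabilizer (Perm Ω) a)).ncard + 1 = O.ncard := by
      rw [← Set.ncard_image_of_injective _ Subtype.val_injective, ← Set.ncard_sdiff_singleton_add_one ha]
      congr 2
      ext x
      simp [SubMulAction.mem_ofStabilizer_iff, and_comm]
    have h3 := SubMulAction.nat_card_ofStabilizer_add_one_eq (Perm Ω) a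
    convert Subgroup.isCoatom_comap_of_surjective hφ (Perm.isCoatom_stabilizer
      (s := Subtype.val ⁻¹' O) ⟨⟨b, hab.symm⟩, hb⟩ ⟨⟨c, fun e => hc' (e ▸ ha)⟩, hc'⟩ (by omega))
    ext g
    rw [Subgroup.inf_subgroupOf_left, Subgroup.mem_subgroupOf, Subgroup.mem_comap, hmem,
      mem_stabilizer_set]
    refine ⟨fun h z => h z, fun h z => ?_⟩
    by_cases hz : z = a
    · rw [hz, show g.1 a = a from g.2]
    · exact h ⟨z, hz⟩
  · rw [H8.isCoatom_subgroupOf_iff (inf_le_right.trans hle)]
    rintro ⟨-, h⟩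
    rcases h _ inf_le_right hle with e | e
    · have : swap a b ∈ stabilizer (Perm Ω) O := (hmem _).2 fun z =>
        iff_of_eq (apply_swap_eq_self (v := f) (propext (iff_of_true ha hb)) z)
      rw [e] at this
      exact hab.symm (by simpa using this.1)
    · obtain ⟨w, hw⟩ := H3.exists_lift hf (swap True False)
      have h1 : w ∈ stabilizer (Perm Ω) O := e ▸ H3.mem_partStab_of_lift _ hw
      have h3 := hw a
      rw [show f a = True from eq_true ha, swap_apply_left] at h3
      exact h3 ▸ (show f (w a) from ((hmem w).1 h1 a).2 ha)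

/-- For every m ≥ 2 the symmetric group on 2m letters has a maximal subgroup M of index 2m together with a maximal subgroup H of M that is not second maximal: some maximal subgroup K of the symmetric group contains H without H being maximal in K. (One may take M the stabiliser of a letter, H ≅ S_m × S_{m−1} inside it, and K ≅ S_m ≀ S₂ the stabiliser of a partition into two m-sets, with H < S_m × S_m < K.) So the prime-index hypothesis in the second-maximality criterion cannot be relaxed to any even index ≥ 4. -/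
theorem result (m : ℕ) (hm : 2 ≤ m) :
    ∃ M H K : Subgroup (Equiv.Perm (Fin (2 * m))), IsCoatom M ∧ M.index = 2 * m ∧ H ≤ M ∧ IsCoatom (H.subgroupOf M) ∧
      IsCoatom K ∧ H ≤ K ∧ ¬ IsCoatom (H.subgroupOf K) := by
  have h1 : ({x | x.1 < m} : Set (Fin (2 * m))).ncard = m := by
    rw [Set.ncard_eq_toFinset_card', Set.toFinset_ofPred, Fin.card_filter_val_lt]
    omega
  have h2 := Set.ncard_add_ncard_compl ({x | x.1 < m} : Set (Fin (2 * m)))
  rw [Nat.card_eq_fintype_card, Fintype.card_fin] at h2
  simpa using aux (O := ({x | x.1 < m} : Set (Fin (2 * m)))) (by omega) (by omega)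

end Cfsg.Agent.S5894
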