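import Cfsg.Statements.S5895
import Cfsg.Agent.H3.Partition
import Cfsg.Agent.H3.Central

set_option autoImplicit false
open Cfsg

open scoped Pointwise

namespace Cfsg.Agent.S5895



/-- For every prime p and every d ≥ 2 there is a finite group G with a maximal subgroup M of index p^d and a maximal subgroup H of M that is not second maximal in G: some maximal subgroup K of G contains H without H being maximal in K. (One may take G the affine group V ⋊ GL(V) of V = 𝔽_p^d, M = GL(V), H the stabiliser in M of a line W of V, and K = V ⋊ H, with H < W ⋊ H < K.) So the prime-index hypothesis in the second-maximality criterion cannot be relaxed to prime-power index. -/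
theorem result (p d : ℕ) (hp : p.Prime)
    (hd : 2 ≤ d) :
    ∃ (G : Type) (_ : Group G) (_ : Finite G) (M H K : Subgroup G), IsCoatom M ∧ M.index = p ^ d ∧ H ≤ M ∧
      IsCoatom (H.subgroupOf M) ∧ IsCoatom K ∧ H ≤ K ∧ ¬ IsCoatom (H.subgroupOf K) := by
  classical
  have : Fact p.Prime := ⟨hp⟩
  let V := GaloisField p d
  have hV : Nat.card V = p ^ d := GaloisField.card p d (by omega)
  let T : Subgroup (Equiv.Perm V) := (MulAction.toPermHom (Multiplicative V) V).range
  have hT : ∀ g, g ∈ T ↔ ∃ v, ∀ x, g x = v + x := fun g =>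
    ⟨by rintro ⟨v, rfl⟩; exact ⟨v.toAdd, fun x => rfl⟩,
      fun ⟨v, hv⟩ => ⟨Multiplicative.ofAdd v, Equiv.ext fun x => (hv x).symm⟩⟩
  have hTv : ∀ v : V, Equiv.addLeft v ∈ T := fun v => (hT _).2 ⟨v, fun _ => rfl⟩
  have hA : MulAction.IsPreprimitive (Subgroup.normalizer (T : Set (Equiv.Perm V))) V := by
    apply MulAction.isPreprimitive_of_is_two_pretransitive
    rw [MulAction.is_two_pretransitive_iff]
    intro a b c e hab hce
    have h0 : (c - e) / (a - b) ≠ 0 := div_ne_zero (sub_ne_zero.2 hce) (sub_ne_zero.2 hab)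
    have h1 : Equiv.mulLeft₀ _ h0 ∈ Subgroup.normalizer (T : Set (Equiv.Perm V)) := by
      refine Subgroup.mem_normalizer_fintype fun g hg => ?_
      obtain ⟨v, hv⟩ := (hT g).1 hg
      refine (hT _).2 ⟨(c - e) / (a - b) * v, fun x => ?_⟩
      simp only [Equiv.Perm.mul_apply, hv, Equiv.Perm.inv_def, Equiv.mulLeft₀_apply,
        Equiv.mulLeft₀_symm_apply, mul_add, mul_inv_cancel_left₀ h0]
    refine ⟨⟨Equiv.addLeft (c - (c - e) / (a - b) * a) * Equiv.mulLeft₀ _ h0,
      mul_mem (Subgroup.le_normalizer (hTv _)) h1⟩, ?_, ?_⟩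
    · change c - (c - e) / (a - b) * a + (c - e) / (a - b) * a = c
      ring
    · change c - (c - e) / (a - b) * a + (c - e) / (a - b) * b = e
      have := div_mul_cancel₀ (c - e) (sub_ne_zero.2 hab)
      linear_combination -this
  obtain ⟨G, ⟨hG1, hG2, hG3⟩, hmin⟩ := WellFounded.has_min (wellFounded_lt (α := Subgroup (Equiv.Perm V)))
    {G | T ≤ G ∧ G ≤ Subgroup.normalizer (T : Set (Equiv.Perm V)) ∧ MulAction.IsPreprimitive G V}
    ⟨_, Subgroup.le_normalizer, le_rfl, hA⟩
  have hne : T.subgroupOf G ≠ ⊤ := by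
    intro h
    have h1 : G ≤ T := Subgroup.subgroupOf_eq_top.1 h
    have h2 := H3.prim_block hG3 (B := Set.range (algebraMap (ZMod p) V)) (by
      rintro g _ ⟨a, rfl⟩ ⟨b, hb⟩ _ ⟨c, rfl⟩
      obtain ⟨v, hv⟩ := (hT g).1 (h1 g.2)
      refine ⟨b - a + c, ?_⟩
      change _ = g.1 _ at hb ⊢
      rw [hv] at hb ⊢
      rw [map_add, map_sub, hb]; ring) ⟨0, rfl⟩ ⟨1, rfl⟩ (by simp)
    have h3 := Nat.card_le_card_of_surjective _ h2
    rw [hV, Nat.card_zmod] at h3
    have := Nat.pow_lt_pow_right hp.one_lt (show 1 < d by omega)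
    rw [pow_one] at this
    omega
  obtain ⟨K, hK, hTK⟩ := (eq_top_or_exists_le_coatom _).resolve_left hne
  have hTn : (T.subgroupOf G).Normal := (Subgroup.normal_subgroupOf_iff_le_normalizer hG1).2 hG2
  have hKt : MulAction.IsPretransitive K V := ⟨fun x y =>
    ⟨⟨⟨Equiv.addLeft (y - x), hG1 (hTv _)⟩, hTK (hTv _)⟩, sub_add_cancel y x⟩⟩
  refine ⟨G, inferInstance, inferInstance, MulAction.stabilizer G (0 : V),
    K ⊓ MulAction.stabilizer G (0 : V), K,
    MulAction.IsPreprimitive.isCoatom_stabilizer_of_isPreprimitive _ _,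
    by rw [MulAction.index_stabilizer_of_transitive, hV], inf_le_right, ?_, hK, inf_le_left, ?_⟩
  · have hdec : ∀ L : Subgroup G, T.subgroupOf G ⊔ L = ⊤ → L ≤ MulAction.stabilizer G (0 : V) →
        MulAction.stabilizer G (0 : V) ≤ L := by
      intro L h1 h2 m hm
      obtain ⟨t, ht, l, hl, rfl⟩ : (m : G) ∈ ((T.subgroupOf G : Set G) * (L : Set G)) := by
        rw [← Subgroup.normal_mul, h1]; trivial
      obtain ⟨v, hv⟩ := (hT _).1 ht
      have h3 : t • (0 : V) = 0 := by
        have := h2 hl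
        rwa [MulAction.mem_stabilizer_iff, mul_smul, MulAction.mem_stabilizer_iff.1 this] at hm
      have : t = 1 := Subtype.ext (Equiv.ext fun x => by
        have h4 : v + 0 = 0 := (hv 0).symm.trans h3
        exact (hv x).trans (by rw [add_zero] at h4; rw [h4, zero_add]; rfl))
      simpa [this] using hl
    rw [H8.isCoatom_subgroupOf_iff inf_le_right]
    refine ⟨fun h => hK.1 ?_, fun L h1 h2 => ?_⟩
    · rw [eq_top_iff]
      intro g _
      obtain ⟨k, hk⟩ := hKt.exists_smul_eq (g • (0 : V)) 0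
      have : (k : G) * g ∈ K := (h.ge (show (k : G) * g ∈ MulAction.stabilizer G (0 : V) by
        rw [MulAction.mem_stabilizer_iff, mul_smul]; exact hk)).1
      exact (K.mul_mem_cancel_left k.2).1 this
    by_cases hLK : L ≤ K
    · exact Or.inl (le_antisymm (le_inf hLK h2) h1)
    refine Or.inr (le_antisymm h2 (hdec L (hK.2 _ (lt_of_le_of_ne (fun k hk => ?_)
      fun e => hLK (le_sup_right.trans e.ge))) h2))
    let t : G := ⟨Equiv.addLeft (k • (0 : V)), hG1 (hTv _)⟩
    have ht : t ∈ T.subgroupOf G := hTv _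
    rw [← mul_inv_cancel_left t k]
    refine mul_mem (Subgroup.mem_sup_left ht) (Subgroup.mem_sup_right (h1
      (Subgroup.mem_inf.2 ⟨K.mul_mem (K.inv_mem (hTK ht)) hk, ?_⟩)))
    rw [MulAction.mem_stabilizer_iff, mul_smul, inv_smul_eq_iff]
    exact (add_zero _).symm
  · intro h
    have h1 : MulAction.IsPreprimitive K V := by
      rw [← MulAction.isCoatom_stabilizer_iff_preprimitive K (0 : V)]
      rwa [Subgroup.inf_subgroupOf_left] at h
    refine hmin (K.map G.subtype) ⟨fun t ht => ⟨⟨t, hG1 ht⟩, hTK ht, rfl⟩,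
      (Subgroup.map_subtype_le _).trans hG2, ?_⟩ (lt_of_le_of_ne (Subgroup.map_subtype_le _)
        fun e => hK.1 (Subgroup.map_injective G.subtype_injective (by
          rw [e, ← MonoidHom.range_eq_map, Subgroup.range_subtype])))
    have : MulAction.IsPretransitive (K.map G.subtype) V := ⟨fun x y => by
      obtain ⟨k, hk⟩ := hKt.exists_smul_eq x y
      exact ⟨⟨_, k, k.2, rfl⟩, hk⟩⟩
    exact H3.prim_of_block fun B hB a ha b hb hab x =>
      H3.prim_block h1 (fun k => hB ⟨_, k, k.2, rfl⟩) ha hb hab x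

end Cfsg.Agent.S5895
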