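import Cfsg.Statements.S5896

set_option autoImplicit false
open Cfsg

namespace Cfsg.Agent.S5896

open scoped commutatorElement

theorem base : ∃ (G : Type) (_ : Group G) (_ : Finite G) (H : Subgroup G), commutator G = ⊤ ∧
    IsCoatom H ∧ Group.IsSolvable H ∧ derivedSeries H 0 ≠ ⊥ := by
  obtain ⟨G, hG, hmin⟩ := WellFounded.has_min (wellFounded_lt (α := Subgroup (Equiv.Perm (Fin 5))))
    {G | ¬ Group.IsSolvable G} ⟨⊤, fun h => Equiv.Perm.not_isSolvable_fin_5
      (Group.isSolvable_of_surjective (f := (⊤ : Subgroup (Equiv.Perm (Fin 5))).subtype)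
        fun x => ⟨⟨x, trivial⟩, rfl⟩)⟩
  have hsol : ∀ K : Subgroup G, K ≠ ⊤ → Group.IsSolvable K := by
    intro K hK
    have : Group.IsSolvable (K.map G.subtype) := by
      by_contra h
      exact hmin _ h (lt_of_le_of_ne (Subgroup.map_subtype_le _) fun e => hK
        (Subgroup.map_injective G.subtype_injective (by
          rw [e, ← MonoidHom.range_eq_map, Subgroup.range_subtype])))
    exact Group.isSolvable_of_isSolvable_injective
      (f := (K.equivMapOfInjective _ G.subtype_injective).toMonoidHom)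
      (MulEquiv.injective _)
  have hperf : commutator G = ⊤ := by
    by_contra h
    have := hsol _ h
    exact hG (Group.isSolvable_of_ker_le_range (commutator G).subtype Abelianization.of (by simp))
  have hnt : Nontrivial G := by
    by_contra h
    rw [not_nontrivial_iff_subsingleton] at h
    exact hG inferInstance
  obtain ⟨g, hg⟩ := exists_ne (1 : G)
  have h1 : Subgroup.zpowers g ≠ ⊤ := fun h => by
    have : IsCyclic G := ⟨g, fun x => (show x ∈ Subgroup.zpowers g from h ▸ Subgroup.mem_top x)⟩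
    exact hG (Group.isSolvable_of_comm fun a b => IsCyclic.isMulCommutative.is_comm.comm a b)
  obtain ⟨H, hH, h2⟩ := (eq_top_or_exists_le_coatom _).resolve_left h1
  refine ⟨G, inferInstance, inferInstance, H, hperf, hH, hsol H hH.1, ?_⟩
  have : Nontrivial H := ⟨⟨g, h2 (Subgroup.mem_zpowers g)⟩, 1, fun e => hg (congrArg Subtype.val e)⟩
  exact top_ne_bot

theorem comm_step {W G : Type*} [Group W] [Group G] (π : W →* G) {p : ℕ}
    (hab : ∀ u v : W, π u = 1 → π v = 1 → u * v = v * u) (hp : ∀ u : W, π u = 1 → u ^ p = 1)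
    {y v : W} (hy : (orderOf (π y)).Coprime p) (hv : π v = 1) (h : y * v ≠ v * y) :
    y * ⁅y, v⁆ ≠ ⁅y, v⁆ * y := by
  intro hc
  set u := ⁅y, v⁆ with hu
  have hu1 : π u = 1 := by simp [hu, hv]
  have key : ∀ k : ℕ, y ^ k * v = u ^ k * v * y ^ k := by
    intro k
    induction k with
    | zero => simp
    | succ k ih =>
      have e : y * v = u * v * y := by rw [hu, commutatorElement_def]; group
      have e2 : y * u ^ k = u ^ k * y := (Commute.pow_right hc k)
      rw [pow_succ', mul_assoc, ih, ← mul_assoc, ← mul_assoc, e2, mul_assoc (u ^ k), e, pow_succ u]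
      group
  have h1 := key (orderOf (π y))
  rw [hab _ v (by simp) hv, mul_left_inj, right_eq_mul] at h1
  have h2 : u = 1 := by
    have := Nat.dvd_gcd (orderOf_dvd_of_pow_eq_one h1) (orderOf_dvd_of_pow_eq_one (hp u hu1))
    rwa [hy, Nat.dvd_one, orderOf_eq_one_iff] at this
  exact h (commutatorElement_eq_one_iff_mul_comm.1 h2)

theorem step {W G : Type} [Group W] [Finite W] [Group G] [Finite G] (π : W →* G)
    (hπ : Function.Surjective π) {p : ℕ} (hcop : (Nat.card G).Coprime p)
    (hab : ∀ u v : W, π u = 1 → π v = 1 → u * v = v * u) (hp : ∀ u : W, π u = 1 → u ^ p = 1)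
    (hfaith : ∀ y : W, π y ≠ 1 → ∃ v, π v = 1 ∧ y * v ≠ v * y) (H : Subgroup G)
    (hG : commutator G = ⊤) (hH : IsCoatom H) (hs : Group.IsSolvable H) {d : ℕ}
    (hd : derivedSeries H d ≠ ⊥) :
    ∃ (G : Type) (_ : Group G) (_ : Finite G) (H : Subgroup G), commutator G = ⊤ ∧
      IsCoatom H ∧ Group.IsSolvable H ∧ derivedSeries H (d + 1) ≠ ⊥ := by
  obtain ⟨P, ⟨hPn, hP⟩, hmin⟩ := WellFounded.has_min (wellFounded_lt (α := Subgroup W))
    {P | P.Normal ∧ P.map π = ⊤} ⟨⊤, inferInstance, Subgroup.map_top_of_surjective π hπ⟩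
  have hperf : ⁅P, P⁆ = P := by
    by_contra h
    exact hmin _ ⟨inferInstance, by rw [Subgroup.map_commutator, hP]; exact hG⟩
      (lt_of_le_of_ne (Subgroup.commutator_le_left P P) h)
  let φ : P →* G := π.comp P.subtype
  have hφ : Function.Surjective φ := fun g => by
    obtain ⟨x, hx, rfl⟩ : g ∈ P.map π := hP ▸ Subgroup.mem_top g
    exact ⟨⟨x, hx⟩, rfl⟩
  let ψ : H.comap φ →* H := φ.subgroupComap H
  have hψ : Function.Surjective ψ := φ.subgroupComap_surjective_of_surjective H hφ
  let ι : H.comap φ →* W := P.subtype.comp (H.comap φ).subtype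
  have hι : Function.Injective ι := P.subtype_injective.comp (H.comap φ).subtype_injective
  have hπι : ∀ x, π (ι x) = ψ x := fun x => rfl
  refine ⟨P, inferInstance, inferInstance, H.comap φ, (Subgroup.isPerfect_iff.2 hperf).1,
    Subgroup.isCoatom_comap_of_surjective hφ hH, ?_, ?_⟩
  · have : Group.IsSolvable ψ.ker := Group.isSolvable_of_comm fun a b => Subtype.ext (hι (by
      simp only [Subgroup.coe_mul, map_mul]
      exact hab _ _ (congrArg Subtype.val a.2) (congrArg Subtype.val b.2)))
    exact Group.isSolvable_of_ker_le_range ψ.ker.subtype ψ (by simp)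
  obtain ⟨⟨x, hx⟩, hx1⟩ := Subgroup.ne_bot_iff_exists_ne_one.1 hd
  rw [← map_derivedSeries_eq hψ] at hx
  obtain ⟨y, hy, rfl⟩ := hx
  have hy1 : π (ι y) ≠ 1 := fun e => hx1 (Subtype.ext (Subtype.ext e))
  have hyo : (orderOf (π (ι y))).Coprime p := hcop.coprime_dvd_left (orderOf_dvd_natCard _)
  have key : ∀ j ≤ d + 1, ∃ v ∈ derivedSeries (H.comap φ) j, π (ι v) = 1 ∧ ι y * ι v ≠ ι v * ι y := by
    intro j
    induction j with
    | zero =>
      intro _
      obtain ⟨v, hv, hv'⟩ := hfaith _ hy1
      have h1 : ⁅ι y, v⁆ ∈ P := by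
        have h0 : ι y ∈ P := y.1.2
        simpa [commutatorElement_def, mul_assoc] using
          P.mul_mem h0 (hPn.conj_mem _ (P.inv_mem h0) v)
      have h2 : π ⁅ι y, v⁆ = 1 := by simp [hv]
      exact ⟨⟨⟨_, h1⟩, show π ⁅ι y, v⁆ ∈ H from h2 ▸ H.one_mem⟩, Subgroup.mem_top _, h2,
        comm_step π hab hp hyo hv hv'⟩
    | succ j ih =>
      intro hj
      obtain ⟨v, hv, h1, h2⟩ := ih (by omega)
      refine ⟨⁅y, v⁆, Subgroup.commutator_mem_commutator
        (derivedSeries_antitone _ (by omega) hy) hv, by simp [h1], ?_⟩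
      rw [map_commutatorElement]
      exact comm_step π hab hp hyo h1 h2
  obtain ⟨v, hv, -, h⟩ := key _ le_rfl
  intro e
  rw [e, Subgroup.mem_bot] at hv
  simp [hv] at h

/-- Finite perfect groups have solvable maximal subgroups of unbounded derived length: for every d there is a finite perfect group G (equal to its commutator subgroup) with a solvable maximal subgroup H whose derived length exceeds d, i.e. the d-th term of the derived series of H is non-trivial. (Take the derived subgroup of a wreath product S ≀ A₅ with S solvable of large derived length, and H the preimage of a maximal subgroup of A₅.) -/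
theorem result (d : ℕ) :
    ∃ (G : Type) (_ : Group G) (_ : Finite G) (H : Subgroup G), commutator G = ⊤ ∧ IsCoatom H ∧ Group.IsSolvable H ∧
      derivedSeries H d ≠ ⊥ := by
  induction d with
  | zero => exact base
  | succ d ih =>
    obtain ⟨G, _, _, H, h1, h2, h3, h4⟩ := ih
    classical
    obtain ⟨p, hp1, hp⟩ := Nat.exists_infinite_primes (Nat.card G + 1)
    have : Fact p.Prime := ⟨hp⟩
    refine step (W := RegularWreathProduct (Multiplicative (ZMod p)) G)
      RegularWreathProduct.rightHom (fun g => ⟨_, RegularWreathProduct.fun_id g⟩) (p := p)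
      ((Nat.coprime_of_lt_prime Nat.card_pos.ne' hp1 hp).symm) ?_ ?_ ?_ H h1 h2 h3 h4
    · rintro ⟨u, a⟩ ⟨v, b⟩ (rfl : a = 1) (rfl : b = 1)
      simp [RegularWreathProduct.mul_def, mul_comm]
    · rintro ⟨u, a⟩ (rfl : a = 1)
      have : ∀ k : ℕ, (⟨u, 1⟩ : RegularWreathProduct (Multiplicative (ZMod p)) G) ^ k = ⟨u ^ k, 1⟩ := by
        intro k
        induction k with
        | zero => rw [pow_zero, pow_zero]; rfl
        | succ k ih => simp [pow_succ, ih, RegularWreathProduct.mul_def]
      rw [this]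
      congr
      funext x
      simpa using pow_card_eq_one' (x := u x)
    · rintro ⟨u, a⟩ (ha : a ≠ 1)
      refine ⟨⟨Pi.mulSingle 1 (Multiplicative.ofAdd 1), 1⟩, rfl, fun h => ?_⟩
      have := congrFun (congrArg RegularWreathProduct.left h) 1
      simp [Pi.mulSingle_eq_of_ne (inv_ne_one.2 ha)] at this

end Cfsg.Agent.S5896
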