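import Cfsg.Statements.S5902
import Cfsg.Agent.S5901

set_option autoImplicit false
open Cfsg

namespace Cfsg.Agent.S5902

/-- Let G be a finite group, X a subgroup whose own subgroup lattice is complemented, and suppose X lies in exactly one maximal subgroup M of G. Then every subgroup H of G not contained in the normal core of M has a complement in the subgroup lattice of G (some C with H ⊔ C = G and H ⊓ C = 1); in particular the subgroup lattice of G modulo the normal core of M is complemented. -/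
theorem result {G : Type*} [Group G] [Finite G] (X M : Subgroup G)
    (hK : ComplementedLattice (Subgroup X))
    (hM : IsCoatom M) (hXM : X ≤ M) (huniq : ∀ M' : Subgroup G, IsCoatom M' → X ≤ M' → M' = M) :
    (∀ H : Subgroup G, ¬ H ≤ M.normalCore → ∃ C : Subgroup G, H ⊔ C = ⊤ ∧ H ⊓ C = ⊥) ∧
    ComplementedLattice (Subgroup (G ⧸ M.normalCore)) := by
  have hint : ∀ Y : Subgroup G, ⊥ ≤ Y → Y ≤ X →
      ∃ C : Subgroup G, ⊥ ≤ C ∧ C ≤ X ∧ Y ⊔ C = X ∧ Y ⊓ C = ⊥ := by
    intro Y _ hY
    obtain ⟨C, hC⟩ := exists_isCompl (Y.subgroupOf X)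
    refine ⟨C.map X.subtype, bot_le, Subgroup.map_subtype_le C, ?_, ?_⟩
    · have h := congrArg (Subgroup.map X.subtype) hC.sup_eq_top
      rw [Subgroup.map_sup, Subgroup.map_subgroupOf_eq_of_le hY, ← MonoidHom.range_eq_map,
        Subgroup.range_subtype] at h
      exact h
    · have h := congrArg (Subgroup.map X.subtype) hC.inf_eq_bot
      rw [Subgroup.map_inf _ _ _ X.subtype_injective, Subgroup.map_subgroupOf_eq_of_le hY,
        Subgroup.map_bot] at h
      exact h
  have hX : X ≠ ⊤ := fun h => hM.1 (top_le_iff.mp (h ▸ hXM))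
  have key : ∀ H : Subgroup G, ¬ H ≤ M.normalCore → ∃ C : Subgroup G, H ⊔ C = ⊤ ∧ H ⊓ C = ⊥ := by
    intro H hH
    have : ∃ g : G, ¬ H.map (MulAut.conj g).toMonoidHom ≤ M := by
      by_contra hcon
      push Not at hcon
      apply hH
      intro h hh g
      exact hcon g ⟨h, hh, rfl⟩
    obtain ⟨g, hg⟩ := this
    obtain ⟨C, h1, h2⟩ := Cfsg.Agent.S5901.result ⊥ X M bot_le hX hint hM hXM huniq _ hg (inf_bot_eq _)
    refine ⟨C.map (MulAut.conj g).symm.toMonoidHom, ?_, ?_⟩
    · have h := congrArg (Subgroup.map (MulAut.conj g).symm.toMonoidHom) h1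
      rw [Subgroup.map_sup, Subgroup.map_map, Subgroup.map_top_of_surjective _ (MulEquiv.surjective _)] at h
      simpa using h
    · have h := congrArg (Subgroup.map (MulAut.conj g).symm.toMonoidHom) h2
      rw [Subgroup.map_inf _ _ _ (MulEquiv.injective _), Subgroup.map_map, Subgroup.map_bot] at h
      simpa using h
  refine ⟨key, ⟨fun Hb => ?_⟩⟩
  by_cases hb : Hb = ⊥
  · subst hb
    exact ⟨⊤, isCompl_bot_top⟩
  set N := M.normalCore
  set H := Hb.comap (QuotientGroup.mk' N) with hHdef
  have hH : ¬ H ≤ N := by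
    intro hle
    apply hb
    rw [eq_bot_iff]
    intro x hx
    obtain ⟨y, rfl⟩ := QuotientGroup.mk'_surjective N x
    have : y ∈ N := hle hx
    simpa using this
  obtain ⟨C, h1, h2⟩ := key H hH
  have hmap : H.map (QuotientGroup.mk' N) = Hb :=
    Subgroup.map_comap_eq_self_of_surjective (QuotientGroup.mk'_surjective N) Hb
  refine ⟨C.map (QuotientGroup.mk' N), ⟨?_, ?_⟩⟩
  · rw [disjoint_iff, eq_bot_iff]
    rintro x ⟨hx, c, hc, rfl⟩
    have : c ∈ H ⊓ C := ⟨hx, hc⟩
    rw [h2, Subgroup.mem_bot] at this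
    subst this
    simp
  · rw [codisjoint_iff, ← hmap, ← Subgroup.map_sup, h1,
      Subgroup.map_top_of_surjective _ (QuotientGroup.mk'_surjective N)]

end Cfsg.Agent.S5902
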