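import Cfsg.Statements.S5903

set_option autoImplicit false
open Cfsg

namespace Cfsg.Agent.S5903



/-- Let G be a finite simple group, X a subgroup lying in exactly one maximal subgroup M of G, and N a subgroup of prime order with N ≤ X that is central in M. If the subgroup lattice of X/N is complemented, then the subgroup lattice of G is complemented. -/
theorem result {G : Type*} [Group G] [Finite G] [IsSimpleGroup G] (X M N : Subgroup G)
    (hM : IsCoatom M) (hXM : X ≤ M) (huniq : ∀ M' : Subgroup G, IsCoatom M' → X ≤ M' → M' = M)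
    (hNX : N ≤ X) (hN : (Nat.card N).Prime) (hcen : ∀ n ∈ N, ∀ m ∈ M, m * n = n * m)
    [(N.subgroupOf X).Normal] (hK : ComplementedLattice (Subgroup (X ⧸ N.subgroupOf X))) :
    ComplementedLattice (Subgroup G) := by
  refine ⟨fun H => ?_⟩
  by_cases hb : H = ⊥
  · exact ⟨⊤, hb ▸ isCompl_bot_top⟩
  by_cases ht : H = ⊤
  · exact ⟨⊥, ht ▸ isCompl_top_bot⟩
  have : Fact (Nat.card N).Prime := ⟨hN⟩
  obtain ⟨g, hg1, hg2⟩ : ∃ g : G, ¬ (∀ n ∈ N, g * n * g⁻¹ ∈ H) ∧ ¬ ∀ h ∈ H, g⁻¹ * h * g ∈ M := by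
    by_contra hc
    have h1 : Subgroup.normalClosure (N : Set G) ≤ Subgroup.normalizer (H : Set G) := by
      refine (Subgroup.closure_le _).2 fun x hx => ?_
      obtain ⟨n, hn, hx⟩ := Group.mem_conjugatesOfSet_iff.1 hx
      obtain ⟨g, rfl⟩ := isConj_iff.1 hx
      by_cases h2 : ∀ n ∈ N, g * n * g⁻¹ ∈ H
      · exact Subgroup.le_normalizer (h2 n hn)
      · have h3 : ∀ h ∈ H, g⁻¹ * h * g ∈ M := by
          by_contra h3; exact hc ⟨g, h2, h3⟩
        refine Subgroup.mem_normalizer_fintype fun h hh => ?_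
        have := hcen n hn _ (h3 h hh)
        have e : g * n * g⁻¹ * h * (g * n * g⁻¹)⁻¹ = g * (n * (g⁻¹ * h * g)) * n⁻¹ * g⁻¹ := by group
        rw [e, ← this]
        simpa [mul_assoc] using hh
    rcases (Subgroup.normalClosure_normal (s := (N : Set G))).eq_bot_or_eq_top with h2 | h2
    · have : N = ⊥ := le_bot_iff.1 (h2 ▸ Subgroup.le_normalClosure)
      rw [this, Subgroup.card_bot] at hN
      exact Nat.not_prime_one hN
    · rw [h2, top_le_iff, Subgroup.normalizer_eq_top_iff] at h1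
      exact h1.eq_bot_or_eq_top.elim hb ht
  let e := (MulAut.conj g).mapSubgroup
  obtain ⟨H', rfl⟩ := e.surjective H
  have hmem : ∀ x, g * x * g⁻¹ ∈ e H' ↔ x ∈ H' := fun x =>
    Subgroup.mem_map_iff_mem (f := (MulAut.conj g).toMonoidHom) (MulAut.conj g).injective
  have h1 : ¬ N ≤ H' := fun h => hg1 fun n hn => (hmem n).2 (h hn)
  have h2 : ¬ H' ≤ M := fun h => hg2 fun x hx => h ((hmem _).1 (by simpa [mul_assoc] using hx))
  let π := QuotientGroup.mk' (N.subgroupOf X)
  obtain ⟨C, hC⟩ := exists_isCompl ((H'.subgroupOf X).map π)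
  refine ⟨e ((C.comap π).map X.subtype), e.isCompl ⟨?_, ?_⟩⟩
  · have h3 : N ⊓ H' = ⊥ := by
      rcases ((N ⊓ H').subgroupOf N).eq_bot_or_eq_top_of_prime_card with h | h
      · rwa [Subgroup.subgroupOf_eq_bot, disjoint_iff, inf_eq_left.2 inf_le_left] at h
      · exact absurd ((Subgroup.subgroupOf_eq_top.1 h).trans inf_le_right) h1
    rw [Subgroup.disjoint_def]
    rintro _ hx ⟨x, hx', rfl⟩
    have : π x = 1 := Subgroup.disjoint_def.1 hC.disjoint ⟨x, hx, rfl⟩ hx'
    rw [QuotientGroup.mk'_apply, QuotientGroup.eq_one_iff] at this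
    exact Subgroup.mem_bot.1 (h3 ▸ ⟨this, hx⟩)
  · rw [codisjoint_iff]
    have h3 : H'.subgroupOf X ⊔ C.comap π = ⊤ := by
      have hk : π.ker ≤ C.comap π := Subgroup.ker_le_comap π C
      have := Subgroup.comap_map_eq π (H'.subgroupOf X ⊔ C.comap π)
      rw [Subgroup.map_sup, Subgroup.map_comap_eq_self_of_surjective (QuotientGroup.mk'_surjective _),
        codisjoint_iff.1 hC.codisjoint, Subgroup.comap_top, sup_assoc, sup_eq_left.2 hk] at this
      exact this.symm
    have h4 : X ≤ H' ⊔ (C.comap π).map X.subtype := by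
      have := congrArg (Subgroup.map X.subtype) h3
      rw [Subgroup.map_sup, ← MonoidHom.range_eq_map, Subgroup.range_subtype,
        Subgroup.subgroupOf_map_subtype] at this
      exact this.ge.trans (sup_le_sup_right inf_le_left _)
    rcases eq_top_or_exists_le_coatom (H' ⊔ (C.comap π).map X.subtype) with h | ⟨M', hM', h⟩
    · exact h
    · exact absurd (le_sup_left.trans (huniq M' hM' (h4.trans h) ▸ h)) h2

end Cfsg.Agent.S5903
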