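import Cfsg.Statements.S5904
import Cfsg.Agent.H3.Partition

set_option autoImplicit false
open scoped Pointwise
open Cfsg

namespace Cfsg.Agent.S5904



/-- Let Ω be a finite set with more than two elements and O ⊆ Ω a subset with exactly as many elements as its complement. Then the setwise stabilizer of O in the symmetric group on Ω is not a maximal subgroup (it is properly contained in the stabilizer of the partition {O, Ω ∖ O}, which is proper). -/
theorem result {Ω : Type*} [Fintype Ω] [DecidableEq Ω] (hΩ : 2 < Fintype.card Ω)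
    (O : Set Ω) (hO : Nat.card O = Nat.card ↥Oᶜ) :
    ¬ IsCoatom (MulAction.stabilizer (Equiv.Perm Ω) O) := by
  classical
  intro h
  have hc := Set.ncard_add_ncard_compl O
  rw [Nat.card_eq_fintype_card] at hc
  have hO' : O.ncard = Oᶜ.ncard := hO
  let f : Ω → Prop := (· ∈ O)
  have hf : ∀ i, Nat.card {x // f x = i} = O.ncard := by
    intro i
    by_cases hi : i
    · simp only [f, hi, eq_iff_iff, iff_true]; rfl
    · simp only [f, hi, eq_iff_iff, iff_false]; exact hO.symm
  have hle : MulAction.stabilizer (Equiv.Perm Ω) O ≤ H3.partStab f := fun g hg =>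
    H3.mem_partStab_of_lift 1 fun z => by
      have : g • z ∈ g • O ↔ z ∈ O := Set.smul_mem_smul_set_iff
      rw [hg] at this
      exact propext this
  refine (H3.isCoatom_partStab hf (by omega)).1 (h.2 _ (lt_of_le_of_ne hle fun e => ?_))
  obtain ⟨w, hw⟩ := H3.exists_lift hf (Equiv.swap True False)
  have h1 : w ∈ MulAction.stabilizer (Equiv.Perm Ω) O := e ▸ H3.mem_partStab_of_lift _ hw
  obtain ⟨x, hx⟩ := Set.nonempty_of_ncard_ne_zero (s := O) (by omega)
  have h2 : w • x ∈ w • O := Set.smul_mem_smul_set hx
  rw [h1] at h2
  have h3 := hw x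
  rw [show f x = True from eq_true hx, Equiv.swap_apply_left] at h3
  exact h3 ▸ (show f (w x) from h2)

end Cfsg.Agent.S5904
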