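import Cfsg.Statements.S5908

set_option autoImplicit false
open Cfsg

namespace Cfsg.Agent.S5908

abbrev K4 := Bool × Bool

def a4 (x y : K4) : K4 := (xor x.1 y.1, xor x.2 y.2)
def m4 (x y : K4) : K4 := (xor (x.1 && y.1) (x.2 && y.2), xor (xor (x.1 && y.2) (x.2 && y.1)) (x.2 && y.2))
def z4 (x : K4) : Bool := !x.1 && !x.2
def o4 (x : K4) : Bool := x.1 && !x.2
def dot (a b c d e f : K4) : K4 := a4 (a4 (m4 a d) (m4 b e)) (m4 c f)
def her (a b c d e f : K4) : K4 := dot a b c (m4 d d) (m4 e e) (m4 f f)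
def all4 (p : K4 → Bool) : Bool := p (false, false) && p (true, false) && p (false, true) && p (true, true)
def col (a b c : K4) : Bool := (z4 a || z4 b) && (z4 a || z4 c) && (z4 b || z4 c)

theorem all4_iff {p : K4 → Bool} : all4 p = true ↔ ∀ x, p x = true := by
  simp [all4, and_assoc]; tauto

theorem enum : (all4 fun a => all4 fun d => all4 fun g => !o4 (her a d g a d g) ||
    all4 fun b => all4 fun e => all4 fun h => !o4 (her b e h b e h) || !z4 (her a d g b e h) ||
    all4 fun c => all4 fun f => all4 fun i => !o4 (her c f i c f i) || !z4 (her a d g c f i) ||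
      !z4 (her b e h c f i) ||
      !o4 (dot a b c (a4 (m4 e i) (m4 f h)) (a4 (m4 d i) (m4 f g)) (a4 (m4 d h) (m4 e g))) ||
      (col a d g && col b e h && col c f i) ||
      (col (dot a b c a d g) (dot d e f a d g) (dot g h i a d g) &&
        col (dot a b c b e h) (dot d e f b e h) (dot g h i b e h) &&
        col (dot a b c c f i) (dot d e f c f i) (dot g h i c f i) &&
        (!z4 (dot a b c b e h) || !z4 (dot a b c c f i) || !z4 (dot d e f c f i)))) = true := by
  decide +kernel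

section
variable {F : Type*} [Field F]

def β (F : Type*) [Field F] (b : Bool) : F := if b then 1 else 0
def φ (w : F) (x : K4) : F := β F x.1 + β F x.2 * w

theorem φ_add (h2 : (2 : F) = 0) (w : F) (x y : K4) : φ w (a4 x y) = φ w x + φ w y := by
  rcases x with ⟨_ | _, _ | _⟩ <;> rcases y with ⟨_ | _, _ | _⟩ <;> simp [φ, β, a4] <;> grind

theorem φ_mul (h2 : (2 : F) = 0) {w : F} (hw : w * w = w + 1) (x y : K4) :
    φ w (m4 x y) = φ w x * φ w y := by
  rcases x with ⟨_ | _, _ | _⟩ <;> rcases y with ⟨_ | _, _ | _⟩ <;> simp [φ, β, m4] <;> grind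

theorem φ_zero (h2 : (2 : F) = 0) {w : F} (hw : w * w = w + 1) (x : K4) :
    z4 x = true ↔ φ w x = 0 := by
  rcases x with ⟨_ | _, _ | _⟩ <;> simp [φ, β, z4] <;> grind

theorem φ_one (h2 : (2 : F) = 0) {w : F} (hw : w * w = w + 1) (x : K4) :
    o4 x = true ↔ φ w x = 1 := by
  rcases x with ⟨_ | _, _ | _⟩ <;> simp [φ, β, o4] <;> grind

def Mono (A : Matrix (Fin 3) (Fin 3) F) : Prop := ∀ j i i', A i j ≠ 0 → A i' j ≠ 0 → i = i'

theorem mono_of {A : Matrix (Fin 3) (Fin 3) F}
    (h : ∀ j, (A 0 j = 0 ∨ A 1 j = 0) ∧ (A 0 j = 0 ∨ A 2 j = 0) ∧ (A 1 j = 0 ∨ A 2 j = 0)) :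
    Mono A := by
  intro j i i' h1 h2
  have := h j
  clear h
  fin_cases i <;> fin_cases i' <;> simp_all

theorem key (h2 : (2 : F) = 0) {w : F} (hw : w * w = w + 1) (hs : Function.Surjective (φ w))
    (A : Matrix (Fin 3) (Fin 3) F) (hA : ∀ i j, ∑ k, A k i * A k j ^ 2 = if i = j then 1 else 0)
    (hd : A.det = 1) :
    Mono A ∨ (Mono (A * A) ∧ ((A * A) 0 1 ≠ 0 ∨ (A * A) 0 2 ≠ 0 ∨ (A * A) 1 2 ≠ 0)) := by
  choose B hB using fun i j => hs (A i j)
  have h := enum
  simp only [all4_iff, Bool.or_eq_true, Bool.not_eq_true', ← Bool.not_eq_true,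
    Bool.and_eq_true, col, φ_zero h2 hw, φ_one h2 hw, her, dot, φ_add h2, φ_mul h2 hw, or_assoc] at h
  simp only [← imp_iff_not_or] at h
  simp only [Fin.sum_univ_three, sq] at hA
  have := h (B 0 0) (B 1 0) (B 2 0) (by simpa [hB] using hA 0 0) (B 0 1) (B 1 1) (B 2 1)
    (by simpa [hB] using hA 1 1) (by simpa [hB] using hA 0 1) (B 0 2) (B 1 2) (B 2 2)
    (by simpa [hB] using hA 2 2) (by simpa [hB] using hA 0 2) (by simpa [hB] using hA 1 2)
    (by rw [Matrix.det_fin_three] at hd; simp only [hB]; grind)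
  simp only [hB] at this
  simp only [and_assoc, imp_iff_not_or] at this
  refine this.imp (fun ⟨h1, h2, h3, h4, h5, h6, h7, h8, h9⟩ => mono_of fun j => ?_)
    fun ⟨h1, h2, h3, h4, h5, h6, h7, h8, h9, h10⟩ => ⟨mono_of fun j => ?_, ?_⟩
  · fin_cases j
    exacts [⟨h1, h2, h3⟩, ⟨h4, h5, h6⟩, ⟨h7, h8, h9⟩]
  · simp only [Matrix.mul_apply, Fin.sum_univ_three]
    fin_cases j
    exacts [⟨h1, h2, h3⟩, ⟨h4, h5, h6⟩, ⟨h7, h8, h9⟩]
  · simpa only [Matrix.mul_apply, Fin.sum_univ_three] using h10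

theorem memD (h2 : (2 : F) = 0) {w : F} (hw : w * w = w + 1) :
    (!![1, 0, 0; 0, w, 0; 0, 0, w + 1]).det = 1 ∧ ∀ u v, hermForm 3 F 2
      (Matrix.mulVec !![1, 0, 0; 0, w, 0; 0, 0, w + 1] u)
      (Matrix.mulVec !![1, 0, 0; 0, w, 0; 0, 0, w + 1] v) = hermForm 3 F 2 u v := by
  refine ⟨by rw [Matrix.det_fin_three]; simp; grind, fun u v => ?_⟩
  simp [hermForm, Fin.sum_univ_three, Matrix.mulVec, dotProduct]; grind

theorem memX (h2 : (2 : F) = 0) {w : F} (hw : w * w = w + 1) :
    (!![1, 1, 1; 1, w, w + 1; 1, w + 1, w]).det = 1 ∧ ∀ u v, hermForm 3 F 2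
      (Matrix.mulVec !![1, 1, 1; 1, w, w + 1; 1, w + 1, w] u)
      (Matrix.mulVec !![1, 1, 1; 1, w, w + 1; 1, w + 1, w] v) = hermForm 3 F 2 u v := by
  refine ⟨by rw [Matrix.det_fin_three]; simp; grind, fun u v => ?_⟩
  simp [hermForm, Fin.sum_univ_three, Matrix.mulVec, dotProduct]; grind

theorem diag_of_comm (h2 : (2 : F) = 0) {w : F} (hw : w * w = w + 1) {Z : Matrix (Fin 3) (Fin 3) F}
    (h : !![1, 0, 0; 0, w, 0; 0, 0, w + 1] * Z = Z * !![1, 0, 0; 0, w, 0; 0, 0, w + 1]) (i j : Fin 3)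
    (hij : i ≠ j) : Z i j = 0 := by
  have := congrFun (congrFun h i) j
  clear h
  fin_cases i <;> fin_cases j <;> simp [Matrix.mul_apply, Fin.sum_univ_three] at this hij ⊢ <;> grind

end

/-- The subgroup lattice of PSU₃(2) (the solvable group of order 72, realised over the field with 4 elements) is not complemented: some subgroup H has no subgroup X with H ⊔ X = ⊤ and H ⊓ X = ⊥. -/
theorem result {F : Type*} [Field F] [Fintype F] (hF : Fintype.card F = 4) :
    ¬ ComplementedLattice (Subgroup (Cfsg.PSU 3 F 2)) := by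
  classical
  have h2 : (2 : F) = 0 := by
    have := FiniteField.cast_card_eq_zero F
    rw [hF] at this
    have h : (2 : F) * 2 = 0 := by rw [← this]; norm_num
    simpa using h
  obtain ⟨w, hw⟩ : ∃ w : F, w * w = w + 1 := by
    obtain ⟨w, -, hw⟩ := Finset.exists_mem_notMem_of_card_lt_card (s := ({0, 1} : Finset F))
      (t := Finset.univ) (Finset.card_le_two.trans_lt (by simp [hF]))
    simp only [Finset.mem_insert, Finset.mem_singleton, not_or] at hw
    have := FiniteField.pow_card w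
    rw [hF] at this
    exact ⟨w, by grind⟩
  have hs : Function.Surjective (φ w) := by
    refine ((Fintype.bijective_iff_injective_and_card _).2 ⟨fun x y h => ?_, by simp [hF]⟩).2
    have : z4 (a4 x y) = true := by rw [φ_zero h2 hw, φ_add h2, h]; grind
    revert this
    rcases x with ⟨_ | _, _ | _⟩ <;> rcases y with ⟨_ | _, _ | _⟩ <;> simp [z4, a4]
  let m : SU 3 F 2 →* Matrix (Fin 3) (Fin 3) F := (slToMat 3 F).comp (SU 3 F 2).subtype
  let Mo' : Submonoid (SU 3 F 2) :=
    { carrier := {A | Mono (m A)}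
      one_mem' := fun j i i' h1 h2 => by
        simp only [map_one, Matrix.one_apply, ne_eq, ite_eq_right_iff, one_ne_zero, imp_false,
          not_not] at h1 h2
        rw [h1, h2]
      mul_mem' := fun {A B} hA hB j i i' h1 h2 => by
        rw [map_mul, Matrix.mul_apply] at h1 h2
        obtain ⟨k, -, hk⟩ := Finset.exists_ne_zero_of_sum_ne_zero h1
        obtain ⟨k', -, hk'⟩ := Finset.exists_ne_zero_of_sum_ne_zero h2
        obtain rfl := hB j k k' (right_ne_zero_of_mul hk) (right_ne_zero_of_mul hk')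
        exact hA k i i' (left_ne_zero_of_mul hk) (left_ne_zero_of_mul hk') }
  let Mo : Subgroup (SU 3 F 2) :=
    { Mo' with
      inv_mem' := fun {A} hA => by
        have : A⁻¹ = A ^ (orderOf A - 1) := by
          rw [inv_eq_iff_mul_eq_one, ← pow_succ', Nat.sub_add_cancel (orderOf_pos A),
            pow_orderOf_eq_one]
        exact this ▸ Mo'.pow_mem hA _ }
  let D : SU 3 F 2 := ⟨⟨_, (memD h2 hw).1⟩, (memD h2 hw).2⟩
  let X : SU 3 F 2 := ⟨⟨_, (memX h2 hw).1⟩, (memX h2 hw).2⟩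
  have hZ : ∀ z ∈ Subgroup.center (SU 3 F 2), ∀ i j, i ≠ j → m z i j = 0 := by
    intro z hz
    have := congrArg m (Subgroup.mem_center_iff.1 hz D)
    rw [map_mul, map_mul] at this
    exact diag_of_comm h2 hw this
  have hZM : Subgroup.center (SU 3 F 2) ≤ Mo := fun z hz j i i' h1 h2 =>
    (by_contra fun h => h1 (hZ z hz i j h) : i = j).trans
      (by_contra fun h => h2 (hZ z hz i' j h) : i' = j).symm
  intro hc
  let π := QuotientGroup.mk' (Subgroup.center (SU 3 F 2))
  obtain ⟨K, hK⟩ := exists_isCompl (Mo.map π)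
  have hle : K ≤ Mo.map π := by
    intro g hg
    obtain ⟨A, rfl⟩ := QuotientGroup.mk'_surjective _ g
    rcases key h2 hw hs (m A) (fun i j => by
      have := A.2 (Pi.single i 1) (Pi.single j 1)
      simp only [hermForm, Matrix.mulVec_single_one] at this
      refine this.trans ?_
      fin_cases i <;> fin_cases j <;> simp [Fin.sum_univ_three]) A.1.2 with h | ⟨h1, h3⟩
    · exact ⟨A, h, rfl⟩
    · have h4 : π (A * A) = 1 := Subgroup.disjoint_def.1 hK.disjoint
        ⟨A * A, by rwa [← map_mul] at h1, rfl⟩ (by rw [map_mul]; exact K.mul_mem hg hg)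
      rw [QuotientGroup.mk'_apply, QuotientGroup.eq_one_iff] at h4
      have := hZ _ h4
      rw [map_mul] at this
      simp [this] at h3
  have htop : Mo.map π = ⊤ := by
    have := codisjoint_iff.1 hK.codisjoint
    rwa [sup_eq_left.2 hle] at this
  have hX : X ∈ Mo := by
    have : X ∈ (Mo.map π).comap π := by rw [htop]; trivial
    rwa [Subgroup.comap_map_eq, QuotientGroup.ker_mk', sup_eq_left.2 hZM] at this
  exact absurd (hX 0 0 1 one_ne_zero one_ne_zero) (by decide)

end Cfsg.Agent.S5908
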