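import Cfsg.Statements.S5910


set_option autoImplicit false
open Cfsg

namespace Cfsg.Agent.S5910

def m1 (i j k : Fin 4) : Fin 4 := ⟨(i.1 ^^^ j.1 ^^^ k.1) % 4, Nat.mod_lt _ (by norm_num)⟩

def m (x y z : Fin 4 × Fin 2) : Fin 4 × Fin 2 := (m1 x.1 y.1 z.1, x.2 + y.2 + z.2)

def K0 : Subgroup (Equiv.Perm (Fin 4 × Fin 2)) where
  carrier := {g | ∀ x y z, g (m x y z) = m (g x) (g y) (g z)}
  mul_mem' := fun {a b} ha hb x y z => by
    simp only [Equiv.Perm.mul_apply]
    rw [hb, ha]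
  one_mem' := fun x y z => rfl
  inv_mem' := fun {a} ha x y z => by
    apply a.injective
    rw [ha]
    simp

theorem aux1 : ∀ σ : Equiv.Perm (Fin 4), ∀ i j k, σ (m1 i j k) = m1 (σ i) (σ j) (σ k) := by
  decide +kernel

theorem aux2 : ∀ τ : Fin 4 → Equiv.Perm (Fin 2), ∏ k, Equiv.Perm.sign (τ k) = 1 →
    ∀ x y z : Fin 4 × Fin 2, τ (m1 x.1 y.1 z.1) (x.2 + y.2 + z.2) =
      τ x.1 x.2 + τ y.1 y.2 + τ z.1 z.2 := by
  decide +kernel

theorem mem_K0 (g : Equiv.Perm (Fin 4 × Fin 2)) (hg : ∀ x y, x.1 = y.1 ↔ (g x).1 = (g y).1)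
    (hs : Equiv.Perm.sign g = 1) : g ∈ K0 := by
  have h1 : Function.Injective (fun i : Fin 4 => (g (i, 0)).1) := fun i j h =>
    (hg (i, 0) (j, 0)).2 h
  have h2 : ∀ i, Function.Injective (fun j : Fin 2 => (g (i, j)).2) := fun i j k h => by
    have : g (i, j) = g (i, k) := Prod.ext ((hg (i, j) (i, k)).1 rfl) h
    exact (Prod.ext_iff.1 (g.injective this)).2
  let σ : Equiv.Perm (Fin 4) := Equiv.ofBijective _ (Finite.injective_iff_bijective.1 h1)
  let τ : Fin 4 → Equiv.Perm (Fin 2) := fun i =>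
    Equiv.ofBijective _ (Finite.injective_iff_bijective.1 (h2 i))
  have hgx : ∀ x, g x = (σ x.1, τ x.1 x.2) := fun x =>
    Prod.ext ((hg x (x.1, 0)).1 rfl) rfl
  have hgp : g = (Equiv.prodCongrLeft (fun _ : Fin 2 => σ) : Equiv.Perm (Fin 4 × Fin 2)) *
      (Equiv.prodCongrRight τ : Equiv.Perm (Fin 4 × Fin 2)) := by
    ext1 x
    rw [hgx]; rfl
  rw [hgp, map_mul, Equiv.Perm.sign_prodCongrLeft, Equiv.Perm.sign_prodCongrRight] at hs
  simp only [Fin.prod_univ_two, Int.units_mul_self, one_mul] at hs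
  intro x y z
  rw [hgx, hgx x, hgx y, hgx z]
  exact Prod.ext (aux1 σ _ _ _) (aux2 τ hs x y z)

def g1 : Equiv.Perm (Fin 4 × Fin 2) := Equiv.swap (0, 1) (1, 0) * Equiv.swap (2, 1) (3, 0)

def g2 : Equiv.Perm (Fin 4 × Fin 2) := Equiv.swap (0, 0) (0, 1) * Equiv.swap (0, 0) (1, 0)

theorem g1_mem : g1 ∈ K0 := by
  change ∀ x y z, g1 (m x y z) = m (g1 x) (g1 y) (g1 z)
  decide +kernel

theorem g2_not_mem : g2 ∉ K0 := by
  intro h
  exact absurd (h (0, 0) (2, 0) (3, 0)) (by decide +kernel)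


/-- Let Ω be a set with 8 elements and f : Ω → Fin 4 a labelling whose four fibres all have size 2 (a partition of the 8 points into 4 pairs). Then the group of even permutations preserving this partition, (S₂ ≀ S₄) ∩ A₈, is not a maximal subgroup of the alternating group A₈ (it lies in a subgroup isomorphic to the affine group AGL₃(2)). -/
theorem result {Ω : Type*} [Fintype Ω] [DecidableEq Ω] (h8 : Fintype.card Ω = 8)
    (f : Ω → Fin 4) (hf : ∀ i : Fin 4, Nat.card {x : Ω // f x = i} = 2) :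
    ¬ IsCoatom ((Subgroup.closure {g : Equiv.Perm Ω | ∀ x y : Ω, f x = f y ↔ f (g x) = f (g y)} ⊓ alternatingGroup Ω).subgroupOf (alternatingGroup Ω)) := by
  classical
  let e1 : ∀ i : Fin 4, {x : Ω // f x = i} ≃ Fin 2 := fun i =>
    Fintype.equivFinOfCardEq (by rw [← Nat.card_eq_fintype_card, hf])
  let e : Ω ≃ Fin 4 × Fin 2 := (Equiv.sigmaFiberEquiv f).symm.trans
    ((Equiv.sigmaCongrRight e1).trans (Equiv.sigmaEquivProd _ _))
  have he : ∀ x, (e x).1 = f x := fun x => rfl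
  let φ : Equiv.Perm Ω ≃* Equiv.Perm (Fin 4 × Fin 2) := e.permCongrHom
  have hφ : ∀ g x, φ g x = e (g (e.symm x)) := fun _ _ => rfl
  have hφs : ∀ g, Equiv.Perm.sign (φ g) = Equiv.Perm.sign g := fun g =>
    Equiv.Perm.sign_permCongr e g
  let P : Subgroup (Equiv.Perm Ω) :=
    { carrier := {g : Equiv.Perm Ω | ∀ x y : Ω, f x = f y ↔ f (g x) = f (g y)}
      mul_mem' := fun {a b} ha hb x y => (hb x y).trans (ha _ _)
      one_mem' := fun x y => Iff.rfl
      inv_mem' := fun {a} ha x y => by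
        have := ha (a⁻¹ x) (a⁻¹ y)
        simpa using this.symm }
  have hP : Subgroup.closure {g : Equiv.Perm Ω | ∀ x y : Ω, f x = f y ↔ f (g x) = f (g y)} = P :=
    P.closure_eq
  rw [hP]
  intro hco
  let K : Subgroup (alternatingGroup Ω) := (K0.comap φ.toMonoidHom).subgroupOf _
  have hle : (P ⊓ alternatingGroup Ω).subgroupOf (alternatingGroup Ω) ≤ K := by
    rintro ⟨g, hg⟩ ⟨h1, -⟩
    apply mem_K0
    · intro x y
      have := h1 (e.symm x) (e.symm y)
      rw [← he, ← he, ← he, ← he, e.apply_symm_apply, e.apply_symm_apply] at this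
      exact this
    · exact (hφs g).trans hg
  have hs1 : φ.symm g1 ∈ alternatingGroup Ω := by
    rw [Equiv.Perm.mem_alternatingGroup, ← hφs, φ.apply_symm_apply]
    simp [g1]
  have hs2 : φ.symm g2 ∈ alternatingGroup Ω := by
    rw [Equiv.Perm.mem_alternatingGroup, ← hφs, φ.apply_symm_apply]
    simp [g2]
  have hlt : (P ⊓ alternatingGroup Ω).subgroupOf (alternatingGroup Ω) < K := by
    refine lt_of_le_of_ne hle fun h => ?_
    have h1 : (⟨_, hs1⟩ : alternatingGroup Ω) ∈ K := by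
      change φ (φ.symm g1) ∈ K0
      rw [φ.apply_symm_apply]; exact g1_mem
    rw [← h] at h1
    have h2 := h1.1 (e.symm (0, 0)) (e.symm (0, 1))
    rw [← he, ← he, ← he, ← he, ← hφ, ← hφ, e.apply_symm_apply, e.apply_symm_apply] at h2
    simp only [Subgroup.coe_subtype, φ.apply_symm_apply] at h2
    exact absurd h2 (by decide +kernel)
  have h3 : (⟨_, hs2⟩ : alternatingGroup Ω) ∈ K := hco.2 K hlt ▸ Subgroup.mem_top _
  apply g2_not_mem
  have h4 : φ (φ.symm g2) ∈ K0 := h3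
  rwa [φ.apply_symm_apply] at h4

end Cfsg.Agent.S5910
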