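import Cfsg.Statements.S5912
import Cfsg.Agent.H9.SymSix

set_option autoImplicit false
open Cfsg

namespace Cfsg.Agent.S5912

/-- The symmetric group on a 6-element set Ω has exactly two conjugacy classes of subgroups of index 6: there are two non-conjugate subgroups of index 6 (a point stabilizer and a transitive subgroup isomorphic to S₅), and every subgroup of index 6 is conjugate to one of them. -/
theorem result {Ω : Type*} [Fintype Ω] [DecidableEq Ω] (h6 : Fintype.card Ω = 6) :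
    ∃ H₁ H₂ : Subgroup (Equiv.Perm Ω), H₁.index = 6 ∧ H₂.index = 6 ∧
      (¬ ∃ g : Equiv.Perm Ω, Subgroup.map (MulAut.conj g).toMonoidHom H₁ = H₂) ∧
      ∀ H : Subgroup (Equiv.Perm Ω), H.index = 6 →
        ∃ g : Equiv.Perm Ω, Subgroup.map (MulAut.conj g).toMonoidHom H₁ = H ∨ Subgroup.map (MulAut.conj g).toMonoidHom H₂ = H := by
  obtain ⟨ψ, h1, h2⟩ := Cfsg.Agent.H9.exists_outer_six h6
  obtain ⟨a⟩ : Nonempty Ω := Fintype.card_pos_iff.1 (by omega)
  refine ⟨MulAction.stabilizer (Equiv.Perm Ω) a,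
    (MulAction.stabilizer (Equiv.Perm Ω) a).map ψ.toMonoidHom, ?_, ?_, ?_, ?_⟩
  · rw [Cfsg.Agent.H9.index_stabilizer_perm, h6]
  · rw [MulEquiv.toMonoidHom_eq_coe, Subgroup.index_map_equiv,
      Cfsg.Agent.H9.index_stabilizer_perm, h6]
  · rintro ⟨g, hg⟩
    rw [Cfsg.Agent.H9.map_conj_stabilizer] at hg
    exact h1 _ _ hg.symm
  · intro H hH
    obtain ⟨b, hb | hb⟩ := h2 H hH
    · obtain ⟨g, hg⟩ := MulAction.exists_smul_eq (Equiv.Perm Ω) a b
      refine ⟨g, Or.inl ?_⟩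
      rw [Cfsg.Agent.H9.map_conj_stabilizer, hb, ← hg]; rfl
    · obtain ⟨g, hg⟩ := MulAction.exists_smul_eq (Equiv.Perm Ω) a b
      refine ⟨ψ g, Or.inr ?_⟩
      rw [← Cfsg.Agent.H9.map_map_conj, Cfsg.Agent.H9.map_conj_stabilizer, hb, ← hg]; rfl

end Cfsg.Agent.S5912
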