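import Cfsg.Statements.S5914
import Cfsg.Agent.H9.SimplePower

set_option autoImplicit false
open Cfsg

namespace Cfsg.Agent.S5914

/-- A non-trivial finite group G is characteristically simple (its only characteristic subgroups are 1 and G) if and only if G is isomorphic to a direct power S^n (n ≥ 1) of some simple group S (possibly cyclic of prime order). -/
theorem result {G : Type*} [Group G] [Finite G] [Nontrivial G] :
    (∀ H : Subgroup G, H.Characteristic → H = ⊥ ∨ H = ⊤) ↔
    ∃ (S : Type) (_ : Group S) (_ : IsSimpleGroup S) (n : ℕ), 1 ≤ n ∧ Nonempty (G ≃* (Fin n → S)) := by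
  constructor
  · intro hG
    obtain ⟨N, n, hN, hn, ⟨e⟩⟩ := Cfsg.Agent.H9.exists_pi_simple_of_char_simple hG
    obtain ⟨S, hS, _, ⟨e'⟩⟩ := Finite.exists_type_univ_nonempty_mulEquiv.{_, 0} N
    exact ⟨S, hS, e'.symm.isSimpleGroup, n, hn, ⟨e.trans (MulEquiv.arrowCongr (Equiv.refl _) e')⟩⟩
  · rintro ⟨S, _, _, n, hn, ⟨e⟩⟩ H hH
    have hc : (H.map e.toMonoidHom).Characteristic := by
      rw [Subgroup.characteristic_iff_map_le]
      rintro φ _ ⟨_, ⟨x, hx, rfl⟩, rfl⟩
      refine ⟨((e.trans φ).trans e.symm) x, ?_, by simp⟩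
      exact (Subgroup.characteristic_iff_le_comap.1 hH ((e.trans φ).trans e.symm)) hx
    rcases Cfsg.Agent.H9.char_pi_simple _ hc with h | h
    · left
      exact (Subgroup.map_eq_bot_iff_of_injective _ e.injective).1 h
    · right
      rw [eq_top_iff]
      intro x _
      obtain ⟨y, hy, hyx⟩ : e x ∈ H.map e.toMonoidHom := h ▸ Subgroup.mem_top _
      exact e.injective hyx ▸ hy

end Cfsg.Agent.S5914
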