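import Cfsg.Statements.S5939
import Cfsg.Agent.H3.PglMax

set_option autoImplicit false
open Cfsg

namespace Cfsg.Agent.S5939



/-- Let p be a prime and F a finite field of characteristic p such that either F has p elements and p ≡ ±1 (mod 10), or F has p² elements and p ≡ ±3 (mod 10). Then PSL_2(F) has a maximal subgroup isomorphic to the alternating group A_5. -/
theorem result {F : Type*} [Field F] [Fintype F] (p : ℕ) [Fact p.Prime] [CharP F p] (h : (Fintype.card F = p ∧ (p % 10 = 1 ∨ p % 10 = 9)) ∨ (Fintype.card F = p ^ 2 ∧ (p % 10 = 3 ∨ p % 10 = 7))) : ∃ H : Subgroup (Matrix.ProjectiveSpecialLinearGroup (Fin 2) F), IsCoatom H ∧ Nonempty (H ≃* alternatingGroup (Fin 5)) := by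
  open Cfsg.Agent.H3 Cfsg.Agent.H8 in
  have hpp : p.Prime := Fact.out
  rw [← Nat.card_eq_fintype_card] at h
  have h2 : (2 : F) ≠ 0 := by
    intro e
    have h1 := (CharP.cast_eq_zero_iff F p 2).mp (by simpa using e)
    have := (Nat.prime_dvd_prime_iff_eq hpp Nat.prime_two).mp h1
    omega
  have hp2 := hpp.two_le
  have hsq : ∀ r, p % 10 = r → p ^ 2 % 10 = r ^ 2 % 10 := fun r e => by rw [Nat.pow_mod, e]
  have h5 : IsSquare (5 : F) := (isSquare_five_iff_mod h2).mpr (by
    rcases h with ⟨e, h⟩ | ⟨e, h | h⟩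
    · omega
    · have := hsq _ h; omega
    · have := hsq _ h; omega)
  obtain ⟨H, hH, -, e⟩ := exists_A5 h2 h5
  refine exists_coatom_of_maxIn (maxIn_A5 h2 ?_ (fun k => ?_) hH e) e
  · rcases h with ⟨e, h⟩ | ⟨e, h⟩
    · omega
    · rw [e]; nlinarith [show 3 ≤ p by omega]
  · rcases h with ⟨e, h⟩ | ⟨e, h⟩
    · exact Or.inl (eq_top_of_card_prime (e ▸ hpp) k)
    · have hb := Subfield.card_bot F p
      rcases eq_or_top_of_prime (bot_le : ⊥ ≤ k) Nat.prime_two (by rw [hb, e]) with rfl | rfl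
      · right; rw [hb]; omega
      · exact Or.inl rfl

end Cfsg.Agent.S5939
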