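import Cfsg.Statements.S5940
import Cfsg.Agent.H3.PglMax

set_option autoImplicit false
open Cfsg

namespace Cfsg.Agent.S5940



/-- Let p ≥ 5 be a prime with p ≡ ±3 (mod 8) and p ≢ ±1 (mod 10), and F a field with p elements. Then PSL_2(F) has a maximal subgroup isomorphic to the alternating group A_4. -/
theorem result {F : Type*} [Field F] [Fintype F] (p : ℕ) [Fact p.Prime] (hF : Fintype.card F = p) (h5 : 5 ≤ p) (h8 : p % 8 = 3 ∨ p % 8 = 5) (h10 : p % 10 ≠ 1 ∧ p % 10 ≠ 9) : ∃ H : Subgroup (Matrix.ProjectiveSpecialLinearGroup (Fin 2) F), IsCoatom H ∧ Nonempty (H ≃* alternatingGroup (Fin 4)) := by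
  open Cfsg.Agent.H3 Cfsg.Agent.H8 in
  have hq : Nat.card F = p := by rw [Nat.card_eq_fintype_card, hF]
  have hpp : p.Prime := Fact.out
  have h2 : (2 : F) ≠ 0 := odd_card_iff.mp (by rw [hq, Nat.odd_iff]; omega)
  obtain ⟨i, j, hK, hi, hj, -⟩ := exists_std_klein h2
  have hs : ¬ IsSquare (2 : F) := fun h => by
    have := isSquare_two_iff_mod.mp h
    omega
  have e := (A4_of_S4_inf hs (iso_NV h2 hK hi hj)).2
  exact exists_coatom_of_maxIn (maxIn_A4 (hq ▸ hpp) (hq ▸ h5) hs (by omega) inf_le_right e) e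

end Cfsg.Agent.S5940
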