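import Cfsg.Statements.S5947


set_option autoImplicit false
open Cfsg

namespace Cfsg.Agent.S5947

theorem exists_regular {F V : Type*} [Field F] [AddCommGroup V] [Module F V]
    (U : Subgroup (Module.End F V)ˣ) [Finite U] (hU : ∀ a ∈ U, ∀ b ∈ U, a * b = b * a)
    (hc : (Nat.card U : F) ≠ 0) :
    ∃ v : V, ∀ u ∈ U, (u : Module.End F V) v = v → u = 1 := by
  classical
  let S : V → Subgroup U := fun v =>
    { carrier := {u | ((u : (Module.End F V)ˣ) : Module.End F V) v = v}
      mul_mem' := fun {a b} ha hb => by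
        simp only [Set.mem_ofPred_eq, Subgroup.coe_mul, Units.val_mul, Module.End.mul_apply] at *
        rw [hb, ha]
      one_mem' := by simp
      inv_mem' := fun {a} ha => by
        simp only [Set.mem_ofPred_eq] at *
        conv_lhs => rw [← ha]
        rw [← Module.End.mul_apply, ← Units.val_mul]
        simp }
  have hS : ∀ v (u : U), u ∈ S v ↔ ((u : (Module.End F V)ˣ) : Module.End F V) v = v :=
    fun _ _ => Iff.rfl
  obtain ⟨v, hv⟩ := exists_minimalFor_of_wellFoundedLT (fun _ : V => True)
    (fun v => Nat.card (S v)) ⟨0, trivial⟩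
  refine ⟨v, fun s hs hsv => ?_⟩
  by_contra hne
  obtain ⟨x, hx⟩ : ∃ x, (s : Module.End F V) x ≠ x := by
    by_contra h
    push Not at h
    exact hne (Units.ext (LinearMap.ext h))
  have := Fintype.ofFinite (S v)
  have hc' : (Fintype.card (S v) : F) ≠ 0 := by
    intro h
    apply hc
    obtain ⟨c, hc⟩ := (S v).card_subgroup_dvd_card
    rw [hc, Nat.cast_mul, Nat.card_eq_fintype_card, h, zero_mul]
  let e : Module.End F V := (Fintype.card (S v) : F)⁻¹ •
    ∑ t : S v, (((t : U) : (Module.End F V)ˣ) : Module.End F V)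
  have he1 : ∀ u ∈ U, (u : Module.End F V) * e = e * u := by
    intro u hu
    simp only [e, Algebra.mul_smul_comm, Algebra.smul_mul_assoc, Finset.mul_sum, Finset.sum_mul]
    congr 1
    refine Finset.sum_congr rfl fun t _ => ?_
    rw [← Units.val_mul, ← Units.val_mul, hU u hu _ t.1.2]
  have he2 : ∀ t : S v, (((t : U) : (Module.End F V)ˣ) : Module.End F V) * e = e := by
    intro t
    simp only [e, Algebra.mul_smul_comm, Finset.mul_sum]
    congr 1
    exact Fintype.sum_equiv (Equiv.mulLeft t) _ _ (fun t' => by simp)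
  have he3 : ∀ y, (∀ t : S v, (((t : U) : (Module.End F V)ˣ) : Module.End F V) y = y) →
      e y = y := by
    intro y hy
    simp only [e, LinearMap.smul_apply, LinearMap.sum_apply, hy, Finset.sum_const,
      Finset.card_univ]
    rw [← Nat.cast_smul_eq_nsmul F, smul_smul, inv_mul_cancel₀ hc', one_smul]
  have hev : e v = v := he3 v fun t => t.2
  have hee : e (e x) = e x := he3 _ fun t => by rw [← Module.End.mul_apply, he2]
  have hsum : e (v + (x - e x)) = v := by rw [map_add, map_sub, hee, hev]; simp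
  have hlt : S (v + (x - e x)) < S v := by
    refine lt_of_le_of_ne (fun u hu => ?_) (fun h => ?_)
    · rw [hS] at hu ⊢
      have := congrArg e hu
      rwa [← Module.End.mul_apply, ← he1 _ u.2, Module.End.mul_apply, hsum] at this
    · have h1 : (⟨s, hs⟩ : U) ∈ S v := hsv
      have h2 := h ▸ h1
      rw [hS] at h2
      have h3 := congrArg (fun f : Module.End F V => f x) (he2 ⟨⟨s, hs⟩, h1⟩)
      simp only [Module.End.mul_apply] at h3
      simp only [map_add, map_sub, hsv, h3, add_right_inj, sub_left_inj] at h2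
      exact hx h2
  have h1 : Nat.card (S (v + (x - e x))) < Nat.card (S v) := by
    have := Subgroup.card_le_of_le hlt.le
    refine lt_of_le_of_ne this (fun h => hlt.ne (Subgroup.eq_of_le_of_card_ge hlt.le h.ge))
  exact absurd (hv.2 trivial h1.le) (not_le.2 h1)


/-- Let F ⊆ K be finite fields with |F| = q and [K : F] = n ≥ 2, regard K as an n-dimensional F-vector space, and let M ≤ GL_F(K) be the Singer group of multiplications by non-zero elements of K (cyclic of order q^n − 1). Assume (n, q) ≠ (6, 2), and that it is not the case that n = 2 with q a prime such that q + 1 is a power of 2. Then every abelian subgroup of GL_F(K) of order q^n − 1 is conjugate to M. -/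
theorem result {F K : Type*} [Field F] [Fintype F] [Field K] [Fintype K] [Algebra F K] (n : ℕ) (hn : 2 ≤ n) (hdim : Module.finrank F K = n)
    (hex1 : ¬ (n = 6 ∧ Fintype.card F = 2))
    (hex2 : ¬ (n = 2 ∧ (Fintype.card F).Prime ∧ ∃ a : ℕ, Fintype.card F + 1 = 2 ^ a))
    (U : Subgroup (Module.End F K)ˣ) (hU : IsMulCommutative U) (hcard : Nat.card U = Fintype.card K - 1) :
    ∃ g : (Module.End F K)ˣ, U.map (MulAut.conj g).toMonoidHom = (Units.map ((Algebra.lmul F K : K →ₐ[F] Module.End F K) : K →* Module.End F K)).range := by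
  classical
  have hU' : ∀ a ∈ U, ∀ b ∈ U, a * b = b * a := fun a ha b hb =>
    congrArg Subtype.val (hU.1.1 (⟨a, ha⟩ : U) ⟨b, hb⟩)
  have hK1 : 1 < Fintype.card K := Fintype.one_lt_card
  have hfin : Finite U := Nat.finite_of_card_ne_zero (by omega)
  have hc : (Nat.card U : F) ≠ 0 := by
    rw [hcard, Nat.cast_sub hK1.le]
    have : ((Fintype.card K : ℕ) : F) = 0 := by
      apply (algebraMap F K).injective
      simp
    rw [this]; simp
  obtain ⟨v, hv⟩ := exists_regular U hU' hc
  have hK4 : 2 < Fintype.card K := by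
    rw [Module.card_eq_pow_finrank (K := F), hdim]
    have h1 : 1 < Fintype.card F := Fintype.one_lt_card
    calc 2 < 2 ^ 2 := by norm_num
      _ ≤ 2 ^ n := Nat.pow_le_pow_right (by norm_num) hn
      _ ≤ _ := Nat.pow_le_pow_left h1 _
  have hv0 : v ≠ 0 := by
    rintro rfl
    have : U = ⊥ := (Subgroup.eq_bot_iff_forall _).2 fun u hu => hv u hu (map_zero _)
    rw [this, Subgroup.card_bot] at hcard
    omega
  have hinj : ∀ u : (Module.End F K)ˣ, Function.Injective (u : Module.End F K) := fun u =>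
    ((Module.End.isUnit_iff _).1 u.isUnit).1
  have htrans : ∀ w : K, w ≠ 0 → ∃ u ∈ U, (u : Module.End F K) v = w := by
    let f : U → {w : K // w ≠ 0} := fun u => ⟨((u : (Module.End F K)ˣ) : Module.End F K) v,
      fun h => hv0 (hinj _ (by rw [h, map_zero]))⟩
    have hf : Function.Injective f := by
      intro a b hab
      have h1 : ((a : (Module.End F K)ˣ) : Module.End F K) v =
        ((b : (Module.End F K)ˣ) : Module.End F K) v := congrArg Subtype.val hab
      have := hv ((b : (Module.End F K)ˣ)⁻¹ * a) (U.mul_mem (U.inv_mem b.2) a.2) (by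
        rw [Units.val_mul, Module.End.mul_apply, h1, ← Module.End.mul_apply, ← Units.val_mul]
        simp)
      exact Subtype.ext (inv_mul_eq_one.1 this).symm
    have hb := (Nat.bijective_iff_injective_and_card f).2 ⟨hf, by
      rw [hcard, Nat.card_eq_fintype_card]; simp⟩
    intro w hw
    obtain ⟨u, hu⟩ := hb.2 ⟨w, hw⟩
    exact ⟨u, u.2, congrArg Subtype.val hu⟩
  let s : Set (Module.End F K) := (fun u : (Module.End F K)ˣ => (u : Module.End F K)) '' U
  have hs : ∀ a ∈ s, ∀ b ∈ s, a * b = b * a := by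
    rintro _ ⟨a, ha, rfl⟩ _ ⟨b, hb, rfl⟩
    simp only [← Units.val_mul, hU' a ha b hb]
  let A := Algebra.adjoin F s
  have hAc : ∀ a b : A, a * b = b * a := (Algebra.isMulCommutative_adjoin F hs).1.1
  have hUA : ∀ u ∈ U, (u : Module.End F K) ∈ A := fun u hu => Algebra.subset_adjoin ⟨u, hu, rfl⟩
  let ev : A →ₗ[F] K := (LinearMap.applyₗ v).comp A.val.toLinearMap
  have hev : ∀ a : A, ev a = (a : Module.End F K) v := fun _ => rfl
  have hevi : Function.Injective ev := by
    rw [injective_iff_map_eq_zero]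
    intro a ha
    apply Subtype.ext
    ext w
    by_cases hw : w = 0
    · simp [hw]
    obtain ⟨u, hu, rfl⟩ := htrans w hw
    have := congrArg (fun x : A => (x : Module.End F K) v) (hAc a ⟨_, hUA u hu⟩)
    simp only [MulMemClass.coe_mul, Module.End.mul_apply] at this
    rw [this, ← hev, ha]; simp
  have hevs : Function.Surjective ev := by
    intro w
    by_cases hw : w = 0
    · exact ⟨0, by simp [hw]⟩
    obtain ⟨u, hu, rfl⟩ := htrans w hw
    exact ⟨⟨_, hUA u hu⟩, rfl⟩
  have hunit : ∀ a : A, a ≠ 0 → ∃ u ∈ U, (a : Module.End F K) = u := by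
    intro a ha
    obtain ⟨u, hu, h⟩ := htrans (ev a) (fun h => ha (hevi (by rw [h, map_zero])))
    exact ⟨u, hu, congrArg Subtype.val (hevi (a₂ := ⟨_, hUA u hu⟩) h.symm)⟩
  have hF : IsField A := by
    refine ⟨⟨0, 1, zero_ne_one⟩, hAc, fun {a} ha => ?_⟩
    obtain ⟨u, hu, h⟩ := hunit a ha
    exact ⟨⟨_, hUA u⁻¹ (U.inv_mem hu)⟩, Subtype.ext (by simp [h])⟩
  let eve : A ≃ₗ[F] K := LinearEquiv.ofBijective ev ⟨hevi, hevs⟩
  let _ : Field A := @IsField.toField A A.toRing hF
  have : Finite A := Finite.of_injective _ hevi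
  obtain ⟨σ⟩ : Nonempty (A →ₐ[F] K) :=
    FiniteField.nonempty_algHom_of_finrank_dvd (by rw [eve.finrank_eq])
  have hσ : Function.Bijective σ := (Nat.bijective_iff_injective_and_card σ).2
    ⟨σ.toRingHom.injective, Nat.card_congr eve.toEquiv⟩
  let ge : K ≃ₗ[F] K := eve.symm.trans (LinearEquiv.ofBijective σ.toLinearMap hσ)
  have hge : ∀ a : A, ge ((a : Module.End F K) v) = σ a := fun a => by
    have : (a : Module.End F K) v = eve a := rfl
    simp only [ge, this, LinearEquiv.trans_apply, LinearEquiv.symm_apply_apply]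
    rfl
  let g : (Module.End F K)ˣ := LinearMap.GeneralLinearGroup.ofLinearEquiv ge
  have key : ∀ u (hu : u ∈ U), ((g * u * g⁻¹ : (Module.End F K)ˣ) : Module.End F K) =
      Algebra.lmul F K (σ ⟨_, hUA u hu⟩) := by
    intro u hu
    ext w
    obtain ⟨a, rfl⟩ := hσ.2 w
    have h1 : ((g⁻¹ : (Module.End F K)ˣ) : Module.End F K) (σ a) = (a : Module.End F K) v := by
      rw [← hge]
      exact ge.symm_apply_apply _
    rw [Units.val_mul, Units.val_mul, Module.End.mul_apply, Module.End.mul_apply, h1]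
    have := hge (⟨_, hUA u hu⟩ * a)
    rw [map_mul] at this
    exact this
  refine ⟨g, le_antisymm ?_ ?_⟩
  · rintro _ ⟨u, hu, rfl⟩
    have h0 : σ ⟨_, hUA u hu⟩ ≠ 0 := by
      rw [map_ne_zero]
      intro h
      exact u.ne_zero (congrArg Subtype.val h)
    exact ⟨Units.mk0 _ h0, Units.ext (key u hu).symm⟩
  · rintro _ ⟨k, rfl⟩
    obtain ⟨a, ha⟩ := hσ.2 k
    obtain ⟨u, hu, h⟩ := hunit a (fun h => k.ne_zero (by rw [← ha, h, map_zero]))
    refine ⟨u, hu, Units.ext ((key u hu).trans ?_)⟩
    have : a = ⟨_, hUA u hu⟩ := Subtype.ext h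
    rw [← this, ha]; rfl

end Cfsg.Agent.S5947
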